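import Cfsg.Agent.H10.Conj

/-! S4415, part 1: weights of a four-group on an `F₃`-module with `dim [E,b] ≤ 2`. -/

set_option autoImplicit false

namespace H10.Cu

open Cfsg Subgroup Module
open scoped commutatorElement

abbrev K3 := ZMod 3

variable {S : Type*} [Group S] {E : Type*} [AddCommGroup E] [Module K3 E]

theorem three (x : E) : x + x + x = 0 := by
  have : (3 : K3) • x = 0 := by rw [show (3 : K3) = 0 from rfl, zero_smul]
  rw [← this]; module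

theorem neg_self {x : E} (h : x = -x) : x = 0 := by
  have := three x
  linear_combination (norm := module) this - h

variable (ρ : Representation K3 S E)

theorem rm (g h : S) (v : E) : ρ (g * h) v = ρ g (ρ h v) := by rw [map_mul]; rfl

theorem ri (g : S) (v : E) : ρ g (ρ g⁻¹ v) = v := by rw [← rm, mul_inv_cancel, map_one]; rfl

theorem ri' (g : S) (v : E) : ρ g⁻¹ (ρ g v) = v := by rw [← rm, inv_mul_cancel, map_one]; rfl

theorem r1 (v : E) : ρ 1 v = v := by rw [map_one]; rfl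

theorem r0 {g : S} {v : E} (h : ρ g v = 0) : v = 0 := by rw [← ri' ρ g v, h, map_zero]

/-- pointwise stabilizer -/
def Fix (N : Submodule K3 E) : Subgroup S where
  carrier := {g | ∀ v ∈ N, ρ g v = v}
  one_mem' v _ := r1 ρ v
  mul_mem' hx hy v hv := by rw [rm, hy v hv, hx v hv]
  inv_mem' {x} hx v hv := by
    have := ri' ρ x v
    rwa [hx v hv] at this

/-- trivial on the quotient -/
def Triv (N : Submodule K3 E) : Subgroup S where
  carrier := {g | ∀ v, ρ g v - v ∈ N}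
  one_mem' v := by rw [r1, sub_self]; exact N.zero_mem
  mul_mem' {x y} hx hy v := by
    have := N.add_mem (hx (ρ y v)) (hy v)
    rwa [sub_add_sub_cancel, ← rm] at this
  inv_mem' {x} hx v := by
    have := N.neg_mem (hx (ρ x⁻¹ v))
    rwa [ri, neg_sub] at this

/-- fixed vectors -/
def CE (T : Subgroup S) : Submodule K3 E where
  carrier := {v | ∀ g ∈ T, ρ g v = v}
  zero_mem' g _ := map_zero _
  add_mem' hx hy g hg := by rw [map_add, hx g hg, hy g hg]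
  smul_mem' c x hx g hg := by rw [map_smul, hx g hg]

/-- weight space -/
def Wt (a a' : S) (ε ε' : K3) : Submodule K3 E where
  carrier := {v | ρ a v = ε • v ∧ ρ a' v = ε' • v}
  zero_mem' := by simp
  add_mem' hx hy := ⟨by rw [map_add, hx.1, hy.1, smul_add], by rw [map_add, hx.2, hy.2, smul_add]⟩
  smul_mem' c x hx := ⟨by rw [map_smul, hx.1, smul_comm], by rw [map_smul, hx.2, smul_comm]⟩

/-- invariance -/
def Iv (g : S) (N : Submodule K3 E) : Prop := ∀ v ∈ N, ρ g v ∈ N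

variable {ρ}

theorem mem_Wt {a a' : S} {ε ε' : K3} {v : E} :
    v ∈ Wt ρ a a' ε ε' ↔ ρ a v = ε • v ∧ ρ a' v = ε' • v := Iff.rfl

theorem comm_le_Fix {T B : Subgroup S} {N : Submodule K3 E} (hT : ∀ t ∈ T, Iv ρ t N)
    (hB : B ≤ Fix ρ N) : ⁅T, B⁆ ≤ Fix ρ N := by
  rw [Subgroup.commutator_le]
  intro t ht x hx
  refine (Fix ρ N).mul_mem (fun v hv => ?_) ((Fix ρ N).inv_mem (hB hx))
  rw [rm, rm, hB hx _ (hT _ (T.inv_mem ht) v hv), ri]

theorem comm_le_Triv {T B : Subgroup S} {N : Submodule K3 E} (hT : ∀ t ∈ T, Iv ρ t N)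
    (hB : B ≤ Triv ρ N) : ⁅T, B⁆ ≤ Triv ρ N := by
  rw [Subgroup.commutator_le]
  intro t ht x hx
  refine (Triv ρ N).mul_mem (fun v => ?_) ((Triv ρ N).inv_mem (hB hx))
  have := hT t ht _ (hB hx (ρ t⁻¹ v))
  rwa [map_sub, ri, ← rm, ← rm] at this

theorem ind {a a' : S} {x₀ x₁ x₂ x₃ : E} (h₀ : x₀ ∈ Wt ρ a a' 1 1) (h₁ : x₁ ∈ Wt ρ a a' 1 (-1))
    (h₂ : x₂ ∈ Wt ρ a a' (-1) 1) (h₃ : x₃ ∈ Wt ρ a a' (-1) (-1)) (h : x₀ + x₁ + x₂ + x₃ = 0) :
    x₀ = 0 ∧ x₁ = 0 ∧ x₂ = 0 ∧ x₃ = 0 := by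
  have e1 := congrArg (ρ a) h
  have e2 := congrArg (ρ a') h
  simp only [map_add, map_zero, h₀.1, h₀.2, h₁.1, h₁.2, h₂.1, h₂.2, h₃.1, h₃.2] at e1 e2
  have e3 := congrArg (ρ a) e2
  simp only [map_add, map_zero, map_smul, h₀.1, h₁.1, h₂.1, h₃.1] at e3
  refine ⟨?_, ?_, ?_, ?_⟩
  · linear_combination (norm := module) h + e1 + e2 + e3 - three x₀
  · linear_combination (norm := module) h + e1 - e2 - e3 - three x₁
  · linear_combination (norm := module) h - e1 + e2 - e3 - three x₂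
  · linear_combination (norm := module) h - e1 - e2 + e3 - three x₃

/-- a four-group `{1, a, a', a a'}` permuted cyclically by `b` -/
structure Four (b a a' : S) : Prop where
  ne : a ≠ 1
  sq : a * a = 1
  e1 : b * a * b⁻¹ = a'
  e2 : b * a' * b⁻¹ = a * a'

namespace Four

variable {b a a' : S} (h : Four b a a')
include h

theorem sq' : a' * a' = 1 := by
  rw [← h.e1]; calc _ = b * (a * a) * b⁻¹ := by group
    _ = 1 := by rw [h.sq]; group

theorem sq'' : a * a' * (a * a') = 1 := by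
  rw [← h.e2]; calc _ = b * (a' * a') * b⁻¹ := by group
    _ = 1 := by rw [h.sq']; group

theorem inv : a⁻¹ = a := inv_eq_of_mul_eq_one_right h.sq
theorem inv' : a'⁻¹ = a' := inv_eq_of_mul_eq_one_right h.sq'

theorem cm : a' * a = a * a' := by
  have := inv_eq_of_mul_eq_one_right h.sq''
  rwa [mul_inv_rev, h.inv, h.inv'] at this

theorem e3 : b * (a * a') * b⁻¹ = a := by
  calc _ = (b * a * b⁻¹) * (b * a' * b⁻¹) := by group
    _ = a * (a' * a') := by rw [h.e1, h.e2, ← mul_assoc, h.cm, mul_assoc]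
    _ = a := by rw [h.sq', mul_one]

theorem ne' : a' ≠ 1 := fun e => h.ne (by
  have := h.e1; rw [e] at this; calc a = b⁻¹ * (b * a * b⁻¹) * b := by group
    _ = 1 := by rw [this]; group)

theorem ne'' : a * a' ≠ 1 := fun e => h.ne (by rw [← h.e3, e]; group)

theorem rot : Four b a' (a * a') :=
  ⟨h.ne', h.sq', h.e2, by rw [h.e3, ← mul_assoc, h.cm, mul_assoc, h.sq', mul_one]⟩

theorem shift {ε ε' : K3} {v : E} (hv : v ∈ Wt ρ a a' ε ε') :
    ρ b v ∈ Wt ρ a a' (ε * ε') ε := by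
  constructor
  · have : a * b = b * (a * a') := by
      conv_lhs => rw [← h.e3]
      group
    rw [← rm, this, rm, rm, hv.2, map_smul, hv.1, smul_smul, map_smul, mul_comm]
  · have : a' * b = b * a := by rw [← h.e1]; group
    rw [← rm, this, rm, hv.1, map_smul]

theorem s0 {v : E} (hv : v ∈ Wt ρ a a' 1 1) : ρ b v ∈ Wt ρ a a' 1 1 := by
  simpa using h.shift hv
theorem s1 {v : E} (hv : v ∈ Wt ρ a a' 1 (-1)) : ρ b v ∈ Wt ρ a a' (-1) 1 := by
  simpa using h.shift hv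
theorem s2 {v : E} (hv : v ∈ Wt ρ a a' (-1) 1) : ρ b v ∈ Wt ρ a a' (-1) (-1) := by
  simpa using h.shift hv
theorem s3 {v : E} (hv : v ∈ Wt ρ a a' (-1) (-1)) : ρ b v ∈ Wt ρ a a' 1 (-1) := by
  simpa using h.shift hv

theorem dec (v : E) : ∃ x₀ ∈ Wt ρ a a' 1 1, ∃ x₁ ∈ Wt ρ a a' 1 (-1), ∃ x₂ ∈ Wt ρ a a' (-1) 1,
    ∃ x₃ ∈ Wt ρ a a' (-1) (-1), v = x₀ + x₁ + x₂ + x₃ ∧ ∀ N : Submodule K3 E, Iv ρ a N → Iv ρ a' N →
      v ∈ N → x₀ ∈ N ∧ x₁ ∈ N ∧ x₂ ∈ N ∧ x₃ ∈ N := by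
  have q1 : ∀ w, ρ a (ρ a w) = w := fun w => by rw [← rm, h.sq, r1]
  have q2 : ∀ w, ρ a' (ρ a' w) = w := fun w => by rw [← rm, h.sq', r1]
  have q3 : ∀ w, ρ a' (ρ a w) = ρ a (ρ a' w) := fun w => by rw [← rm, h.cm, rm]
  refine ⟨v + ρ a v + ρ a' v + ρ a (ρ a' v), ⟨?_, ?_⟩, v + ρ a v - ρ a' v - ρ a (ρ a' v), ⟨?_, ?_⟩,
    v - ρ a v + ρ a' v - ρ a (ρ a' v), ⟨?_, ?_⟩, v - ρ a v - ρ a' v + ρ a (ρ a' v), ⟨?_, ?_⟩, ?_, ?_⟩
  iterate 8 simp only [map_add, map_sub, q1, q2, q3]; module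
  · linear_combination (norm := module) - three v
  · intro N h1 h2 hv
    have m1 := h1 v hv
    have m2 := h2 v hv
    have m3 := h1 _ m2
    exact ⟨N.add_mem (N.add_mem (N.add_mem hv m1) m2) m3, N.sub_mem (N.sub_mem (N.add_mem hv m1) m2) m3,
      N.sub_mem (N.add_mem (N.sub_mem hv m1) m2) m3, N.add_mem (N.sub_mem (N.sub_mem hv m1) m2) m3⟩

theorem ex {N : Submodule K3 E} (h1 : Iv ρ a N) (h2 : Iv ρ a' N) (h3 : Iv ρ b N) :
    N ≤ Wt ρ a a' 1 1 ∨ ∃ v ∈ N, v ∈ Wt ρ a a' 1 (-1) ∧ v ≠ 0 := by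
  by_contra hc
  push Not at hc
  refine hc.1 fun v hv => ?_
  obtain ⟨x₀, m0, x₁, m1, x₂, m2, x₃, m3, e, hN⟩ := h.dec (ρ := ρ) v
  obtain ⟨-, n1, n2, n3⟩ := hN N h1 h2 hv
  have z1 := hc.2 _ n1 m1
  have z3 := r0 ρ (hc.2 _ (h3 _ n3) (h.s3 m3))
  have z2 := r0 ρ (r0 ρ (hc.2 _ (h3 _ (h3 _ n2)) (h.s3 (h.s2 m2))))
  rw [e, z1, z2, z3]; simpa using m0

end Four

/-- the setting -/
structure St (ρ : Representation K3 S E) (b : S) : Prop where
  inj : Function.Injective ρ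
  rk : finrank K3 (LinearMap.range (ρ b - 1)) ≤ 2

theorem eq_one (hi : Function.Injective ρ) {g : S} (h : ∀ v, ρ g v = v) : g = 1 :=
  hi (by rw [map_one]; ext v; exact h v)

variable [Finite E] {b a a' : S}

theorem St.ex (s : St ρ b) (h : Four b a a') : ∃ v, v ∈ Wt ρ a a' 1 (-1) ∧ v ≠ 0 := by
  rcases h.ex (ρ := ρ) (N := ⊤) (fun _ _ => trivial) (fun _ _ => trivial) (fun _ _ => trivial) with
    e | ⟨v, -, e⟩
  · exact absurd (eq_one s.inj fun v => by simpa using (e (Submodule.mem_top (x := v))).1) h.ne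
  · exact ⟨v, e⟩

theorem St.span (s : St ρ b) (h : Four b a a') {v : E} (hv : v ∈ Wt ρ a a' 1 (-1)) (h0 : v ≠ 0)
    (w : E) : ∃ c d : K3, ρ b w - w = c • (ρ b v - v) + d • (ρ b (ρ b v) - ρ b v) := by
  have : Module.Finite K3 E := Module.Finite.of_finite
  have li : LinearIndependent K3 ![ρ b v - v, ρ b (ρ b v) - ρ b v] := by
    rw [LinearIndependent.pair_iff]
    intro c d e
    have := ind (Submodule.zero_mem _) (Submodule.smul_mem _ (-c) hv)
      (Submodule.smul_mem _ (c - d) (h.s1 hv)) (Submodule.smul_mem _ d (h.s2 (h.s1 hv)))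
      (by linear_combination (norm := module) e)
    obtain ⟨-, e1, -, e3⟩ := this
    refine ⟨neg_eq_zero.1 ((smul_eq_zero.1 e1).resolve_right h0),
      (smul_eq_zero.1 e3).resolve_right fun e => h0 (r0 ρ (r0 ρ e))⟩
  have e := finrank_span_eq_card li
  have hle : Submodule.span K3 (Set.range ![ρ b v - v, ρ b (ρ b v) - ρ b v]) ≤
      LinearMap.range (ρ b - 1) := by
    rw [Submodule.span_le]
    rintro _ ⟨i, rfl⟩
    fin_cases i
    · exact ⟨v, rfl⟩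
    · exact ⟨ρ b v, rfl⟩
  have := Submodule.eq_of_le_of_finrank_le hle (by rw [e]; simpa using s.rk)
  have hw : ρ b w - w ∈ LinearMap.range (ρ b - 1) := ⟨w, rfl⟩
  rw [← this, Matrix.range_cons_cons_empty, Submodule.mem_span_pair] at hw
  obtain ⟨c, d, e⟩ := hw
  exact ⟨c, d, e.symm⟩

theorem St.line (s : St ρ b) (h : Four b a a') {v : E} (hv : v ∈ Wt ρ a a' 1 (-1)) (h0 : v ≠ 0)
    {w : E} (hw : w ∈ Wt ρ a a' 1 (-1)) : ∃ c : K3, w = c • v := by
  obtain ⟨c, d, e⟩ := s.span h hv h0 w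
  have := ind (Submodule.zero_mem _) (Submodule.sub_mem _ hw (Submodule.smul_mem _ c hv))
      (Submodule.sub_mem _ (Submodule.smul_mem _ (c - d) (h.s1 hv)) (h.s1 hw))
      (Submodule.smul_mem _ d (h.s2 (h.s1 hv))) (by linear_combination (norm := module) - e)
  exact ⟨c, sub_eq_zero.1 this.2.1⟩

theorem St.fix (s : St ρ b) (h : Four b a a') {w : E} (hw : w ∈ Wt ρ a a' 1 1) : ρ b w = w := by
  obtain ⟨v, hv, h0⟩ := s.ex h
  obtain ⟨c, d, e⟩ := s.span h hv h0 w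
  have := ind (Submodule.sub_mem _ hw (h.s0 hw)) (Submodule.smul_mem _ (-c) hv)
      (Submodule.smul_mem _ (c - d) (h.s1 hv))
      (Submodule.smul_mem _ d (h.s2 (h.s1 hv))) (by linear_combination (norm := module) - e)
  exact (sub_eq_zero.1 this.1).symm

/-- the dichotomy -/
theorem St.dich (s : St ρ b) (h : Four b a a') {T : Subgroup S} (hT : T ≤ ⁅T, zpowers b⁆)
    (ha : a ∈ T) (ha' : a' ∈ T) {N : Submodule K3 E} (h1 : ∀ t ∈ T, Iv ρ t N) (h2 : Iv ρ b N) :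
    T ≤ Fix ρ N ∨ T ≤ Triv ρ N := by
  rcases h.ex (h1 a ha) (h1 a' ha') h2 with e | ⟨v, hN, hv, h0⟩
  · exact Or.inl (hT.trans (comm_le_Fix h1 (zpowers_le_of_mem fun w hw => s.fix h (e hw))))
  · refine Or.inr (hT.trans (comm_le_Triv h1 (zpowers_le_of_mem fun w => ?_)))
    obtain ⟨c, d, e⟩ := s.span h hv h0 w
    rw [e]
    exact N.add_mem (N.smul_mem _ (N.sub_mem (h2 _ hN) hN))
      (N.smul_mem _ (N.sub_mem (h2 _ (h2 _ hN)) (h2 _ hN)))

end H10.Cu
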