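import Cfsg.Agent.H10.Cu1
import Cfsg.Agent.H10.Misc
import Cfsg.Agent.H1.Coprime2

/-! S4415, part 2: central involutions, determinants, diagonal elements. -/

set_option autoImplicit false

namespace H10.Cu

open Cfsg Subgroup Module
open scoped commutatorElement

variable {S : Type*} [Group S] {E : Type*} [AddCommGroup E] [Module K3 E]
  {ρ : Representation K3 S E} {b a a' q q' z z' : S} {T : Subgroup S}

/-- the four-group as a subgroup -/
def Four.K (h : Four b a a') : Subgroup S where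
  carrier := {x | x = 1 ∨ x = a ∨ x = a' ∨ x = a * a'}
  one_mem' := Or.inl rfl
  mul_mem' := by
    have e1 : a * (a * a') = a' := by rw [← mul_assoc, h.sq, one_mul]
    have e2 : a' * (a * a') = a := by rw [← mul_assoc, h.cm, mul_assoc, h.sq', mul_one]
    have e3 : a * a' * a = a' := by rw [mul_assoc, h.cm, e1]
    have e4 : a * a' * a' = a := by rw [mul_assoc, h.sq', mul_one]
    rintro x y (rfl | hx | hx | hx) (rfl | hy | hy | hy) <;>
      simp [*, h.sq, h.sq', h.sq'', h.cm]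
  inv_mem' := by
    rintro x (rfl | hx | hx | hx) <;> simp [*, h.inv, h.inv', h.cm]

theorem Four.mem_K (h : Four b a a') {x : S} :
    x ∈ h.K ↔ x = 1 ∨ x = a ∨ x = a' ∨ x = a * a' := Iff.rfl

theorem Four.mK (h : Four b a a') : a ∈ h.K := Or.inr (Or.inl rfl)
theorem Four.mK' (h : Four b a a') : a' ∈ h.K := Or.inr (Or.inr (Or.inl rfl))

theorem Four.K_le (h : Four b a a') (h1 : a ∈ T) (h2 : a' ∈ T) : h.K ≤ T := by
  rintro x (rfl | rfl | rfl | rfl)
  exacts [T.one_mem, h1, h2, T.mul_mem h1 h2]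

theorem Four.neq (h : Four b a a') : a ≠ a' := fun e => h.ne'' (by rw [← e, h.sq])

theorem Four.fix1 (h : Four b a a') {u : S} (hu : u ∈ h.K) (e : b * u * b⁻¹ = u) : u = 1 := by
  rcases hu with rfl | hu | hu | hu
  · rfl
  · rw [hu, h.e1] at e; exact absurd e.symm h.neq
  · rw [hu, h.e2] at e; exact absurd (mul_eq_right.1 e) h.ne
  · rw [hu, h.e3] at e; exact absurd (mul_eq_left.1 e.symm) h.ne'

theorem Four.bK (h : Four b a a') {u : S} (hu : u ∈ h.K) : b * u * b⁻¹ ∈ h.K := by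
  rcases hu with rfl | hu | hu | hu
  · simp
  · rw [hu, h.e1]; exact h.mK'
  · rw [hu, h.e2]; exact h.K.mul_mem h.mK h.mK'
  · rw [hu, h.e3]; exact h.mK

theorem Four.sqK (h : Four b a a') {u : S} (hu : u ∈ h.K) : u * u = 1 := by
  rcases hu with rfl | rfl | rfl | rfl
  exacts [mul_one _, h.sq, h.sq', h.sq'']

theorem Four.card (h : Four b a a') : Nat.card h.K = 4 := by
  classical
  have : (h.K : Set S) = ↑({1, a, a', a * a'} : Finset S) := by
    ext x; simp [h.mem_K]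
  have e : Nat.card h.K = ({1, a, a', a * a'} : Finset S).card := by
    rw [← Set.ncard_coe_finset, ← this]; rfl
  rw [e, Finset.card_eq_four]
  exact ⟨1, a, a', a * a', h.ne.symm, h.ne'.symm, h.ne''.symm, h.neq,
    fun e => h.ne' (mul_eq_left.1 e.symm), fun e => h.ne (mul_eq_right.1 e.symm), rfl⟩

theorem elab_of {A : Subgroup S} (h : ∀ x ∈ A, x * x = 1) : IsElementaryAbelian 2 A := by
  refine ⟨isMulCommutative_iff_le_CC.2 (le_CC_iff.2 fun x hx y hy => ?_),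
    fun x hx => by rw [sq, h x hx]⟩
  have := inv_eq_of_mul_eq_one_right (h _ (A.mul_mem hx hy))
  rwa [mul_inv_rev, inv_eq_of_mul_eq_one_right (h x hx), inv_eq_of_mul_eq_one_right (h y hy)] at this

/-- the configuration -/
structure Cf (ρ : Representation K3 S E) (b q q' : S) (T : Subgroup S) : Prop extends St ρ b where
  four : Four b q q'
  m : q ∈ T
  m' : q' ∈ T
  le : T ≤ ⁅T, zpowers b⁆
  nb : b ∈ NN(T)
  b3 : b * b * b = 1

/-- central involutions -/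
structure CI (T : Subgroup S) (b z : S) : Prop where
  m : z ∈ T
  sq : z * z = 1
  c : ∀ t ∈ T, t * z = z * t
  cb : b * z = z * b

theorem iv_of_comm {t : S} {ε ε' : K3} (h1 : t * a = a * t) (h2 : t * a' = a' * t) :
    Iv ρ t (Wt ρ a a' ε ε') := fun v hv =>
  ⟨by rw [← rm, ← h1, rm, hv.1, map_smul], by rw [← rm, ← h2, rm, hv.2, map_smul]⟩

theorem k3 : ∀ c : K3, c ≠ 0 → c = 1 ∨ c = -1 := by decide

/-- scalar action on the three lines -/
def Sc (ρ : Representation K3 S E) (a a' g : S) (c : K3) : Prop :=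
  ∀ x, x ∈ Wt ρ a a' 1 (-1) ∨ x ∈ Wt ρ a a' (-1) 1 ∨ x ∈ Wt ρ a a' (-1) (-1) → ρ g x = c • x

variable [Finite E]

theorem Cf.z1 (c : Cf ρ b q q' T) (h : CI T b z) (h1 : z ≠ 1) {v : E} (hv : ρ z v = v) :
    ∀ t ∈ T, ρ t v = v := by
  rcases c.dich c.four c.le c.m c.m' (N := Wt ρ z z 1 1)
    (fun t ht => iv_of_comm (h.c t ht) (h.c t ht)) (iv_of_comm h.cb h.cb) with e | e
  · exact fun t ht => e ht v ⟨by simpa using hv, by simpa using hv⟩
  · refine absurd (eq_one c.inj fun w => ?_) h1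
    have := (e h.m w).1
    rw [map_sub, ← rm, h.sq, r1] at this
    exact sub_eq_zero.1 (neg_self (by linear_combination (norm := module) - this))

theorem Cf.z2 (c : Cf ρ b q q' T) (h : CI T b z) (h' : CI T b z') (h1 : z ≠ 1) (h2 : z' ≠ 1) :
    z' = z := by
  by_contra hc
  have e := h.c z' h'.m
  have h3 : CI T b (z * z') := ⟨T.mul_mem h.m h'.m,
    by rw [mul_assoc, ← mul_assoc z', e, mul_assoc, h'.sq, mul_one, h.sq],
    fun t ht => by rw [← mul_assoc, h.c t ht, mul_assoc, h'.c t ht, mul_assoc],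
    by rw [← mul_assoc, h.cb, mul_assoc, h'.cb, mul_assoc]⟩
  have h4 : z * z' ≠ 1 := fun e' => hc (by
    rw [← inv_eq_of_mul_eq_one_right e', inv_eq_of_mul_eq_one_right h.sq])
  refine h1 (eq_one c.inj fun v => ?_)
  obtain ⟨w, hw⟩ : ∃ w, w = v - ρ z v := ⟨_, rfl⟩
  have e1 : ρ z w = -w := by rw [hw, map_sub, ← rm, h.sq, r1, neg_sub]
  have e2 := c.z1 h' h2 (v := w + ρ z' w) (by rw [map_add, ← rm, h'.sq, r1, add_comm]) z h.m
  rw [map_add, ← rm, ← e, rm, e1, map_neg] at e2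
  have e3 : w + ρ z' w = 0 := neg_self (by linear_combination (norm := module) - e2)
  have e4 := c.z1 h3 h4 (v := w) (by
    rw [rm, eq_neg_of_add_eq_zero_right e3, map_neg, e1, neg_neg]) z h.m
  rw [e1] at e4
  have := neg_self e4.symm
  rw [hw] at this
  exact (sub_eq_zero.1 this).symm

omit [Finite E] in
theorem det_one (hT : T ≤ ⁅T, zpowers b⁆) {t : S} (ht : t ∈ T) : LinearMap.det (ρ t) = 1 := by
  let f : S →* K3ˣ := (LinearMap.det.comp ρ).toHomUnits
  have : ⁅T, zpowers b⁆ ≤ f.ker := by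
    rw [Subgroup.commutator_le]
    intro x _ y _
    rw [MonoidHom.mem_ker, map_commutatorElement, commutatorElement_eq_one_iff_mul_comm, mul_comm]
  have := congrArg Units.val (MonoidHom.mem_ker.1 (this (hT ht)))
  simpa [f] using this

theorem refl (hT : T ≤ ⁅T, zpowers b⁆) {t : S} (ht : t ∈ T) {v : E} (h0 : v ≠ 0)
    (h : ∀ x, ρ t x - x ∈ Submodule.span K3 {v}) : ρ t v = v := by
  have : Module.Finite K3 E := Module.Finite.of_finite
  let f : Dual K3 E := (LinearEquiv.coord K3 E v h0).toLinearMap ∘ₗ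
    (ρ t - 1).codRestrict (Submodule.span K3 {v}) h
  have hf : ∀ x, f x • v = ρ t x - x := fun x => LinearEquiv.coord_apply_smul K3 E v h0 _
  have e : ρ t = LinearMap.transvection f v := by
    ext x; rw [LinearMap.transvection.apply, hf]; abel
  have := det_one (ρ := ρ) hT ht
  rw [e, LinearMap.transvection.det, add_eq_left] at this
  have e2 := hf v
  rw [this, zero_smul] at e2
  exact sub_eq_zero.1 e2.symm

theorem St.scal (s : St ρ b) (h : Four b a a') {v : E} (hv : v ∈ Wt ρ a a' 1 (-1)) (h0 : v ≠ 0)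
    {t : S} (h1 : t * a = a * t) (h2 : t * a' = a' * t) :
    ∃ c : K3, (c = 1 ∨ c = -1) ∧ ρ t v = c • v := by
  obtain ⟨c, e⟩ := s.line h hv h0 (iv_of_comm h1 h2 v hv)
  exact ⟨c, k3 c fun e' => h0 (r0 ρ (by rw [e, e', zero_smul])), e⟩

omit [Finite E] in
theorem Four.cj (h : Four b a a') {t : S} (h1 : t * a = a * t) (h2 : t * a' = a' * t) :
    (b⁻¹ * t * b) * a = a * (b⁻¹ * t * b) ∧ (b⁻¹ * t * b) * a' = a' * (b⁻¹ * t * b) := by
  have e1 : a = b⁻¹ * a' * b := by rw [← h.e1]; group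
  have e2 : a' = b⁻¹ * (a * a') * b := by rw [← h.e2]; group
  constructor
  · rw [e1]; calc _ = b⁻¹ * (t * a') * b := by group
      _ = _ := by rw [h2]; group
  · calc _ = b⁻¹ * t * b * (b⁻¹ * (a * a') * b) := by rw [← e2]
      _ = b⁻¹ * (t * a * a') * b := by group
      _ = b⁻¹ * (a * a') * b * (b⁻¹ * t * b) := by rw [h1, mul_assoc a, h2]; group
      _ = _ := by rw [← e2]

theorem St.sc_of (s : St ρ b) (b3 : b * b * b = 1) (h : Four b a a') {v : E}
    (hv : v ∈ Wt ρ a a' 1 (-1)) (h0 : v ≠ 0) {g : S} {c : K3} (e1 : ρ g v = c • v)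
    (e2 : ρ g (ρ b v) = c • ρ b v) (e3 : ρ g (ρ b (ρ b v)) = c • ρ b (ρ b v)) : Sc ρ a a' g c := by
  have hb : ∀ x, ρ b (ρ b (ρ b x)) = x := fun x => by rw [← rm, ← rm, b3, r1]
  rintro x (hx | hx | hx)
  · obtain ⟨d, rfl⟩ := s.line h hv h0 hx
    rw [map_smul, e1, smul_comm]
  · obtain ⟨d, e⟩ := s.line h hv h0 (h.s3 (h.s2 hx))
    rw [← hb x, e, map_smul, map_smul, e2, smul_comm]
  · obtain ⟨d, e⟩ := s.line h hv h0 (h.s3 hx)
    rw [← hb x, e, map_smul, map_smul, map_smul, e3, smul_comm]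

theorem St.diag (s : St ρ b) (b3 : b * b * b = 1) (h : Four b a a') {t : S} (h1 : t * a = a * t)
    (h2 : t * a' = a' * t) : ∃ u ∈ h.K, ∃ c : K3, (c = 1 ∨ c = -1) ∧ Sc ρ a a' (t * u) c := by
  obtain ⟨v, hv, h0⟩ := s.ex h
  obtain ⟨c₁, k₁, e₁⟩ := s.scal h hv h0 h1 h2
  obtain ⟨h3, h4⟩ := h.cj h1 h2
  obtain ⟨c₂, k₂, e₂⟩ := s.scal h hv h0 h3 h4
  obtain ⟨h5, h6⟩ := h.cj h3 h4
  obtain ⟨c₃, k₃, e₃⟩ := s.scal h hv h0 h5 h6
  replace e₂ : ρ t (ρ b v) = c₂ • ρ b v := by rw [← map_smul, ← e₂, rm, rm, ri]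
  replace e₃ : ρ t (ρ b (ρ b v)) = c₃ • ρ b (ρ b v) := by
    rw [← map_smul, ← map_smul, ← e₃, rm, rm, rm, rm, ri, ri]
  have f1 := hv.1
  have f2 := hv.2
  have f3 := (h.s1 hv).1
  have f4 := (h.s1 hv).2
  have f5 := (h.s2 (h.s1 hv)).1
  have f6 := (h.s2 (h.s1 hv)).2
  have key : ∀ u ∈ h.K, ∀ c : K3, (c = 1 ∨ c = -1) → ρ (t * u) v = c • v →
      ρ (t * u) (ρ b v) = c • ρ b v → ρ (t * u) (ρ b (ρ b v)) = c • ρ b (ρ b v) →
      ∃ u ∈ h.K, ∃ c : K3, (c = 1 ∨ c = -1) ∧ Sc ρ a a' (t * u) c :=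
    fun u hu c hc e1 e2 e3 => ⟨u, hu, c, hc, s.sc_of b3 h hv h0 e1 e2 e3⟩
  have m3 := h.K.mul_mem h.mK h.mK'
  rcases k₁ with rfl | rfl <;> rcases k₂ with rfl | rfl <;> rcases k₃ with rfl | rfl
  · refine key _ h.K.one_mem 1 (Or.inl rfl) ?_ ?_ ?_ <;> simp [*]
  · refine key _ m3 (-1) (Or.inr rfl) ?_ ?_ ?_ <;> simp [rm, *]
  · refine key _ h.mK' (-1) (Or.inr rfl) ?_ ?_ ?_ <;> simp [rm, *]
  · refine key _ h.mK 1 (Or.inl rfl) ?_ ?_ ?_ <;> simp [rm, *]
  · refine key _ h.mK (-1) (Or.inr rfl) ?_ ?_ ?_ <;> simp [rm, *]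
  · refine key _ h.mK' 1 (Or.inl rfl) ?_ ?_ ?_ <;> simp [rm, *]
  · refine key _ m3 1 (Or.inl rfl) ?_ ?_ ?_ <;> simp [rm, *]
  · refine key _ h.K.one_mem (-1) (Or.inr rfl) ?_ ?_ ?_ <;> simp [*]

/-- the case of a central four-group -/
theorem Cf.v4 [Finite S] (c : Cf ρ b q q' T) (h : Four b a a') (ha : a ∈ T) (ha' : a' ∈ T)
    (h1 : ∀ t ∈ T, t * a = a * t) (h2 : ∀ t ∈ T, t * a' = a' * t) : T = h.K := by
  have hF : T ≤ Fix ρ (Wt ρ a a' 1 1) := by
    rcases c.dich h c.le ha ha' (N := Wt ρ a a' 1 1)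
      (fun t ht => iv_of_comm (h1 t ht) (h2 t ht)) (fun v hv => h.s0 hv) with e | e
    · exact e
    · obtain ⟨v, hv, h0⟩ := c.ex h
      have := (e ha' v).2
      rw [map_sub, hv.2, map_smul, hv.2] at this
      exact absurd (by linear_combination (norm := module) this - three v) h0
  refine le_antisymm (c.le.trans ((H1.commutator_le_of_mul_centralizer (X := h.K) fun t ht => ?_).trans
    (comm_le_left (zpowers_le_of_mem (mem_NN_of_conj_mem fun x hx => h.bK hx))))) (h.K_le ha ha')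
  obtain ⟨u, hu, d, -, hs⟩ := c.diag c.b3 h (h1 t ht) (h2 t ht)
  have hm := T.mul_mem ht (h.K_le ha ha' hu)
  have hc : t * u = u * t := by
    rcases hu with rfl | rfl | rfl | rfl
    · simp
    · exact h1 t ht
    · exact h2 t ht
    · rw [← mul_assoc, h1 t ht, mul_assoc, h2 t ht, mul_assoc]
  refine ⟨u, hu, t * u, ?_, by rw [hc, ← mul_assoc, h.sqK hu, one_mul]⟩
  rw [CC_zpowers, mem_centralizer_singleton_iff]
  refine c.inj ?_
  ext v
  obtain ⟨x₀, m0, x₁, m1, x₂, m2, x₃, m3, rfl, -⟩ := h.dec (ρ := ρ) v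
  simp only [rm ρ (t * u), rm ρ b, map_add, c.fix h m0, hF hm _ m0, hs _ (Or.inl m1),
    hs _ (Or.inr (Or.inl m2)), hs _ (Or.inr (Or.inr m3)), hs _ (Or.inr (Or.inl (h.s1 m1))),
    hs _ (Or.inr (Or.inr (h.s2 m2))), hs _ (Or.inl (h.s3 m3)), map_smul]

end H10.Cu
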