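import Cfsg.Agent.H10.Cu2

/-! S4415, part 3: the extraspecial case. -/

set_option autoImplicit false

namespace H10.Cu

open Cfsg Subgroup Module
open scoped commutatorElement

variable {S : Type*} [Group S] {E : Type*} [AddCommGroup E] [Module K3 E]
  {ρ : Representation K3 S E} {b a a' q q' z t₀ : S} {T : Subgroup S}

/-- elements commuting with `x` modulo `N` -/
def Dm (x : S) (N : Subgroup S) : Subgroup S where
  carrier := {g | g ∈ NN(N) ∧ ⁅g, x⁆ ∈ N}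
  one_mem' := ⟨Subgroup.one_mem _, by simp⟩
  mul_mem' := by
    rintro x y ⟨hx, hx'⟩ ⟨hy, hy'⟩
    refine ⟨Subgroup.mul_mem _ hx hy, ?_⟩
    rw [commutatorElement_mul_left_eq_conj_mul]
    exact N.mul_mem (conj_mem_of_mem_NN hx hy') hx'
  inv_mem' := by
    rintro x ⟨hx, hx'⟩
    refine ⟨Subgroup.inv_mem _ hx, ?_⟩
    rw [commutatorElement_inv_left]
    refine conj_mem_of_mem_NN' hx ?_
    rw [← commutatorElement_inv]; exact N.inv_mem hx'

theorem cj_iff {t x : S} : t * x * t⁻¹ = x ↔ t * x = x * t := mul_inv_eq_iff_eq_mul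

theorem CI.mem (h : CI T b z) {x : S} : x ∈ zpowers z ↔ x = 1 ∨ x = z := by
  constructor
  · rintro ⟨k, rfl⟩
    have e : z ^ (2 : ℤ) = 1 := by rw [zpow_two, h.sq]
    rcases Int.even_or_odd' k with ⟨m, rfl | rfl⟩
    · left; simp only [zpow_mul, e, one_zpow]
    · right; simp only [zpow_add, zpow_mul, e, one_zpow, one_mul, zpow_one]
  · rintro (rfl | rfl); exacts [one_mem _, mem_zpowers _]

theorem CI.cj (h : CI T b z) {t : S} (ht : t ∈ T) : t * z * t⁻¹ = z := cj_iff.2 (h.c t ht)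

theorem CI.nn (h : CI T b z) {t : S} (ht : t ∈ T) : t ∈ NN(zpowers z) :=
  CC_le_NN _ (by rw [CC_zpowers, mem_centralizer_singleton_iff]; exact h.c t ht)

/-- `t` moves `x` to `x z` -/
theorem CI.mv_inv (h : CI T b z) {t x : S} (ht : t ∈ T) (e : t * x * t⁻¹ = x * z) :
    t⁻¹ * x * t⁻¹⁻¹ = x * z := by
  calc _ = t⁻¹ * x * (z * z) * t := by rw [h.sq]; group
    _ = t⁻¹ * (x * z) * t * (t⁻¹ * z * t⁻¹⁻¹) := by group
    _ = x * z := by
      rw [h.cj (T.inv_mem ht)]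
      conv_lhs => rw [← e]
      group

theorem cj_inv {t x : S} (e : t * x * t⁻¹ = x) : t⁻¹ * x * t⁻¹⁻¹ = x := by
  conv_lhs => rw [← e]
  group

theorem cj_b {t x y : S} (e : t * x * t⁻¹ = y) (b : S) :
    (b * t * b⁻¹) * (b * x * b⁻¹) * (b * t * b⁻¹)⁻¹ = b * y * b⁻¹ := by rw [← e]; group

theorem cj_two {s t x y w : S} (e : t * x * t⁻¹ = y) (e' : s * y * s⁻¹ = w) :
    (s * t) * x * (s * t)⁻¹ = w := by rw [← e', ← e]; group

theorem cj_mul2 {t x y x' y' : S} (e : t * x * t⁻¹ = x') (e' : t * y * t⁻¹ = y') :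
    t * (x * y) * t⁻¹ = x' * y' := by rw [← e', ← e]; group

/-- the extraspecial configuration -/
structure X8 (ρ : Representation K3 S E) (b q q' : S) (T : Subgroup S) (a a' z t₀ : S) : Prop where
  c : Cf ρ b q q' T
  h : Four b a a'
  ha : a ∈ T
  ha' : a' ∈ T
  ci : CI T b z
  z1 : z ≠ 1
  hz : ∀ t ∈ T, t * a * t⁻¹ = a ∨ t * a * t⁻¹ = a * z
  m : t₀ ∈ T
  e1 : t₀ * a * t₀⁻¹ = a
  e2 : t₀ * a' * t₀⁻¹ = a' * z

namespace X8

variable (x : X8 ρ b q q' T a a' z t₀)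
include x

theorem bz : b * z * b⁻¹ = z := cj_iff.2 x.ci.cb

theorem inv : X8 ρ b q q' T a a' z t₀⁻¹ :=
  { x with m := T.inv_mem x.m, e1 := cj_inv x.e1, e2 := x.ci.mv_inv x.m x.e2 }

theorem hz' {t : S} (ht : t ∈ T) : t * a' * t⁻¹ = a' ∨ t * a' * t⁻¹ = a' * z := by
  have e : b * (b⁻¹ * t * b) * b⁻¹ = t := by group
  rcases x.hz _ (conj_mem_of_mem_NN' x.c.nb ht) with h | h
  · left; have := cj_b h b; rwa [e, x.h.e1] at this
  · right; have := cj_b h b; rwa [e, cj_mul2 x.h.e1 x.bz, x.h.e1] at this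

theorem m1 : b * t₀ * b⁻¹ ∈ T := conj_mem_of_mem_NN x.c.nb x.m

theorem f2 : (b * t₀ * b⁻¹) * a' * (b * t₀ * b⁻¹)⁻¹ = a' := by
  have := cj_b x.e1 b; rwa [x.h.e1] at this

theorem f3 : (b * t₀ * b⁻¹) * (a * a') * (b * t₀ * b⁻¹)⁻¹ = a * a' * z := by
  have := cj_b x.e2 b; rwa [cj_mul2 x.h.e2 x.bz, x.h.e2] at this

theorem f1 : (b * t₀ * b⁻¹) * a * (b * t₀ * b⁻¹)⁻¹ = a * z := by
  have := cj_mul2 x.f3 x.f2
  rwa [mul_assoc a a', x.h.sq', mul_one, mul_assoc _ z, ← x.ci.c _ x.ha', ← mul_assoc,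
    mul_assoc a, x.h.sq', mul_one] at this

theorem gen {D : Subgroup S} (h0 : ∀ t ∈ T, t * a * t⁻¹ = a → t * a' * t⁻¹ = a' → t ∈ D)
    (h1 : t₀ ∈ D) (h2 : b * t₀ * b⁻¹ ∈ D) : T ≤ D := by
  have k : ∀ t ∈ T, t * a * t⁻¹ = a → t ∈ D := fun t ht e => by
    rcases x.hz' ht with e' | e'
    · exact h0 t ht e e'
    · refine (D.mul_mem_cancel_left (D.inv_mem h1)).1 (h0 _ (T.mul_mem (T.inv_mem x.m) ht)
        (cj_two e x.inv.e1) (cj_two e' ?_))
      rw [← x.e2]; group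
  intro t ht
  rcases x.hz t ht with e | e
  · exact k t ht e
  · refine (D.mul_mem_cancel_left (D.inv_mem h2)).1 (k _ (T.mul_mem (T.inv_mem x.m1) ht)
      (cj_two e ?_))
    rw [← x.f1]; group

theorem zK : z ∉ x.h.K := fun e => x.z1 (x.h.fix1 e x.bz)

theorem cK {u t : S} (hu : u ∈ x.h.K) (ht : t ∈ T) : ⁅t, u⁆ ∈ zpowers z := by
  have k : ∀ y ∈ T, (t * y * t⁻¹ = y ∨ t * y * t⁻¹ = y * z) → y ∈ Dm t (zpowers z) := by
    intro y hy e
    refine ⟨x.ci.nn hy, ?_⟩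
    rw [← commutatorElement_inv, inv_mem_iff, commutatorElement_def, x.ci.mem]
    rcases e with e | e
    · left; rw [e, mul_inv_cancel]
    · right; rw [e, x.ci.cj hy]
  have := (x.h.K_le (k a x.ha (x.hz t ht)) (k a' x.ha' (x.hz' ht)) hu).2
  rwa [← commutatorElement_inv, inv_mem_iff] at this

variable [Finite E]

theorem scz : Sc ρ a a' z (-1) := by
  obtain ⟨v, hv, h0⟩ := x.c.ex x.h
  obtain ⟨d, hd, e⟩ := x.c.scal x.h hv h0 (x.ci.c a x.ha).symm (x.ci.c a' x.ha').symm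
  rcases hd with rfl | rfl
  · have := x.c.z1 x.ci x.z1 (v := v) (by rw [e, one_smul]) a' x.ha'
    rw [hv.2] at this
    exact absurd (neg_self (by linear_combination (norm := module) - this)) h0
  · have k : ∀ w, ρ z (ρ b w) = ρ b (ρ z w) := fun w => by rw [← rm, ← x.ci.cb, rm]
    exact x.c.sc_of x.c.b3 x.h hv h0 e (by rw [k, e, map_smul]) (by rw [k, k, e, map_smul, map_smul])

theorem triv {s : S} (hs : s ∈ T) (h1 : s * a = a * s) (h2 : s * a' = a' * s)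
    (h3 : Sc ρ a a' s 1) : s = 1 := by
  obtain ⟨v, hv, h0⟩ := x.c.ex x.h
  have zz : ∀ w, ρ z (ρ z w) = w := fun w => by rw [← rm, x.ci.sq, r1]
  have k : ∀ w ∈ Wt ρ a a' 1 1, ρ z w = -w → ∃ d : K3, w = d • ρ t₀ v := by
    intro w hw e
    have : ρ t₀⁻¹ w ∈ Wt ρ a a' 1 (-1) := by
      constructor
      · have : a * t₀⁻¹ = t₀⁻¹ * a := by
          conv_rhs => rw [← x.e1]
          group
        rw [← rm, this, rm, hw.1, map_smul]
      · have : a' * t₀⁻¹ = t₀⁻¹ * (a' * z) := by rw [← x.e2]; group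
        rw [← rm, this, rm, rm, e, map_neg, hw.2]; simp
    obtain ⟨d, e⟩ := x.c.line x.h hv h0 this
    exact ⟨d, by rw [← map_smul, ← e, ri]⟩
  have zv : ρ z v = -v := by simpa using x.scz v (Or.inl hv)
  have v0 : ρ t₀ v ∈ Wt ρ a a' 1 1 := by
    constructor
    · rw [← rm, ← cj_iff.1 x.e1, rm, hv.1, map_smul]
    · have : a' * t₀ = t₀ * (a' * z) := by rw [← x.inv.e2]; group
      rw [← rm, this, rm, rm, zv, map_neg, hv.2]; simp
  have v1 : ρ z (ρ t₀ v) = - ρ t₀ v := by rw [← rm, ← x.ci.c _ x.m, rm, zv, map_neg]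
  obtain ⟨e, he⟩ := k _ (iv_of_comm h1 h2 _ v0) (by rw [← rm, ← x.ci.c _ hs, rm, v1, map_neg])
  have key : ∀ w, ∃ d : K3, ρ s w - w = d • (ρ s (ρ t₀ v) - ρ t₀ v) := by
    intro w
    obtain ⟨x₀, m0, x₁, m1, x₂, m2, x₃, m3, rfl, -⟩ := x.h.dec (ρ := ρ) w
    have iz := iv_of_comm (ρ := ρ) (x.ci.c a x.ha).symm (x.ci.c a' x.ha').symm _ m0
    obtain ⟨d, hd⟩ := k _ (Submodule.sub_mem _ iz m0) (by rw [map_sub, zz, neg_sub])
    have e1 := x.c.z1 x.ci x.z1 (v := x₀ + ρ z x₀) (by rw [map_add, zz, add_comm]) s hs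
    have e2 := congrArg (ρ s) hd
    refine ⟨d, ?_⟩
    simp only [map_add, map_sub, map_smul, h3 _ (Or.inl m1), h3 _ (Or.inr (Or.inl m2)),
      h3 _ (Or.inr (Or.inr m3))] at e1 e2 ⊢
    linear_combination (norm := module) e2 - hd - e1 + three (ρ s x₀) - three x₀
  have := refl (ρ := ρ) x.c.le hs (v := ρ t₀ v) (fun e => h0 (r0 ρ e)) fun w => by
    obtain ⟨d, hd⟩ := key w
    rw [hd, he]
    exact Submodule.smul_mem _ _ (Submodule.sub_mem _
      (Submodule.smul_mem _ _ (Submodule.mem_span_singleton_self _))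
      (Submodule.mem_span_singleton_self _))
  refine eq_one x.c.inj fun w => ?_
  obtain ⟨d, hd⟩ := key w
  rwa [this, sub_self, smul_zero, sub_eq_zero] at hd

theorem cen {t : S} (ht : t ∈ T) (h1 : t * a * t⁻¹ = a) (h2 : t * a' * t⁻¹ = a') :
    t ∈ x.h.K ∨ t * z ∈ x.h.K := by
  rw [cj_iff] at h1 h2
  obtain ⟨u, hu, d, hd, hs⟩ := x.c.diag x.c.b3 x.h h1 h2
  have hK := le_CC_iff.1 (isMulCommutative_iff_le_CC.1 (elab_of fun _ => x.h.sqK).1) u hu
  have hm := T.mul_mem ht (x.h.K_le x.ha x.ha' hu)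
  have g1 : t * u * a = a * (t * u) := by rw [mul_assoc, ← hK a x.h.mK, ← mul_assoc, h1, mul_assoc]
  have g2 : t * u * a' = a' * (t * u) := by
    rw [mul_assoc, ← hK a' x.h.mK', ← mul_assoc, h2, mul_assoc]
  rcases hd with rfl | rfl
  · left
    rw [eq_inv_of_mul_eq_one_left (x.triv hm g1 g2 hs)]
    exact inv_mem hu
  · right
    have := x.triv (T.mul_mem hm x.ci.m)
      (by rw [mul_assoc, ← x.ci.c a x.ha, ← mul_assoc, g1, mul_assoc])
      (by rw [mul_assoc, ← x.ci.c a' x.ha', ← mul_assoc, g2, mul_assoc])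
      (fun w hw => by rw [rm, x.scz w hw, map_smul, hs w hw]; simp)
    rw [mul_assoc, x.ci.c u (x.h.K_le x.ha x.ha' hu), ← mul_assoc] at this
    rw [eq_inv_of_mul_eq_one_left this]
    exact inv_mem hu

theorem cC {w t : S} (hw : w ∈ T) (h1 : w * a * w⁻¹ = a) (h2 : w * a' * w⁻¹ = a') (ht : t ∈ T) :
    w ∈ Dm t (zpowers z) := by
  have k : ∀ u ∈ x.h.K, u ∈ Dm t (zpowers z) := fun u hu => ⟨x.ci.nn (x.h.K_le x.ha x.ha' hu), by
    rw [← commutatorElement_inv, inv_mem_iff]; exact x.cK hu ht⟩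
  rcases x.cen hw h1 h2 with e | e
  · exact k w e
  · refine (Subgroup.mul_mem_cancel_right _ (⟨x.ci.nn x.ci.m, ?_⟩ : z ∈ Dm t (zpowers z))).1 (k _ e)
    rw [commutatorElement_eq_one_iff_mul_comm.2 (x.ci.c t ht).symm]; exact one_mem _

theorem nz : t₀ * (b * t₀ * b⁻¹) * (b * (b * t₀ * b⁻¹) * b⁻¹) ∈ zpowers z := by
  have m2 := conj_mem_of_mem_NN x.c.nb x.m1
  have g1 := cj_b x.f3 b
  rw [cj_mul2 x.h.e3 x.bz, x.h.e3] at g1
  have g3 := cj_b x.f2 b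
  rw [x.h.e2] at g3
  have g2 := cj_mul2 g1 g3
  rw [← mul_assoc a a, x.h.sq, one_mul, mul_assoc a z, ← mul_assoc z, ← x.ci.c a x.ha,
    mul_assoc a z, ← mul_assoc a a, x.h.sq, one_mul, ← x.ci.c a' x.ha'] at g2
  obtain ⟨n, hn⟩ : ∃ n, n = t₀ * (b * t₀ * b⁻¹) * (b * (b * t₀ * b⁻¹) * b⁻¹) := ⟨_, rfl⟩
  have hm : n ∈ T := hn ▸ T.mul_mem (T.mul_mem x.m x.m1) m2
  have n1 : n * a * n⁻¹ = a := hn ▸ cj_two g1 (cj_two (cj_mul2 x.f1 (x.ci.cj x.m1))
    (by rw [mul_assoc a, x.ci.sq, mul_one, x.e1]))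
  have n2 : n * a' * n⁻¹ = a' := hn ▸ cj_two g2 (cj_two (cj_mul2 x.f2 (x.ci.cj x.m1))
    (by rw [cj_mul2 x.e2 (x.ci.cj x.m), mul_assoc, x.ci.sq, mul_one]))
  have e : b * n * b⁻¹ = ⁅t₀⁻¹, n⁆ * n := by
    have : b * (b * (b * t₀ * b⁻¹) * b⁻¹) * b⁻¹ = t₀ := by
      calc _ = (b * b * b) * t₀ * (b * b * b)⁻¹ := by group
        _ = _ := by rw [x.c.b3]; group
    rw [hn, commutatorElement_def]
    calc _ = (b * t₀ * b⁻¹) * (b * (b * t₀ * b⁻¹) * b⁻¹) *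
        (b * (b * (b * t₀ * b⁻¹) * b⁻¹) * b⁻¹) := by group
      _ = _ := by rw [this]; group
  have hc := (x.cC hm n1 n2 (T.inv_mem x.m)).2
  rw [← commutatorElement_inv, inv_mem_iff, x.ci.mem] at hc
  have key : ∀ u ∈ x.h.K, b * u * b⁻¹ = ⁅t₀⁻¹, n⁆ * u → u = 1 := fun u hu e => by
    rcases hc with hc | hc
    · exact x.h.fix1 hu (by rw [e, hc, one_mul])
    · rw [hc] at e
      exact absurd ((x.h.K.mul_mem_cancel_right hu).1 (e ▸ x.h.bK hu)) x.zK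
  rw [← hn, x.ci.mem]
  rcases x.cen hm n1 n2 with h | h
  · exact Or.inl (key n h e)
  · right
    have := key _ h (by rw [cj_mul2 e x.bz, mul_assoc])
    rw [eq_inv_of_mul_eq_one_left this, inv_eq_of_mul_eq_one_right x.ci.sq]

theorem comm : ⁅T, T⁆ ≤ zpowers z := by
  have h1 := x.nz
  have h2 := x.inv.nz
  have m2 := conj_mem_of_mem_NN x.c.nb x.m1
  have h3 : ⁅t₀, b * t₀ * b⁻¹⁆ ∈ zpowers z := by
    have := mul_mem h1 (conj_mem_of_mem_NN' (x.ci.nn m2) h2)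
    convert this using 1
    rw [commutatorElement_def]; group
  have sw : ∀ {g y : S}, ⁅g, y⁆ ∈ zpowers z → ⁅y, g⁆ ∈ zpowers z := fun h => by
    rwa [← commutatorElement_inv, inv_mem_iff]
  have d0 : T ≤ Dm t₀ (zpowers z) := x.gen (fun t ht e e' => x.cC ht e e' x.m)
    ⟨x.ci.nn x.m, by simp⟩ ⟨x.ci.nn x.m1, sw h3⟩
  have d1 : T ≤ Dm (b * t₀ * b⁻¹) (zpowers z) := x.gen (fun t ht e e' => x.cC ht e e' x.m1)
    ⟨x.ci.nn x.m, h3⟩ ⟨x.ci.nn x.m1, by simp⟩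
  rw [Subgroup.commutator_le]
  intro g hg y hy
  exact (x.gen (D := Dm y (zpowers z)) (fun t ht e e' => x.cC ht e e' hy)
    ⟨x.ci.nn x.m, sw (d0 hy).2⟩ ⟨x.ci.nn x.m1, sw (d1 hy).2⟩ hg).2

theorem zent : T ⊓ CC(T) = zpowers z := by
  refine le_antisymm (fun t ht => ?_) (zpowers_le_of_mem ⟨x.ci.m, mem_CC.2 x.ci.c⟩)
  have hc := mem_CC.1 ht.2
  have key : ∀ u ∈ x.h.K, (∀ y ∈ T, y * u = u * y) → u = 1 := by
    rintro u (rfl | hu | hu | hu) h
    · rfl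
    · have := cj_iff.2 (h _ x.m1)
      rw [hu, x.f1] at this; exact absurd (mul_eq_left.1 this) x.z1
    · have := cj_iff.2 (h _ x.m)
      rw [hu, x.e2] at this; exact absurd (mul_eq_left.1 this) x.z1
    · have := cj_iff.2 (h _ x.m1)
      rw [hu, x.f3] at this; exact absurd (mul_eq_left.1 this) x.z1
  rw [x.ci.mem]
  rcases x.cen ht.1 (cj_iff.2 (hc a x.ha).symm) (cj_iff.2 (hc a' x.ha').symm) with h | h
  · exact Or.inl (key t h hc)
  · right
    have := key _ h fun y hy => by rw [← mul_assoc, hc y hy, mul_assoc, x.ci.c y hy, mul_assoc]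
    rw [eq_inv_of_mul_eq_one_left this, inv_eq_of_mul_eq_one_right x.ci.sq]

theorem concl [Finite S] (hT : IsPGroup 2 T) : IsExtraspecial 2 T ∧ Nat.card T = 32 ∧
    ∃ A : Subgroup S, A ≤ T ∧ IsElementaryAbelian 2 A ∧ Nat.card A = 8 := by
  have mc : ∀ {t y : S}, t ∈ centralizer {y} ↔ t * y * t⁻¹ = y := by
    intro t y; rw [mem_centralizer_singleton_iff, cj_iff]
  have two : ∀ {H K : Subgroup S}, H ≤ K → (∃ g ∈ K, ∀ t ∈ K, Xor (t * g ∈ H) (t ∈ H)) →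
      Nat.card K = Nat.card H * 2 := fun {H K} h e => by
    rw [← relIndex_eq_two_iff.2 e, relIndex, ← card_subgroupOf_of_le h, card_mul_index]
  have step : ∀ {K : Subgroup S} {y g : S}, K ≤ T → g ∈ K → g * y * g⁻¹ = y * z →
      (∀ t ∈ T, t * y * t⁻¹ = y ∨ t * y * t⁻¹ = y * z) →
      Nat.card K = Nat.card (K ⊓ centralizer {y} : Subgroup S) * 2 := by
    intro K y g hK hg e h
    refine two inf_le_left ⟨g, hg, fun t ht => ?_⟩
    rcases h t (hK ht) with e' | e'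
    · refine Or.inr ⟨⟨ht, mc.2 e'⟩, fun h' => x.z1 ?_⟩
      have := cj_two e (cj_mul2 e' (x.ci.cj (hK ht)))
      rw [mc.1 h'.2] at this; exact mul_eq_left.1 this.symm
    · refine Or.inl ⟨⟨K.mul_mem ht hg, mc.2 ?_⟩, fun h' => x.z1 ?_⟩
      · rw [cj_two e (cj_mul2 e' (x.ci.cj (hK ht))), mul_assoc, x.ci.sq, mul_one]
      · rw [mc.1 h'.2] at e'; exact mul_eq_left.1 e'.symm
  have c1 := step le_rfl x.m1 x.f1 x.hz
  have c2 := step (K := T ⊓ centralizer {a}) inf_le_left ⟨x.m, mc.2 x.e1⟩ x.e2 fun t => x.hz'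
  have hK := le_CC_iff.1 (isMulCommutative_iff_le_CC.1 (elab_of fun _ => x.h.sqK).1)
  have c3 : Nat.card (T ⊓ centralizer {a} ⊓ centralizer {a'} : Subgroup S) = Nat.card x.h.K * 2 := by
    refine two (fun u hu => ⟨⟨x.h.K_le x.ha x.ha' hu, mc.2 (cj_iff.2 (hK _ x.h.mK u hu))⟩,
      mc.2 (cj_iff.2 (hK _ x.h.mK' u hu))⟩) ⟨z, ⟨⟨x.ci.m, mc.2 (cj_iff.2 (x.ci.c a x.ha).symm)⟩,
      mc.2 (cj_iff.2 (x.ci.c a' x.ha').symm)⟩, fun t ht => ?_⟩
    rcases x.cen ht.1.1 (mc.1 ht.1.2) (mc.1 ht.2) with h | h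
    · exact Or.inr ⟨h, fun h' => x.zK ((x.h.K.mul_mem_cancel_left h).1 h')⟩
    · exact Or.inl ⟨h, fun h' => x.zK ((x.h.K.mul_mem_cancel_left h').1 h)⟩
  rw [x.h.card] at c3
  have hz : zpowers z ≤ ⁅T, T⁆ := zpowers_le_of_mem (by
    have := commutator_mem_commutator x.m x.ha'
    rwa [commutatorElement_def, x.e2, x.ci.cj x.ha'] at this)
  have hf : frOf T ≤ zpowers z := frOf_le_of (p := 2) x.comm fun t ht => by
    rw [← x.zent]
    refine ⟨T.pow_mem ht 2, mem_CC.2 fun y hy => ?_⟩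
    rcases x.ci.mem.1 (x.comm (commutator_mem_commutator hy ht)) with e | e
    · rw [commutatorElement_eq_one_iff_mul_comm] at e
      rw [sq, ← mul_assoc, e, mul_assoc, e, mul_assoc]
    · have e' : y * t * y⁻¹ = t * z := by rw [x.ci.c t ht, ← e, commutatorElement_def]; group
      rw [← cj_iff, sq, cj_mul2 e' e', mul_assoc, ← mul_assoc z, ← x.ci.c t ht, mul_assoc t z,
        x.ci.sq, mul_one]
  have h3 := comm_le_frOf hT
  refine ⟨⟨⟨hT, map_injective T.subtype_injective ?_, map_injective T.subtype_injective ?_⟩, ?_⟩,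
    by rw [c1, c2, c3], _, inf_le_left.trans inf_le_left, elab_of fun t ht => ?_, c3⟩
  · rw [frOf_def, map_center_subtype, x.zent]; exact le_antisymm hf (hz.trans h3)
  · rw [map_subtype_commutator, map_center_subtype, x.zent]; exact le_antisymm x.comm hz
  · rw [← card_map_subtype, map_center_subtype, x.zent, Nat.card_zpowers]
    exact orderOf_eq_prime (by rw [sq, x.ci.sq]) x.z1
  · rcases x.cen ht.1.1 (mc.1 ht.1.2) (mc.1 ht.2) with h | h
    · exact x.h.sqK h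
    · have := x.h.sqK h
      rwa [mul_assoc, ← mul_assoc z, ← x.ci.c t ht.1.1, mul_assoc t z, x.ci.sq, mul_one] at this

end X8

end H10.Cu
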