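import Cfsg.Agent.H10.Cu3
import Cfsg.Agent.H9.Basic

/-! S4415, part 4: the case of a `2`-group. -/

set_option autoImplicit false

namespace H10.Cu

open Cfsg Subgroup Module
open scoped commutatorElement

variable {S : Type*} [Group S] {E : Type*} [AddCommGroup E] [Module K3 E]
  {ρ : Representation K3 S E} {b a a' q q' z w t₀ : S} {T : Subgroup S}

theorem CI.mul (h : CI T b z) (h' : CI T b w) : CI T b (z * w) :=
  ⟨T.mul_mem h.m h'.m,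
    by rw [mul_assoc, ← mul_assoc w, h.c w h'.m, mul_assoc, h'.sq, mul_one, h.sq],
    fun t ht => by rw [← mul_assoc, h.c t ht, mul_assoc, h'.c t ht, mul_assoc],
    by rw [← mul_assoc, h.cb, mul_assoc, h'.cb, mul_assoc]⟩

theorem ex_cm [Finite S] (hT : IsPGroup 2 T) {N Z : Subgroup S} (hN : N ≤ T) (hn : T ≤ NN(N))
    (hz : T ≤ NN(Z)) (h : ¬ N ≤ Z) : ∃ x ∈ N, x ∉ Z ∧ (∀ t ∈ T, ⁅x, t⁆ ∈ Z) ∧ x * x ∈ Z := by
  have := hT.isNilpotent
  have := normal_subgroupOf hn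
  obtain ⟨x, hx, h1, h2⟩ := H9.exists_not_mem_commutator_mem (G := T) (M := N.subgroupOf T)
    (N := Z.subgroupOf T) (H := ⊤) (le_NN_of_normal _ _) fun e => h fun y hy => e (x := ⟨y, hN hy⟩) hy
  have key : ∀ (k : ℕ) (y : S), y ^ 2 ^ k ∈ Z → y ∉ Z → ∃ u ∈ zpowers y, u ∉ Z ∧ u * u ∈ Z := by
    intro k
    induction k with
    | zero => intro y e e'; exact absurd (by simpa using e) e'
    | succ k ih =>
      intro y e e'
      by_cases c : y * y ∈ Z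
      · exact ⟨y, mem_zpowers y, e', c⟩
      · obtain ⟨u, hu, e⟩ := ih (y * y) (by rwa [← sq, ← pow_mul, ← pow_succ']) c
        exact ⟨u, zpowers_le_of_mem (mul_mem (mem_zpowers y) (mem_zpowers y)) hu, e⟩
  obtain ⟨k, hk⟩ := isPGroup_iff_mem.1 hT x x.2
  obtain ⟨u, hu, e1, e2⟩ := key k x (hk ▸ Z.one_mem) h1
  have : zpowers (x : S) ≤ stabMod T Z := zpowers_le_of_mem ⟨hz x.2, fun t ht => h2 ⟨t, ht⟩ trivial⟩
  exact ⟨u, zpowers_le_of_mem (show (x : S) ∈ N from hx) hu, e1, (this hu).2, e2⟩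

/-- `C_{Z(T)}(b)` -/
def ZZ (T : Subgroup S) (b : S) : Subgroup S := T ⊓ CC(T) ⊓ centralizer {b}

theorem mem_ZZ {x : S} : x ∈ ZZ T b ↔ (x ∈ T ∧ ∀ t ∈ T, t * x = x * t) ∧ b * x = x * b := by
  rw [ZZ, mem_inf, mem_inf, mem_CC, mem_centralizer_singleton_iff, eq_comm]

structure Good (T : Subgroup S) (b a : S) : Prop where
  m : a ∈ T
  ne : a ≠ 1
  c : ∀ t ∈ T, CI T b ⁅t, a⁆
  n : a * (b * a * b⁻¹) * (b * (b * a * b⁻¹) * b⁻¹) = 1
  sq : CI T b (a * a)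

theorem b3cj (b3 : b * b * b = 1) (x : S) : b * (b * (b * x * b⁻¹) * b⁻¹) * b⁻¹ = x := by
  calc _ = (b * b * b) * x * (b * b * b)⁻¹ := by group
    _ = _ := by rw [b3]; group

theorem lemM [Finite S] (hT : IsPGroup 2 T) (le : T ≤ ⁅T, zpowers b⁆) (nb : b ∈ NN(T))
    (b3 : b * b * b = 1) {N : Subgroup S} (hN : N ≤ T) (hn : T ≤ NN(N)) (hb : b ∈ NN(N))
    (h : ¬ N ≤ ZZ T b) : ∃ a ∈ N, Good T b a := by
  obtain ⟨x, hx, h1, h2, h3⟩ := ex_cm hT hN hn ((le_CC_iff.2 fun t ht y hy =>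
    ((mem_ZZ.1 hy).1.2 t ht).symm).trans (CC_le_NN _)) h
  have hxT := hN hx
  have k1 : ∀ t ∈ T, CI T b ⁅t, x⁆ := fun t ht => by
    have := mem_ZZ.1 (inv_mem (h2 t ht))
    rw [commutatorElement_inv] at this
    refine ⟨this.1.1, ?_, this.1.2, this.2⟩
    have e := (mem_ZZ.1 h3).1.2 t ht
    calc _ = ⁅t, x⁆ * (x * ⁅t, x⁆ * x⁻¹) := by rw [this.1.2 x hxT]; group
      _ = t * (x * x) * t⁻¹ * (x * x)⁻¹ := by simp only [commutatorElement_def]; group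
      _ = 1 := by rw [e]; group
  have k2 : ∀ t ∈ T, CI T b ⁅t, b * x * b⁻¹⁆ := fun t ht => by
    have c := k1 _ (conj_mem_of_mem_NN' nb ht)
    have : ⁅t, b * x * b⁻¹⁆ = b * ⁅b⁻¹ * t * b, x⁆ * b⁻¹ := by
      simp only [commutatorElement_def]; group
    rwa [this, cj_iff.2 c.cb]
  have k3 : ∀ t ∈ T, ⁅t, x⁻¹⁆ = ⁅t, x⁆ := fun t ht => by
    have c := k1 t ht
    calc _ = x⁻¹ * ⁅t, x⁆⁻¹ * x⁻¹⁻¹ := by simp only [commutatorElement_def]; group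
      _ = _ := by rw [inv_eq_of_mul_eq_one_right c.sq, c.cj (T.inv_mem hxT)]
  have hy := conj_mem_of_mem_NN nb hxT
  refine ⟨x⁻¹ * (b * x * b⁻¹), N.mul_mem (N.inv_mem hx) (conj_mem_of_mem_NN hb hx),
    T.mul_mem (T.inv_mem hxT) hy, fun e => h1 ?_, fun t ht => ?_, ?_, ?_⟩
  · have e : b * x = x * b := cj_iff.1 (inv_mul_eq_one.1 e).symm
    refine mem_ZZ.2 ⟨⟨hxT, fun t ht => ?_⟩, e⟩
    have : ⁅T, zpowers b⁆ ≤ centralizer {x} := by
      rw [Subgroup.commutator_le]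
      intro s hs y hy
      have c := k1 _ (T.inv_mem hs)
      have y1 : y ∈ centralizer {x} :=
        zpowers_le_of_mem (mem_centralizer_singleton_iff.2 e) hy
      have y2 : y ∈ centralizer {⁅s⁻¹, x⁆} :=
        zpowers_le_of_mem (mem_centralizer_singleton_iff.2 c.cb) hy
      refine mul_mem ?_ (inv_mem y1)
      rw [mem_centralizer_singleton_iff] at y1 y2 ⊢
      calc _ = s * (y * ⁅s⁻¹, x⁆ * x) * s⁻¹ := by simp only [commutatorElement_def]; group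
        _ = s * (⁅s⁻¹, x⁆ * x * y) * s⁻¹ := by rw [y2, mul_assoc _ y, y1, ← mul_assoc _ x]
        _ = _ := by simp only [commutatorElement_def]; group
    exact mem_centralizer_singleton_iff.1 (this (le ht))
  · have : ⁅t, x⁻¹ * (b * x * b⁻¹)⁆ = ⁅t, x⁻¹⁆ * (x⁻¹ * ⁅t, b * x * b⁻¹⁆ * x⁻¹⁻¹) := by
      simp only [commutatorElement_def]; group
    rw [this, (k2 t ht).cj (T.inv_mem hxT), k3 t ht]
    exact (k1 t ht).mul (k2 t ht)
  · calc _ = x⁻¹ * (b * (b * (b * x * b⁻¹) * b⁻¹) * b⁻¹) := by group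
      _ = 1 := by rw [b3cj b3, inv_mul_cancel]
  · have e : b * (x * x) * b⁻¹ = x * x := cj_iff.2 (mem_ZZ.1 h3).2
    have : x⁻¹ * (b * x * b⁻¹) * (x⁻¹ * (b * x * b⁻¹)) = ⁅b * x * b⁻¹, x⁆ := by
      calc _ = x⁻¹ * ⁅b * x * b⁻¹, x⁻¹⁆ * x⁻¹ * (b * (x * x) * b⁻¹) := by
            simp only [commutatorElement_def]; group
        _ = x⁻¹ * ⁅b * x * b⁻¹, x⁻¹⁆ * x⁻¹⁻¹ := by rw [e]; group
        _ = _ := by rw [k3 _ hy, (k1 _ hy).cj (T.inv_mem hxT)]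
    rw [this]; exact k1 _ hy

theorem Good.m' (g : Good T b a) (nb : b ∈ NN(T)) : b * a * b⁻¹ ∈ T := conj_mem_of_mem_NN nb g.m

theorem Good.i3 (g : Good T b a) : b * (b * a * b⁻¹) * b⁻¹ = (a * (b * a * b⁻¹))⁻¹ :=
  eq_inv_of_mul_eq_one_right g.n

theorem Good.rot (g : Good T b a) (nb : b ∈ NN(T)) : Good T b (b * a * b⁻¹) := by
  refine ⟨g.m' nb, fun e => g.ne ?_, fun t ht => ?_, ?_, ?_⟩
  · calc a = b⁻¹ * (b * a * b⁻¹) * b := by group
      _ = 1 := by rw [e]; group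
  · have c := g.c _ (conj_mem_of_mem_NN' nb ht)
    have : ⁅t, b * a * b⁻¹⁆ = b * ⁅b⁻¹ * t * b, a⁆ * b⁻¹ := by
      simp only [commutatorElement_def]; group
    rwa [this, cj_iff.2 c.cb]
  · rw [← cj_mul2 rfl rfl, ← cj_mul2 rfl rfl, g.n]; group
  · rw [← cj_mul2 rfl rfl, cj_iff.2 g.sq.cb]; exact g.sq

theorem ex_t0 (g : Good T b a) (nb : b ∈ NN(T)) (b3 : b * b * b = 1) (ci : CI T b z)
    (hz : ∀ t ∈ T, t * a * t⁻¹ = a ∨ t * a * t⁻¹ = a * z) {t : S} (ht : t ∈ T) :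
    (t * a * t⁻¹ = a ∧ t * (b * a * b⁻¹) * t⁻¹ = b * a * b⁻¹) ∨ ∃ y, y * b = b * y ∧
      y * t * y⁻¹ ∈ T ∧ (y * t * y⁻¹) * a * (y * t * y⁻¹)⁻¹ = a ∧
      (y * t * y⁻¹) * (b * a * b⁻¹) * (y * t * y⁻¹)⁻¹ = (b * a * b⁻¹) * z := by
  have bz : b * z * b⁻¹ = z := cj_iff.2 ci.cb
  have ci' : ∀ {s x y : S}, s * x * s⁻¹ = y → s * x⁻¹ * s⁻¹ = y⁻¹ := fun e => by rw [← e]; group
  have m := g.m' nb
  have h2 : t * (b * a * b⁻¹) * t⁻¹ = b * a * b⁻¹ ∨ t * (b * a * b⁻¹) * t⁻¹ = b * a * b⁻¹ * z := by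
    have e : b * (b⁻¹ * t * b) * b⁻¹ = t := by group
    rcases hz _ (conj_mem_of_mem_NN' nb ht) with h | h
    · left; have := cj_b h b; rwa [e] at this
    · right; have := cj_b h b; rwa [e, cj_mul2 rfl bz] at this
  rcases hz t ht with e | e <;> rcases h2 with e' | e'
  · exact Or.inl ⟨e, e'⟩
  · exact Or.inr ⟨1, by simp, by simpa using ht, by simpa using e, by simpa using e'⟩
  · refine Or.inr ⟨b⁻¹, by simp, conj_mem_of_mem_NN (inv_mem nb) ht, ?_, ?_⟩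
    · have := cj_b e' b⁻¹
      rwa [show b⁻¹ * (b * a * b⁻¹) * b⁻¹⁻¹ = a by group] at this
    · have := ci' (cj_mul2 e e')
      rw [mul_assoc a z, ← ci.c _ m, ← mul_assoc a (b * a * b⁻¹) z, mul_inv_rev _ z, ← g.i3,
        inv_eq_of_mul_eq_one_right ci.sq, ← ci.c _ (conj_mem_of_mem_NN nb m)] at this
      have := cj_b this b⁻¹
      rwa [cj_mul2 rfl (cj_inv bz), show b⁻¹ * (b * (b * a * b⁻¹) * b⁻¹) * b⁻¹⁻¹ = b * a * b⁻¹ by
        group] at this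
  · refine Or.inr ⟨b, rfl, conj_mem_of_mem_NN nb ht, ?_, ?_⟩
    · have := ci' (cj_mul2 e e')
      rw [mul_assoc a z, ← mul_assoc z, ← ci.c _ m, mul_assoc _ z z, ci.sq, mul_one, ← g.i3] at this
      have := cj_b this b
      rwa [b3cj b3] at this
    · have := cj_b e b
      rwa [cj_mul2 rfl bz] at this

/-- the conclusion -/
def Cc (T : Subgroup S) : Prop := (IsElementaryAbelian 2 T ∧ Nat.card T = 4) ∨
  (IsExtraspecial 2 T ∧ Nat.card T = 32 ∧ ∃ A : Subgroup S, A ≤ T ∧ IsElementaryAbelian 2 A ∧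
    Nat.card A = 8)

variable [Finite E] [Finite S]

omit [Finite S] in
theorem Cf.hz (c : Cf ρ b q q' T) (g : Good T b a) (ci : CI T b z) (z1 : z ≠ 1) :
    ∀ t ∈ T, t * a * t⁻¹ = a ∨ t * a * t⁻¹ = a * z := fun t ht => by
  have e : t * a * t⁻¹ = ⁅t, a⁆ * a := by rw [commutatorElement_def]; group
  by_cases h : ⁅t, a⁆ = 1
  · left; rw [e, h, one_mul]
  · right; rw [e, c.z2 ci (g.c t ht) z1 h, ci.c a g.m]

theorem Cf.of_inv (c : Cf ρ b q q' T) (hT : IsPGroup 2 T) (g : Good T b a) (h2 : a * a = 1) :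
    Cc T := by
  have h : Four b a (b * a * b⁻¹) := ⟨g.ne, h2, rfl, by
    have : (a * (b * a * b⁻¹))⁻¹ * (a * (b * a * b⁻¹))⁻¹ = 1 := by
      rw [← g.i3]
      calc _ = b * (b * (a * a) * b⁻¹) * b⁻¹ := by group
        _ = 1 := by rw [h2]; group
    rw [g.i3, eq_inv_of_mul_eq_one_left this, inv_inv]⟩
  by_cases hc : ∀ t ∈ T, t * a = a * t
  · left
    rw [c.v4 h g.m (g.m' c.nb) hc fun t ht => ?_]
    · exact ⟨elab_of fun _ => h.sqK, h.card⟩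
    · have := cj_b (cj_iff.2 (hc _ (conj_mem_of_mem_NN' c.nb ht))) b
      rwa [show b * (b⁻¹ * t * b) * b⁻¹ = t by group, cj_iff] at this
  · push Not at hc
    obtain ⟨t, ht, e⟩ := hc
    have z1 : ⁅t, a⁆ ≠ 1 := fun e' => e (commutatorElement_eq_one_iff_mul_comm.1 e')
    have hz := c.hz g (g.c t ht) z1
    rcases ex_t0 g c.nb c.b3 (g.c t ht) hz ht with h1 | ⟨y, -, h1, h2, h3⟩
    · exact absurd (cj_iff.1 h1.1) e
    · exact Or.inr (X8.concl ⟨c, h, g.m, g.m' c.nb, g.c t ht, z1, hz, h1, h2, h3⟩ hT)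

theorem Cf.two (c : Cf ρ b q q' T) (hT : IsPGroup 2 T) : Cc T := by
  have qn : q ∉ ZZ T b := fun e => c.four.ne (c.four.fix1 c.four.mK (cj_iff.2 (mem_ZZ.1 e).2))
  obtain ⟨a, -, g⟩ := lemM hT c.le c.nb c.b3 le_rfl (le_NN_self T) c.nb fun e => qn (e c.m)
  by_cases h2 : a * a = 1
  · exact c.of_inv hT g h2
  have hz := c.hz g g.sq h2
  have m := g.m' c.nb
  have bz : b * (a * a) * b⁻¹ = a * a := cj_iff.2 g.sq.cb
  have nc : a * (b * a * b⁻¹) ≠ (b * a * b⁻¹) * a := fun e => h2 (by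
    have e1 : (b * a * b⁻¹) * (b * a * b⁻¹) = a * a := by rw [← bz]; group
    have e2 : (a * (b * a * b⁻¹)) * (a * (b * a * b⁻¹)) = 1 := by
      rw [mul_assoc, ← mul_assoc _ a, ← e, mul_assoc a, e1, ← mul_assoc, ← mul_assoc, mul_assoc _ a,
        g.sq.sq]
    rw [← bz, ← bz]
    calc _ = (b * (b * a * b⁻¹) * b⁻¹) * (b * (b * a * b⁻¹) * b⁻¹) := by group
      _ = 1 := by rw [g.i3, ← mul_inv_rev, e2, inv_one])
  have mc : ∀ {t y : S}, t ∈ centralizer {y} ↔ t * y = y * t := mem_centralizer_singleton_iff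
  obtain ⟨N, hN⟩ : ∃ N : Subgroup S, ∀ x, x ∈ N ↔ x ∈ T ∧ x * a = a * x ∧
      x * (b * a * b⁻¹) = (b * a * b⁻¹) * x :=
    ⟨T ⊓ (centralizer {a} ⊓ centralizer {b * a * b⁻¹}), fun x => by simp only [mem_inf, mc]⟩
  have n3 : ∀ x ∈ N, x * (b * (b * a * b⁻¹) * b⁻¹) = (b * (b * a * b⁻¹) * b⁻¹) * x := fun x hx => by
    rw [g.i3]
    exact (Commute.mul_right ((hN x).1 hx).2.1 ((hN x).1 hx).2.2).inv_right
  have nb : b ∈ NN(N) := mem_NN_of_conj_mem fun x hx => (hN _).2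
    ⟨conj_mem_of_mem_NN c.nb ((hN x).1 hx).1, cj_iff.1 (by
      have := cj_b (cj_iff.2 (n3 x hx)) b
      rwa [b3cj c.b3] at this), cj_iff.1 (cj_b (cj_iff.2 ((hN x).1 hx).2.1) b)⟩
  by_cases hc : N ≤ ZZ T b
  · exfalso
    rcases ex_t0 g c.nb c.b3 g.sq hz c.m with h | ⟨y, hy, h1, h3, h4⟩
    · exact qn (hc ((hN _).2 ⟨c.m, cj_iff.1 h.1, cj_iff.1 h.2⟩))
    · have e : a * (b * a * b⁻¹) * a⁻¹ = b * a * b⁻¹ * (a * a) := by
        exact (c.hz (g.rot c.nb) g.sq h2 a g.m).resolve_left fun e => nc (cj_iff.1 e)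
      obtain ⟨w, hw⟩ : ∃ w, w = a⁻¹ * (y * q * y⁻¹) := ⟨_, rfl⟩
      have hZ : w ∈ ZZ T b := hc ((hN _).2 ⟨hw ▸ T.mul_mem (T.inv_mem g.m) h1,
        hw ▸ cj_iff.1 (cj_two h3 (by group)), hw ▸ cj_iff.1 (cj_two h4 (by rw [← e]; group))⟩)
      rw [mem_ZZ] at hZ
      have e1 : y * q * y⁻¹ = a * w := by rw [hw]; group
      have e2 : y * q' * y⁻¹ = b * a * b⁻¹ * w := by
        rw [← c.four.e1, ← cj_iff.2 hZ.2, ← cj_mul2 rfl rfl, ← e1]
        calc _ = (y * b) * q * (y * b)⁻¹ := by group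
          _ = _ := by rw [hy]; group
      have e3 := cj_mul2 e1 e2
      rw [← c.four.cm, cj_mul2 e2 e1, mul_assoc, mul_assoc a, ← mul_assoc w, ← mul_assoc w,
        ← hZ.1.2 a g.m, ← hZ.1.2 _ m] at e3
      apply nc
      have : (b * a * b⁻¹) * a * (w * w) = a * (b * a * b⁻¹) * (w * w) := by
        simpa only [mul_assoc] using e3
      exact (mul_right_cancel this).symm
  have hle : N ≤ T := fun x hx => ((hN x).1 hx).1
  have k : ∀ {y : S}, (∀ t ∈ T, CI T b ⁅t, y⁆) → ∀ t ∈ T, ∀ x ∈ T, x * y = y * x →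
      t * x * t⁻¹ * y = y * (t * x * t⁻¹) := fun {y} h t ht x hx e => by
    have c := h _ (T.inv_mem ht)
    calc _ = t * (x * ⁅t⁻¹, y⁆ * y) * t⁻¹ := by simp only [commutatorElement_def]; group
      _ = t * (⁅t⁻¹, y⁆ * y * x) * t⁻¹ := by rw [c.c x hx, mul_assoc _ x, e, ← mul_assoc _ y]
      _ = _ := by simp only [commutatorElement_def]; group
  have g' := (g.rot c.nb).c
  obtain ⟨d, hd, g₂⟩ := lemM hT c.le c.nb c.b3 hle (le_NN_iff.2 fun t ht x hx => (hN _).2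
    ⟨conj_mem_of_mem_NN (le_NN_self T ht) (hle hx), k g.c t ht x (hle hx) ((hN x).1 hx).2.1,
      k g' t ht x (hle hx) ((hN x).1 hx).2.2⟩) nb hc
  by_cases h3 : d * d = 1
  · exact c.of_inv hT g₂ h3
  have e := c.z2 g.sq g₂.sq h2 h3
  obtain ⟨-, d1, d2⟩ := (hN d).1 hd
  have sq : a * d * (a * d) = 1 := by
    rw [mul_assoc, ← mul_assoc d, d1, mul_assoc, e, ← mul_assoc, ← mul_assoc, mul_assoc _ a, g.sq.sq]
  refine c.of_inv hT (a := a * d) ⟨T.mul_mem g.m g₂.m, fun e => nc ?_, fun t ht => ?_, ?_,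
    by rw [sq]; exact ⟨T.one_mem, by simp, by simp, by simp⟩⟩ sq
  · have := Commute.inv_left (show Commute d _ from d2)
    rwa [← eq_inv_of_mul_eq_one_left e] at this
  · have : ⁅t, a * d⁆ = ⁅t, a⁆ * (a * ⁅t, d⁆ * a⁻¹) := by
      simp only [commutatorElement_def]; group
    rw [this, (g₂.c t ht).cj g.m]
    exact (g.c t ht).mul (g₂.c t ht)
  · have d3 := n3 d hd
    have d4 := n3 _ (conj_mem_of_mem_NN nb hd)
    rw [cj_mul2 rfl rfl, cj_mul2 rfl rfl]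
    have e1 := g.n
    have e2 := g₂.n
    generalize b * (b * a * b⁻¹) * b⁻¹ = a₂ at *
    generalize b * (b * d * b⁻¹) * b⁻¹ = d₂ at *
    generalize b * a * b⁻¹ = a₁ at *
    generalize b * d * b⁻¹ = d₁ at *
    calc _ = a * (d * a₁) * (d₁ * a₂) * d₂ := by group
      _ = a * a₁ * (d * a₂) * d₁ * d₂ := by rw [d2, d4]; group
      _ = (a * a₁ * a₂) * (d * d₁ * d₂) := by rw [d3]; group
      _ = 1 := by rw [e1, e2, one_mul]

end H10.Cu
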