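import Cfsg.Agent.H10.Cu4

/-! S4415, part 5: elements of order prime to `6`. -/

set_option autoImplicit false

namespace H10.Cu

open Cfsg Subgroup Module
open scoped commutatorElement

variable {S : Type*} [Group S] {E : Type*} [AddCommGroup E] [Module K3 E]
  {ρ : Representation K3 S E} {b a a' q q' y : S} {T : Subgroup S}

theorem quad {n : ℕ} (hn : y ^ n = 1) (h3 : ¬ 3 ∣ n) {v w : E} (h1 : ρ y w = w)
    (h2 : ρ y v - v = w) : w = 0 := by
  have key : ∀ k : ℕ, ρ (y ^ k) v = v + (k : K3) • w := fun k => by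
    induction k with
    | zero => simp
    | succ k ih =>
      rw [pow_succ', rm, ih, map_add, map_smul, h1, eq_add_of_sub_eq h2, Nat.cast_succ]; module
  have := key n
  rw [hn, r1, left_eq_add, smul_eq_zero, ZMod.natCast_eq_zero_iff] at this
  exact this.resolve_left h3

theorem pow_tr {N M : Submodule K3 E} (h1 : Iv ρ y N) (h2 : ∀ v ∈ N, ρ y v - v ∈ M) (k : ℕ) :
    Iv ρ (y ^ k) N ∧ ∀ v ∈ N, ρ (y ^ k) v - v ∈ M := by
  induction k with
  | zero => exact ⟨fun v hv => by simpa using hv, fun v _ => by simp⟩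
  | succ k ih =>
    refine ⟨fun v hv => by rw [pow_succ', rm]; exact h1 _ (ih.1 v hv), fun v hv => ?_⟩
    have := M.add_mem (h2 _ (ih.1 v hv)) (ih.2 v hv)
    rwa [sub_add_sub_cancel, ← rm, ← pow_succ'] at this

theorem ex_prime [Finite S] (h : y ≠ 1) : ∃ k : ℕ, (orderOf (y ^ k)).Prime ∧
    orderOf (y ^ k) ∣ orderOf y := by
  obtain ⟨p, hp, hd⟩ := Nat.exists_prime_and_dvd (mt orderOf_eq_one_iff.1 h)
  exact ⟨orderOf y / p, by rwa [orderOf_pow_orderOf_div (orderOf_pos y).ne' hd], orderOf_pow_dvd _⟩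

variable [Finite E]

theorem card_sub (M : Submodule K3 E) : Nat.card M = 3 ^ finrank K3 M := by
  rw [Module.natCard_eq_pow_finrank (K := K3), Nat.card_zmod]

theorem free_dvd {K : Subgroup S} {M : Submodule K3 E} (hI : ∀ k ∈ K, Iv ρ k M)
    (hf : ∀ k ∈ K, ∀ m ∈ M, ρ k m = m → m ≠ 0 → k = 1) : Nat.card K ∣ 3 ^ finrank K3 M - 1 := by
  classical
  let _ : MulAction K {m : M // m ≠ 0} :=
    { smul := fun k m => ⟨⟨ρ k m.1, hI k k.2 _ m.1.2⟩, fun e => m.2 (Subtype.ext
        (r0 ρ (congrArg Subtype.val e)))⟩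
      one_smul := fun m => Subtype.ext (Subtype.ext (r1 ρ _))
      mul_smul := fun k l m => Subtype.ext (Subtype.ext (rm ρ _ _ _)) }
  have e := Nat.card_congr (MulAction.selfEquivOrbitsQuotientProd (G := K) (X := {m : M // m ≠ 0})
    fun m => (eq_bot_iff_forall _).2 fun k hk => Subtype.ext (hf k k.2 _ m.1.2
      (congrArg (fun x => x.1.1) (MulAction.mem_stabilizer_iff.1 hk))
      fun e => m.2 (Subtype.ext e)))
  have := Fintype.ofFinite M
  rw [Nat.card_prod, Nat.card_eq_fintype_card, Fintype.card_subtype_compl, Fintype.card_subtype_eq,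
    ← Nat.card_eq_fintype_card, card_sub] at e
  rw [e]; exact Dvd.intro_left _ rfl

theorem prime_dvd (hp : (orderOf y).Prime) (h3 : orderOf y ≠ 3) {N : Submodule K3 E}
    (h : Iv ρ y N) : orderOf y ∣ 3 ^ finrank K3 (N.map (ρ y - 1)) - 1 := by
  have hI : Iv ρ y (N.map (ρ y - 1)) := by
    rintro _ ⟨v, hv, rfl⟩
    exact ⟨ρ y v, h v hv, by simp⟩
  rw [← Nat.card_zpowers]
  refine free_dvd (ρ := ρ) (fun k hk => ?_) fun k hk m hm e h0 => by_contra fun h1 => h0 ?_
  · obtain ⟨n, rfl⟩ := (isOfFinOrder_iff_pow_eq_one.2 ⟨_, hp.pos, pow_orderOf_eq_one y⟩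
      ).mem_powers_iff_mem_zpowers.2 hk
    exact (pow_tr (M := ⊤) hI (fun _ _ => trivial) n).1
  · have := Fact.mk hp
    have : y ∈ zpowers k := by
      have := mem_zpowers_of_prime_card (G := zpowers y) (Nat.card_zpowers y)
        (g := ⟨k, hk⟩) (g' := ⟨y, mem_zpowers y⟩) fun e => h1 (congrArg Subtype.val e)
      obtain ⟨j, hj⟩ := this
      exact ⟨j, congrArg Subtype.val hj⟩
    have : y ∈ Fix ρ (Submodule.span K3 {m}) := zpowers_le_of_mem (fun v hv => by
      obtain ⟨c, rfl⟩ := Submodule.mem_span_singleton.1 hv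
      rw [map_smul, e]) this
    obtain ⟨v, -, hv⟩ := hm
    exact quad (pow_orderOf_eq_one y)
      (fun d => h3 ((Nat.prime_dvd_prime_iff_eq Nat.prime_three hp).1 d).symm)
      (this m (Submodule.mem_span_singleton_self m)) hv

theorem fix_of_rk {N : Submodule K3 E} (h : finrank K3 (N.map (ρ y - 1)) = 0) :
    ∀ v ∈ N, ρ y v = v := fun v hv => by
  have : Module.Finite K3 E := Module.Finite.of_finite
  rw [Submodule.finrank_eq_zero] at h
  have : (ρ y - 1) v ∈ N.map (ρ y - 1) := ⟨v, hv, rfl⟩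
  rw [h] at this
  exact sub_eq_zero.1 this

theorem rk_le {N M : Submodule K3 E} (h2 : ∀ v ∈ N, ρ y v - v ∈ M) :
    finrank K3 (N.map (ρ y - 1)) ≤ finrank K3 M := by
  have : Module.Finite K3 E := Module.Finite.of_finite
  refine Submodule.finrank_mono ?_
  rintro _ ⟨v, hv, rfl⟩
  exact h2 v hv

theorem fix_two (hp : (orderOf y).Prime) (h6 : (orderOf y).Coprime 6) {N : Submodule K3 E}
    (h : Iv ρ y N) {u w : E} (h2 : ∀ v ∈ N, ρ y v - v ∈ Submodule.span K3 {u, w}) :
    ∀ v ∈ N, ρ y v = v := by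
  classical
  have e := prime_dvd hp (fun e => by rw [e] at h6; norm_num at h6) h
  have e2 := (rk_le h2).trans (finrank_span_le_card _)
  have e3 : ({u, w} : Set E).toFinset.card ≤ 2 := by
    rw [Set.toFinset_insert, Set.toFinset_singleton]; exact Finset.card_le_two
  refine fix_of_rk (by_contra fun h0 => ?_)
  have : orderOf y ∣ 8 := by
    rcases (show finrank K3 (N.map (ρ y - 1)) = 1 ∨ finrank K3 (N.map (ρ y - 1)) = 2 by omega) with
      h | h <;> rw [h] at e
    · exact e.trans (by norm_num)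
    · exact e
  have := (Nat.prime_dvd_prime_iff_eq hp Nat.prime_two).1 (hp.dvd_of_dvd_pow (n := 3) this)
  rw [this] at h6; norm_num at h6

theorem St.b2 [Finite S] (s : St ρ b) (b3 : b * b * b = 1) (h : Four b a a') {Y : Subgroup S}
    (h6 : (Nat.card Y).Coprime 6) (hn : a' ∈ NN(Y)) (hy : y ∈ Y) (hc : y * a = a * y) :
    y * a' = a' * y := by
  obtain ⟨w, hw⟩ : ∃ w, w = a' * (y * a' * y⁻¹) := ⟨_, rfl⟩
  have hm : w ∈ Y := by
    have := Y.mul_mem (conj_mem_of_mem_NN hn hy) (Y.inv_mem hy)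
    rwa [h.inv', mul_assoc, mul_assoc, ← mul_assoc y, ← hw] at this
  suffices e : w = 1 by
    rw [hw] at e
    rw [← cj_iff, eq_inv_of_mul_eq_one_right e, h.inv']
  by_contra h1
  obtain ⟨k, hp, hd⟩ := ex_prime h1
  have h7 := (h6.coprime_dvd_left (hd.trans (orderOf_dvd_natCard Y hm)))
  obtain ⟨v, hv, h0⟩ := s.ex h
  have hb : ∀ x, ρ b (ρ b (ρ b x)) = x := fun x => by rw [← rm, ← rm, b3, r1]
  have c1 : y⁻¹ * a = a * y⁻¹ := (Commute.inv_left hc)
  have c2 : w * a = a * w := by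
    rw [hw]; exact (Commute.mul_left h.cm (Commute.mul_left (Commute.mul_left hc h.cm) c1))
  have k1 : ∀ x ∈ Wt ρ a a 1 1, ∃ c : K3, ρ a' x - x = c • v := fun x hx => s.line h hv h0
    ⟨by rw [map_sub, ← rm, ← h.cm, rm, hx.1]; simp, by rw [map_sub, ← rm, h.sq', r1]; simp⟩
  have p1 := pow_tr (M := Submodule.span K3 {v, ρ y v}) (iv_of_comm (ρ := ρ) (ε := 1) (ε' := 1) c2 c2)
    (fun x hx => by
      obtain ⟨c, e⟩ := k1 _ (iv_of_comm c1 c1 x hx)
      obtain ⟨d, e'⟩ := k1 _ (iv_of_comm hc hc _ (iv_of_comm h.cm h.cm _ (iv_of_comm c1 c1 x hx)))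
      have e := congrArg (ρ y) e
      rw [map_sub, ri, map_smul] at e
      refine Submodule.mem_span_pair.2 ⟨d, c, ?_⟩
      rw [hw, rm, rm, rm, ← e, ← e']; abel) k
  have k2 : ∀ x ∈ Wt ρ a a (-1) (-1), x ∈ Submodule.span K3 {ρ b v, ρ b (ρ b v)} := fun x hx => by
    obtain ⟨x₀, m0, x₁, m1, x₂, m2, x₃, m3, e, -⟩ := h.dec (ρ := ρ) x
    have e1 := hx.1
    rw [e] at e1
    simp only [map_add, m0.1, m1.1, m2.1, m3.1] at e1
    obtain ⟨z0, z1, -⟩ := ind m0 m1 (Submodule.zero_mem _) (Submodule.zero_mem _)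
      (neg_self (by linear_combination (norm := module) e1))
    obtain ⟨c, e2⟩ := s.line h hv h0 (h.s3 (h.s2 m2))
    obtain ⟨d, e3⟩ := s.line h hv h0 (h.s3 m3)
    refine Submodule.mem_span_pair.2 ⟨c, d, ?_⟩
    rw [e, z0, z1, ← hb x₂, ← hb x₃, e2, e3]; simp
  have p2 := pow_tr (iv_of_comm (ρ := ρ) (ε := -1) (ε' := -1) c2 c2)
    (fun x hx => k2 _ (Submodule.sub_mem _ (iv_of_comm c2 c2 x hx) hx)) k
  have f1 := fix_two hp h7 p1.1 p1.2
  have f2 := fix_two hp h7 p2.1 p2.2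
  refine hp.ne_one (orderOf_eq_one_iff.2 (eq_one s.inj fun x => ?_))
  obtain ⟨x₀, m0, x₁, m1, x₂, m2, x₃, m3, rfl, -⟩ := h.dec (ρ := ρ) x
  simp only [map_add, f1 _ ⟨m0.1, m0.1⟩, f1 _ ⟨m1.1, m1.1⟩, f2 _ ⟨m2.1, m2.1⟩, f2 _ ⟨m3.1, m3.1⟩]

theorem Cf.odd [Finite S] (c : Cf ρ b q q' T) {Y : Subgroup S} (h6 : (Nat.card Y).Coprime 6)
    (hY : Y ≤ T) (hn : T ≤ NN(Y)) (hb : b ∈ NN(Y)) : Y = ⊥ := by
  have h := c.four
  have hE := elab_of fun _ => h.sqK
  have := hE.1
  have hC : Y ≤ centralizer {q} ⊓ centralizer {q'} := by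
    refine H1.le_of_forall_centralizer_le (A := h.K) (fun hc => ?_) ((h.K_le c.m c.m').trans hn)
      (by rw [h.card]; exact (h6.coprime_dvd_right (by norm_num : 2 ∣ 6)).symm.pow_left 2) ?_
    · have := IsCyclic.exponent_eq_card (α := h.K)
      rw [h.card] at this
      have e : Monoid.exponent h.K ∣ 2 :=
        Monoid.exponent_dvd_of_forall_pow_eq_one fun g => Subtype.ext (hE.2 g g.2)
      rw [this] at e; norm_num at e
    · rintro u (rfl | hu | hu | hu) h1 y ⟨hy, e⟩ <;>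
        simp only [mem_inf, mem_centralizer_singleton_iff] <;>
        replace e := mem_centralizer_singleton_iff.1 e
      · exact absurd rfl h1
      · rw [hu] at e
        exact ⟨e, c.b2 c.b3 h h6 (hn c.m') hy e⟩
      · rw [hu] at e
        have := c.b2 c.b3 h.rot h6 (hn (T.mul_mem c.m c.m')) hy e
        rw [← mul_assoc, mul_assoc q, ← e, ← mul_assoc] at this
        exact ⟨mul_right_cancel this, e⟩
      · rw [hu] at e
        have e' : q' * (q * q') = q := by rw [← mul_assoc, h.cm, mul_assoc, h.sq', mul_one]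
        have := c.b2 c.b3 h.rot.rot h6 (by rw [e']; exact hn c.m) hy e
        rw [e'] at this
        exact ⟨this, c.b2 c.b3 h h6 (hn c.m') hy this⟩
  obtain ⟨v, hv, h0⟩ := c.ex h
  have od : ∀ y ∈ Y, (orderOf y).Coprime 6 := fun y hy =>
    h6.coprime_dvd_left (orderOf_dvd_natCard Y hy)
  have hv' : v ∈ CE ρ Y := fun y hy => by
    obtain ⟨d, hd, e⟩ := c.scal h hv h0 (mem_centralizer_singleton_iff.1 (hC hy).1)
      (mem_centralizer_singleton_iff.1 (hC hy).2)
    rcases hd with rfl | rfl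
    · simpa using e
    · have key : ∀ n : ℕ, ρ (y ^ n) v = (-1 : K3) ^ n • v := fun n => by
        induction n with
        | zero => simp
        | succ n ih => rw [pow_succ', rm, ih, map_smul, e, smul_smul, pow_succ]
      have := key (orderOf y)
      rw [pow_orderOf_eq_one, r1, Odd.neg_one_pow (Nat.coprime_two_right.1
        ((od y hy).coprime_dvd_right (by norm_num))), neg_one_smul] at this
      exact absurd (neg_self this) h0
  have iv : ∀ g ∈ NN(Y), Iv ρ g (CE ρ Y) := fun g hg x hx y hy => by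
    rw [← rm, show y * g = g * (g⁻¹ * y * g) by group, rm, hx _ (conj_mem_of_mem_NN' hg hy)]
  rcases c.dich h c.le c.m c.m' (fun t ht => iv t (hn ht)) (iv b hb) with e | e
  · have := e c.m' v hv'
    rw [hv.2, neg_one_smul] at this
    exact absurd (neg_self this.symm) h0
  · refine (eq_bot_iff_forall _).2 fun y hy => eq_one c.inj fun x => sub_eq_zero.1 ?_
    exact quad (pow_orderOf_eq_one y) (fun d => absurd ((od y hy).coprime_dvd_left d) (by norm_num))
      (e (hY hy) x y hy) rfl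

end H10.Cu
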