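import Cfsg.Agent.H10.Cu5
import Cfsg.Agent.H1.HallTop
import Cfsg.Agent.H3.Transfer2

/-! S4415, part 6: `[H, b]` is a `2`-group. -/

set_option autoImplicit false

namespace H10.Cu

open Cfsg Subgroup Module
open scoped commutatorElement

variable {S : Type*} [Group S] {E : Type*} [AddCommGroup E] [Module K3 E]
  {ρ : Representation K3 S E} {b a a' q q' y : S} {T R : Subgroup S}

theorem Four.mem_comm (h : Four b a a') (ha : a ∈ T) (ha' : a' ∈ T) :
    a ∈ ⁅T, zpowers b⁆ ∧ a' ∈ ⁅T, zpowers b⁆ := by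
  have k : ∀ {x x' : S}, Four b x x' → x' ∈ T → x ∈ ⁅T, zpowers b⁆ := fun {x x'} h hx => by
    have := commutator_mem_commutator (mem_zpowers b) hx
    rwa [commutatorElement_def, h.e2, mul_inv_cancel_right, Subgroup.commutator_comm] at this
  exact ⟨k h ha', k h.rot (T.mul_mem ha ha')⟩

theorem idx_le [Finite S] {W : Subgroup S} (h : ∀ x ∈ T, ⁅x, y⁆ ∈ W) :
    (centralizer {y}).relIndex T ≤ Nat.card W := by
  refine Nat.card_le_card_of_injective
    (fun c : T ⧸ (centralizer {y}).subgroupOf T => (⟨_, h _ c.out.2⟩ : W)) fun c d e => ?_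
  rw [← c.out_eq, ← d.out_eq]
  refine QuotientGroup.eq.2 (mem_subgroupOf.2 (mem_centralizer_singleton_iff.2 (cj_iff.1 ?_)))
  have e : ⁅(c.out : S), y⁆ = ⁅(d.out : S), y⁆ := congrArg Subtype.val e
  simp only [commutatorElement_def, mul_left_inj] at e
  rw [coe_mul, coe_inv]
  exact cj_two e.symm (by group)

theorem o3 (h : Four b a a') (b3 : b * b * b = 1) : Nat.card (zpowers b) = 3 := by
  rw [Nat.card_zpowers]
  refine orderOf_eq_prime (by rw [pow_three', b3]) fun e => h.neq ?_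
  rw [← h.e1, e]; group

theorem p3 (b3 : b * b * b = 1) : IsPGroup 3 (zpowers b) :=
  isPGroup_zpowers (k := 1) (by rw [pow_one, pow_three', b3])

variable [Finite E] [Finite S]

theorem Cf.cc (c : Cf ρ b q q' R) [Group.IsSolvable S] (h3 : (Nat.card R).Coprime 3) :
    R ⊓ CC(pCoreOf 2 R) ≤ pCoreOf 2 R := by
  have h0 : pPrimeCore 2 R = ⊥ := by
    have hc := H1.coprime_card_pPrimeCore (G := R) 2
    have := c.odd (Y := (pPrimeCore 2 R).map R.subtype) (by
      rw [card_map_subtype]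
      exact Nat.Coprime.mul_right hc (h3.coprime_dvd_left (card_subgroup_dvd_card _)))
      (map_subtype_le _) (le_NN_map_subtype _) (NN_le_NN_map_subtype _ c.nb)
    rwa [map_eq_bot_iff_of_injective _ R.subtype_injective] at this
  have := map_mono (f := R.subtype) (H1.centralizer_pCore_le (G := R) h0)
  rwa [map_CC_subtype] at this

theorem Cf.c32 (c : Cf ρ b q q' R) (h3 : (Nat.card R).Coprime 3) : ∃ W : Subgroup S,
    Nat.card W ≤ 32 ∧ ∀ x ∈ pCoreOf 2 R, ⁅x, b⁆ ∈ W := by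
  have h := c.four
  have hK : IsPGroup 2 h.K := IsPGroup.of_card (n := 2) h.card
  have hle := h.K_le c.m c.m'
  have hP := isPGroup_sup_of_NN' (isPGroup_pCoreOf R) hK (hle.trans (le_NN_pCoreOf R))
  have nb : zpowers b ≤ NN(pCoreOf 2 R ⊔ h.K) := zpowers_le_of_mem
    (mem_NN_sup (NN_le_NN_pCoreOf R c.nb) (mem_NN_of_conj_mem fun x hx => h.bK hx))
  obtain ⟨m1, m2⟩ := h.mem_comm (T := pCoreOf 2 R ⊔ h.K) (mem_sup_right h.mK) (mem_sup_right h.mK')
  have c' : Cf ρ b q q' ⁅pCoreOf 2 R ⊔ h.K, zpowers b⁆ :=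
    { c with
      m := m1
      m' := m2
      le := (H1.commutator_commutator_eq nb (by
        rw [o3 h c.b3]
        exact (h3.coprime_dvd_left (card_dvd_of_le (sup_le (pCoreOf_le R) hle))).symm)
        (Or.inl (isSolvable_of_isPGroup (p3 c.b3)))).ge
      nb := right_le_NN_comm _ _ (mem_zpowers b) }
  refine ⟨⁅pCoreOf 2 R ⊔ h.K, zpowers b⁆, ?_,
    fun x hx => commutator_mem_commutator (mem_sup_left hx) (mem_zpowers b)⟩
  rcases c'.two (hP.to_le (comm_le_left nb)) with e | e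
  · rw [e.2]; norm_num
  · rw [e.2.1]

theorem Cf.no13 (c : Cf ρ b q q' R) [Group.IsSolvable S] (h3 : (Nat.card R).Coprime 3) {d : S}
    (hd : d ∈ R) (hy : y ∈ R) (ho : orderOf y = 13) (k : ℕ) (e : y = ⁅d, b⁆ ^ k) : False := by
  have : Fact (Nat.Prime 13) := ⟨by norm_num⟩
  obtain ⟨W, hW, h1⟩ := c.c32 h3
  have n := le_NN_pCoreOf (p := 2) R
  have i1 := (idx_le h1).trans hW
  have i2 := (idx_le (T := pCoreOf 2 R) (y := d * b * d⁻¹) (W := cj d W) fun x hx => by
    have := conj_mem_cj (g := d) (h1 _ (conj_mem_of_mem_NN' (n hd) hx))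
    convert this using 1
    simp only [commutatorElement_def]; group).trans ((card_cj d W).le.trans hW)
  have hle : centralizer {b} ⊓ centralizer {d * b * d⁻¹} ≤ centralizer {y} := by
    rintro x ⟨e1, e2⟩
    replace e1 : Commute x b := mem_centralizer_singleton_iff.1 e1
    replace e2 : Commute x (d * b * d⁻¹) := mem_centralizer_singleton_iff.1 e2
    rw [mem_centralizer_singleton_iff, e]
    exact (Commute.mul_right e2 (Commute.inv_right e1)).pow_right k
  have i3 := (relIndex_le_of_le_left hle index_ne_zero_of_finite).trans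
    (relIndex_inf_le.trans (Nat.mul_le_mul i1 i2))
  have e1 := H3.card_modEq_card_inf_centralizer (isPGroup_zpowers_of_orderOf_eq ho)
    (zpowers_le_of_mem (n hy))
  have e2 := card_inf_mul_relIndex (centralizer {y}) (pCoreOf 2 R)
  obtain ⟨m, hm⟩ := (isPGroup_pCoreOf (p := 2) R).exists_card_eq
  obtain ⟨j, -, hj⟩ := (Nat.dvd_prime_pow Nat.prime_two).1 (hm ▸ Dvd.intro_left _ e2)
  obtain ⟨i, -, hi⟩ := (Nat.dvd_prime_pow Nat.prime_two).1 (hm ▸ Dvd.intro _ e2)
  rw [CC_zpowers, inf_comm, ← e2, hi, hj] at e1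
  have e3 : 2 ^ j ≡ 1 [MOD 13] := Nat.ModEq.cancel_left_of_coprime (c := 2 ^ i)
    (Nat.Coprime.pow_right i (by norm_num)) (by simpa using e1)
  have j0 : j = 0 := by
    rw [hj] at i3
    have : j ≤ 10 := (Nat.pow_le_pow_iff_right (by norm_num : 1 < 2)).1 i3
    interval_cases j <;> simp_all [Nat.ModEq]
  rw [j0, pow_zero, relIndex_eq_one] at hj
  have := c.cc h3 ⟨hy, mem_CC.2 fun x hx => mem_centralizer_singleton_iff.1 (hj hx)⟩
  obtain ⟨l, hl⟩ := orderOf_eq_pow_of_mem (isPGroup_pCoreOf R) this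
  rw [ho] at hl
  have : 13 ∣ 2 ^ l := hl ▸ dvd_rfl
  have := (Nat.Prime.dvd_of_dvd_pow (by norm_num) this)
  norm_num at this

theorem Cf.syl (c : Cf ρ b q q' R) [Group.IsSolvable S] (h3 : (Nat.card R).Coprime 3) {p : ℕ}
    [Fact p.Prime] (h2 : p ≠ 2) {D : Subgroup S} (hD : IsPGroup p D) (hle : D ≤ R)
    (nb : b ∈ NN(D)) : D ≤ centralizer {b} := by
  have : Module.Finite K3 E := Module.Finite.of_finite
  intro d hd
  rw [mem_centralizer_singleton_iff, ← commutatorElement_eq_one_iff_mul_comm]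
  by_contra h1
  have hy : ⁅d, b⁆ ∈ D := by
    have := D.mul_mem hd (conj_mem_of_mem_NN nb (D.inv_mem hd))
    rwa [← mul_assoc, ← mul_assoc] at this
  obtain ⟨M, hM⟩ : ∃ M, M = LinearMap.range (ρ b - 1) ⊔ (LinearMap.range (ρ b - 1)).map (ρ d) :=
    ⟨_, rfl⟩
  have rk : finrank K3 M ≤ 4 := hM ▸ (Submodule.finrank_add_le_finrank_add_finrank _ _).trans
    (add_le_add c.rk ((Submodule.finrank_map_le _ _).trans c.rk))
  have t1 : b ∈ Triv ρ M := fun v => hM ▸ Submodule.mem_sup_left ⟨v, rfl⟩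
  have t2 : ⁅d, b⁆ ∈ Triv ρ M := mul_mem (fun v => hM ▸ Submodule.mem_sup_right
    ⟨_, ⟨ρ d⁻¹ v, rfl⟩, by simp [rm, ri]⟩) (inv_mem t1)
  have iv : ∀ g ∈ Triv ρ M, Iv ρ g M := fun g hg v hv => by simpa using M.add_mem (hg v) hv
  have key : ∀ g ∈ D ⊓ Triv ρ M, g ≠ 1 → ∃ k : ℕ, orderOf (g ^ k) = p ∧ (p = 13 ∨ p = 5 ∧
      finrank K3 M = 4 ∧ ∀ m ∈ M, ρ (g ^ k) m = m → m = 0) := by
    intro g hg g1
    obtain ⟨k, hp, hdv⟩ := ex_prime g1
    obtain ⟨l, hl⟩ := orderOf_eq_pow_of_mem hD hg.1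
    have ho := (Nat.prime_dvd_prime_iff_eq hp Fact.out).1 (hp.dvd_of_dvd_pow (hl ▸ hdv))
    have n3 : ¬ 3 ∣ orderOf (g ^ k) := fun e => absurd (h3.coprime_dvd_left
      (e.trans (orderOf_dvd_natCard R (hle (D.pow_mem hg.1 k))))) (by norm_num)
    have e := prime_dvd (ρ := ρ) hp (fun e => n3 (e ▸ dvd_rfl)) (N := ⊤) fun _ _ => trivial
    have ht := (Triv ρ M).pow_mem hg.2 k
    have e2 := rk_le (ρ := ρ) (N := ⊤) fun v _ => ht v
    have e0 : finrank K3 ((⊤ : Submodule K3 E).map (ρ (g ^ k) - 1)) ≠ 0 := fun e => hp.ne_one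
      (orderOf_eq_one_iff.2 (eq_one c.inj fun v => fix_of_rk e v trivial))
    have pr : p.Prime := Fact.out
    have d2 : ∀ n, ¬ p ∣ 2 ^ n := fun n e =>
      h2 ((Nat.prime_dvd_prime_iff_eq pr Nat.prime_two).1 (pr.dvd_of_dvd_pow e))
    refine ⟨k, ho, ?_⟩
    rw [ho] at e
    rcases (show ∀ n, n ≠ 0 → n ≤ 4 → n = 1 ∨ n = 2 ∨ n = 3 ∨ n = 4 by omega) _ e0 (e2.trans rk) with
      h | h | h | h <;> rw [h] at e
    · exact absurd e (d2 1)
    · exact absurd e (d2 3)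
    · exact Or.inl ((Nat.prime_dvd_prime_iff_eq pr (by norm_num)).1
        ((pr.dvd_mul (m := 2 ^ 1) (n := 13)).1 e |>.resolve_left (d2 1)))
    · refine Or.inr ⟨(Nat.prime_dvd_prime_iff_eq pr (by norm_num)).1
        ((pr.dvd_mul (m := 2 ^ 4) (n := 5)).1 e |>.resolve_left (d2 4)), by omega, fun m hm e => ?_⟩
      have : (⊤ : Submodule K3 E).map (ρ (g ^ k) - 1) = M := Submodule.eq_of_le_of_finrank_le
        (by rintro _ ⟨v, -, rfl⟩; exact ht v) (by omega)
      rw [← this] at hm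
      obtain ⟨v, -, hv⟩ := hm
      exact quad (pow_orderOf_eq_one _) n3 e hv
  obtain ⟨k, ho, h | ⟨h5, h4, -⟩⟩ := key _ ⟨hy, t2⟩ h1
  · exact c.no13 h3 (hle hd) (hle (D.pow_mem hy k)) (ho.trans h) k rfl
  subst h5
  have e := free_dvd (ρ := ρ) (K := D ⊓ Triv ρ M) (M := M) (fun g hg => iv g hg.2)
    fun g hg m hm e h0 => by_contra fun g1 => by
      obtain ⟨k, -, h | ⟨-, -, h⟩⟩ := key g hg g1
      · norm_num at h
      · refine h0 (h m hm ?_)
        have : g ∈ Fix ρ (Submodule.span K3 {m}) := fun v hv => by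
          obtain ⟨c, rfl⟩ := Submodule.mem_span_singleton.1 hv
          rw [map_smul, e]
        exact pow_mem this k m (Submodule.mem_span_singleton_self m)
  obtain ⟨j, hj⟩ := (hD.to_le (inf_le_left : D ⊓ Triv ρ M ≤ D)).exists_card_eq
  have nK : b ∈ NN(D ⊓ Triv ρ M) := mem_NN_inf nb (le_NN_self _ t1)
  have e1 := H3.card_modEq_card_inf_centralizer (p3 c.b3) (zpowers_le_of_mem nK)
  have hdv := card_dvd_of_le (inf_le_left : D ⊓ Triv ρ M ⊓ CC(zpowers b) ≤ _)
  rw [h4, hj] at e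
  have j1 : j ≤ 1 := by
    by_contra hc
    exact absurd ((pow_dvd_pow 5 (by omega : 2 ≤ j)).trans e) (by norm_num)
  have e3 : D ⊓ Triv ρ M ≤ CC(zpowers b) := by
    refine inf_eq_left.1 (eq_of_le_of_card_ge inf_le_left ?_)
    rw [hj] at e1 hdv ⊢
    interval_cases j
    · exact Nat.card_pos
    · rcases (Nat.dvd_prime (by norm_num)).1 hdv with h | h <;> rw [h] at e1 ⊢
      simp [Nat.ModEq] at e1
  have e4 : Commute b ⁅d, b⁆ := mem_CC.1 (e3 ⟨hy, t2⟩) b (mem_zpowers b)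
  refine h1 (commutatorElement_eq_one_iff_commute.2 (H1.commute_of_commutator_commute e4.symm ?_))
  rw [← Nat.card_zpowers, o3 c.four c.b3]
  exact (h3.coprime_dvd_left (orderOf_dvd_natCard R (hle hy))).symm

theorem Cf.is2 (c : Cf ρ b q q' R) [Group.IsSolvable S] (h3 : (Nat.card R).Coprime 3) :
    IsPGroup 2 R := by
  have nb := zpowers_le_of_mem c.nb
  have syl : ∀ (p : ℕ) [Fact p.Prime], ∃ D ≤ R, IsPGroup p D ∧ (D.relIndex R).Coprime p ∧
      b ∈ NN(D) := fun p _ => by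
    obtain ⟨D, h1, h2⟩ := H1.exists_invariant_sylowOf p nb (by rw [o3 c.four c.b3]; exact h3.symm)
      (Or.inl inferInstance)
    rw [H1.isPiHallOf_iff] at h1
    exact ⟨D, h1.1, H1.isPiNat_card_singleton_iff.1 h1.2.1,
      (H1.isPiNat_compl_singleton_iff Fact.out).1 h1.2.2, h2 (mem_zpowers b)⟩
  obtain ⟨P, h1, h2, h4, h5⟩ := syl 2
  have hc : (P.relIndex R).Coprime ((centralizer {b}).relIndex R) := by
    refine Nat.Coprime.symm (Nat.coprime_of_dvd fun p hp d1 d2 => ?_)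
    have := Fact.mk hp
    by_cases e : p = 2
    · subst e; exact absurd (h4.coprime_dvd_left d2) (by norm_num)
    · obtain ⟨D, k1, k2, k4, k5⟩ := syl p
      exact hp.ne_one (Nat.eq_one_of_dvd_coprimes k4
        (d1.trans (relIndex_dvd_of_le_left R (c.syl h3 e k2 k1 k5))) dvd_rfl)
  refine h2.to_le (c.le.trans ((H1.commutator_le_of_mul_centralizer (X := P) fun k hk => ?_).trans
    (comm_le_left (zpowers_le_of_mem h5))))
  obtain ⟨x, hx, y, hy, e⟩ := H1.exists_mul_of_coprime_relIndex hc hk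
  exact ⟨x, hx.1, y, by rw [CC_zpowers]; exact hy.1, e⟩

end H10.Cu
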