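import Cfsg.Agent.H10.Cu6

/-! S4415, part 7: setting up the configuration, and the decomposition of the module. -/

set_option autoImplicit false

namespace H10.Cu

open Cfsg Subgroup Module
open scoped commutatorElement

variable {S : Type*} [Group S] {E : Type*} [AddCommGroup E] [Module K3 E]
  {ρ : Representation K3 S E} {b q q' : S} {Q R : Subgroup S}

theorem ex_four [Finite S] (b3 : b * b * b = 1) (hQ : IsElementaryAbelian 2 Q) (h4 : Nat.card Q = 4)
    (hn : b ∈ NN(Q)) (hc : b ∉ CC(Q)) : ∃ q ∈ Q, ∃ q' ∈ Q, Four b q q' := by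
  classical
  rw [mem_CC] at hc
  push Not at hc
  obtain ⟨q, hq, e⟩ := hc
  have e0 : b * q * b⁻¹ ≠ q := fun e' => e (cj_iff.1 e').symm
  have m := conj_mem_of_mem_NN hn hq
  have q1 : q ≠ 1 := fun e' => e (by rw [e']; simp)
  have q2 : b * q * b⁻¹ ≠ 1 := fun e' => q1 (by simpa using e')
  have sq : q * q = 1 := by rw [← hQ.2 q hq, sq]
  refine ⟨q, hq, _, m, q1, sq, rfl, ?_⟩
  have c4 : ({1, q, b * q * b⁻¹, q * (b * q * b⁻¹)} : Finset S).card = 4 := Finset.card_eq_four.2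
    ⟨1, q, b * q * b⁻¹, q * (b * q * b⁻¹), q1.symm, q2.symm, fun e => e0 (by
      rw [eq_inv_of_mul_eq_one_right e.symm, inv_eq_of_mul_eq_one_right sq]), e0.symm,
      fun e => q2 (mul_eq_left.1 e.symm), fun e => q1 (mul_eq_right.1 e.symm), rfl⟩
  have := Set.eq_of_subset_of_ncard_le (s := ↑({1, q, b * q * b⁻¹, q * (b * q * b⁻¹)} : Finset S))
    (t := (Q : Set S)) (by
      intro x hx
      simp only [Finset.coe_insert, Finset.coe_singleton, Set.mem_insert_iff,
        Set.mem_singleton_iff] at hx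
      rcases hx with rfl | rfl | rfl | rfl
      exacts [Q.one_mem, hq, m, Q.mul_mem hq m])
    (by rw [Set.ncard_coe_finset, c4, ← h4]; rfl)
  have m2 : b * (b * q * b⁻¹) * b⁻¹ ∈ (Q : Set S) := conj_mem_of_mem_NN hn m
  rw [← this] at m2
  simp only [Finset.coe_insert, Finset.coe_singleton, Set.mem_insert_iff,
    Set.mem_singleton_iff] at m2
  rcases m2 with h | h | h | h
  · exact absurd (by simpa using h) q1
  · exact absurd (by rw [← h, b3cj b3, h]) e0
  · exact absurd (by simpa using h) e0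
  · exact h

theorem mem_core [Finite S] [Group.IsSolvable S] (h : Four b q q') (P : Sylow 3 S)
    (hc : ∀ x ∈ (P : Subgroup S), x * b = b * x) : q ∈ pPrimeCore 3 S := by
  let π := QuotientGroup.mk' (pPrimeCore 3 S)
  have h1 := H1.centralizer_pCore_le (p := 3) (H1.pPrimeCore_quotient_pPrimeCore (G := S) 3)
  have h2 := ((isSylowIn_top P).map_top (QuotientGroup.mk'_surjective (pPrimeCore 3 S))).pCoreOf_le
  rw [pCoreOf_top] at h2
  have h3 : π b ∈ pCore 3 _ := h1 (mem_CC.2 fun x hx => by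
    obtain ⟨y, hy, rfl⟩ := h2 hx
    rw [← map_mul, ← map_mul, hc y hy])
  have h4 : π q ∈ pCore 3 _ := by
    have := mul_mem h3 ((inferInstance : (pCore 3 _).Normal).conj_mem _ (inv_mem h3) (π q'))
    rwa [← mul_assoc, ← mul_assoc, ← map_inv, ← map_inv, ← map_mul, ← map_mul, ← map_mul, h.e2,
      mul_inv_cancel_right] at this
  obtain ⟨k, hk⟩ := orderOf_eq_pow_of_mem isPGroup_pCore' h4
  have h5 : orderOf (π q) ∣ 2 := orderOf_dvd_of_pow_eq_one (by rw [← map_pow, sq, h.sq, map_one])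
  have := Nat.eq_one_of_dvd_coprimes (Nat.Coprime.pow_left k (by norm_num : Nat.Coprime 3 2))
    (hk ▸ dvd_rfl) h5
  exact (QuotientGroup.eq_one_iff q).1 (orderOf_eq_one_iff.1 this)

variable [Finite E]

theorem rk_two (b3 : b * b * b = 1) {E₀ E₁ : Submodule K3 E} (h : E₀ ⊔ E₁ = ⊤)
    (h1 : ∀ v ∈ E₁, ρ b v = v) (h0 : ∀ v ∈ E₀, ρ b v ∈ E₀) (hc : Nat.card E₀ = 27)
    (hi : ∃ v ∈ E₀, ρ b (ρ b v - v) - (ρ b v - v) ≠ 0) :
    finrank K3 (LinearMap.range (ρ b - 1)) ≤ 2 := by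
  have : Module.Finite K3 E := Module.Finite.of_finite
  have e1 : finrank K3 E₀ = 3 := by
    rw [card_sub] at hc
    exact Nat.pow_right_injective (by norm_num : 2 ≤ 3) hc
  have e2 := LinearMap.finrank_range_add_finrank_ker ((ρ b - 1).domRestrict E₀)
  have e3 : LinearMap.range (ρ b - 1) = LinearMap.range ((ρ b - 1).domRestrict E₀) := by
    rw [LinearMap.range_domRestrict, LinearMap.range_eq_map, ← h, Submodule.map_sup]
    refine sup_eq_left.2 ?_
    rintro _ ⟨v, hv, rfl⟩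
    simp [h1 v hv]
  have e4 : finrank K3 (LinearMap.ker ((ρ b - 1).domRestrict E₀)) ≠ 0 := by
    rw [Ne, Submodule.finrank_eq_zero]
    intro e
    obtain ⟨v, hv, hn⟩ := hi
    have m := E₀.sub_mem (h0 v hv) hv
    have : (⟨_, E₀.sub_mem (h0 _ m) m⟩ : E₀) ∈ LinearMap.ker ((ρ b - 1).domRestrict E₀) := by
      have hb : ρ b (ρ b (ρ b v)) = v := by rw [← rm, ← rm, b3, r1]
      simp only [LinearMap.mem_ker, LinearMap.domRestrict_apply, LinearMap.sub_apply, map_sub, hb,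
        Module.End.one_apply]
      linear_combination (norm := module) three (ρ b v) - three (ρ b (ρ b v))
    rw [e] at this
    exact hn (congrArg Subtype.val this)
  rw [e3]; omega

theorem Cf.mod [Finite S] (c : Cf ρ b q q' R) (h3 : (Nat.card R).Coprime 3) :
    ∃ F₀ F₁ : Submodule K3 E, F₀ ⊓ F₁ = ⊥ ∧ F₀ ⊔ F₁ = ⊤ ∧ (∀ r ∈ R, ∀ v ∈ F₁, ρ r v = v) ∧
      (∀ r ∈ R ⊔ zpowers b, ∀ v ∈ F₀, ρ r v ∈ F₀) ∧
      (∀ r ∈ R ⊔ zpowers b, (∀ v ∈ F₀, ρ r v = v) → r = 1) ∧
      (∀ N : Submodule K3 E, N ≤ F₀ → (∀ r ∈ R ⊔ zpowers b, ∀ v ∈ N, ρ r v ∈ N) →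
        N = ⊥ ∨ N = F₀) := by
  have := Fintype.ofFinite R
  obtain ⟨F, hF⟩ : ∃ F, F = Submodule.span K3 {x | ∃ r ∈ R, ∃ v, x = ρ r v - v} := ⟨_, rfl⟩
  have mF : ∀ r ∈ R, ∀ v, ρ r v - v ∈ F := fun r hr v => hF ▸ Submodule.subset_span ⟨r, hr, v, rfl⟩
  let π : E →ₗ[K3] E := ∑ r : R, ρ r
  have hπ : ∀ v, π v = ∑ r : R, ρ r v := fun v => by simp [π]
  have n0 : ((Fintype.card R : ℕ) : K3) ≠ 0 := by
    rw [Ne, ZMod.natCast_eq_zero_iff, ← Nat.card_eq_fintype_card]
    exact fun d => absurd (h3.coprime_dvd_left d) (by norm_num)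
  have i1 : F ⊓ CE ρ R = ⊥ := by
    refine (Submodule.eq_bot_iff _).2 fun v ⟨h1, h2⟩ => ?_
    have : F ≤ LinearMap.ker π := by
      rw [hF, Submodule.span_le]
      rintro _ ⟨s, hs, w, rfl⟩
      rw [SetLike.mem_coe, LinearMap.mem_ker, map_sub, sub_eq_zero, hπ, hπ]
      exact Fintype.sum_equiv (Equiv.mulRight ⟨s, hs⟩) _ _ fun r => (rm ρ _ _ _).symm
    have e := LinearMap.mem_ker.1 (this h1)
    rw [hπ, Finset.sum_congr rfl fun (r : R) _ => h2 r r.2, Finset.sum_const, Finset.card_univ,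
      ← Nat.cast_smul_eq_nsmul K3, smul_eq_zero] at e
    exact e.resolve_left n0
  have i2 : F ⊔ CE ρ R = ⊤ := by
    refine eq_top_iff.2 fun v _ => (Submodule.smul_mem_iff _ n0).1 ?_
    have e1 : π v ∈ CE ρ R := fun s hs => by
      rw [hπ, map_sum]
      exact Fintype.sum_equiv (Equiv.mulLeft ⟨s, hs⟩) _ _ fun r => (rm ρ _ _ _).symm
    have e2 : ∑ r : R, (ρ r v - v) ∈ F := Submodule.sum_mem _ fun r _ => mF r r.2 v
    rw [Finset.sum_sub_distrib, ← hπ, Finset.sum_const, Finset.card_univ,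
      ← Nat.cast_smul_eq_nsmul K3] at e2
    have := Submodule.sub_mem _ (Submodule.mem_sup_right (S := F) e1) (Submodule.mem_sup_left e2)
    rwa [sub_sub_cancel] at this
  have hn : R ⊔ zpowers b ≤ NN(R) := sup_le (le_NN_self R) (zpowers_le_of_mem c.nb)
  refine ⟨F, CE ρ R, i1, i2, fun r hr v hv => hv r hr, fun r hr => ?_, fun r hr h => ?_,
    fun N hN h => ?_⟩
  · have : F ≤ F.comap (ρ r) := by
      conv_lhs => rw [hF]
      rw [Submodule.span_le]
      rintro _ ⟨s, hs, w, rfl⟩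
      have := mF _ (conj_mem_of_mem_NN (hn hr) hs) (ρ r w)
      rw [rm, ri', rm] at this
      simpa using this
    exact fun v hv => this hv
  · have : R ⊔ zpowers b ≤ Fix ρ (CE ρ R) := sup_le (fun r hr v hv => hv r hr)
      (zpowers_le_of_mem fun v hv => c.fix c.four ⟨by simpa using hv q c.m, by simpa using hv q' c.m'⟩)
    refine eq_one c.inj fun v => ?_
    obtain ⟨x, hx, y, hy, rfl⟩ := Submodule.mem_sup.1 (i2.ge (Submodule.mem_top (x := v)))
    rw [map_add, h x hx, this hr y hy]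
  · rcases c.dich c.four c.le c.m c.m' (N := N) (fun t ht => h t (mem_sup_left ht))
      (h b (mem_sup_right (mem_zpowers b))) with e | e
    · exact Or.inl (le_bot_iff.1 (i1 ▸ le_inf hN fun v hv r hr => e hr v hv))
    · refine Or.inr (le_antisymm hN ?_)
      rw [hF, Submodule.span_le]
      rintro _ ⟨s, hs, w, rfl⟩
      exact e hs w

end H10.Cu
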