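import Cfsg.Agent.H10.Cv8a
import Cfsg.Agent.H10.Act
import Cfsg.Agent.H10.Cores
import Cfsg.Agent.H1.Coprime2

/-! The centralizer of a four-group in the 3-local recognition of `A₈`. -/

set_option autoImplicit false

open Subgroup Equiv H8A

namespace H10.Cv8

theorem c4 {H : Type*} [Group H] [Finite H] {X : Subgroup H} {a b c : H}
    (h : ∀ x ∈ X, x = 1 ∨ x = a ∨ x = b ∨ x = c) (h2 : ∀ x ∈ X, x ^ 2 = 1) : Nat.card X ∣ 4 := by
  have h1 : Nat.card X ≤ 4 := by
    have : (X : Set H).ncard ≤ ({1, a, b, c} : Set H).ncard := Set.ncard_le_ncard h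
    refine this.trans ((Set.ncard_insert_le _ _).trans (Nat.succ_le_succ
      ((Set.ncard_insert_le _ _).trans (Nat.succ_le_succ ((Set.ncard_insert_le _ _).trans ?_)))))
    simp
  obtain ⟨k, hk⟩ := (isPGroup_iff_mem.2 fun x hx => ⟨1, h2 x hx⟩ : IsPGroup 2 X).exists_card_eq
  rw [hk] at h1 ⊢
  exact Nat.pow_dvd_pow 2 (show k ≤ 2 from (Nat.pow_le_pow_iff_right (by norm_num)).1 h1)

theorem pw {H : Type*} [Group H] {x : H} {n : ℕ} (h : (orderOf x).Coprime 3) (e : x ^ (n * 3) = 1) :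
    x ^ n = 1 :=
  orderOf_dvd_iff_pow_eq_one.1 (h.dvd_of_dvd_mul_right (orderOf_dvd_of_pow_eq_one e))

variable {G : Type*} [Group G] [Finite G] {ι : L0 →* G} {s : G} {φ : A8 →* G}

theorem cv (h : Hy ι s) : (centralizer ({ι va, ι vb} : Set G) ≤ ι.range ∨
    s * ι v1 * s ∈ centralizer ({ι va, ι vb} : Set G) ∨
    s * ι va * s ∈ centralizer ({ι va, ι vb} : Set G)) ∧
    Nat.card (centralizer ({ι va, ι vb} : Set G)) ∣ 48 := by
  haveI : Fact (Nat.Prime 3) := ⟨Nat.prime_three⟩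
  set M := centralizer ({ι va, ι vb} : Set G) with hM
  have cm : ∀ x y : L0, ι x * ι y = ι y * ι x ↔ x * y = y * x := fun x y => by
    rw [← map_mul, ← map_mul, h.inj.eq_iff]
  have mM : ∀ g, g ∈ M ↔ g * ι va = ι va * g ∧ g * ι vb = ι vb * g := fun g => by
    simp [hM, mem_centralizer_iff, eq_comm]
  have cz : ∀ g, g * ι z0 = ι z0 * g → ∃ x, ι x = g := fun g e =>
    h.mem_of (by rw [e, mul_inv_cancel_right]; exact mem_zpowers _)
  have zM : ι z0 ∈ M := (mM _).2 ⟨(cm _ _).2 (by decide), (cm _ _).2 (by decide)⟩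
  have oz : orderOf (ι z0) = 3 := by
    rw [orderOf_injective ι h.inj]; exact orderOf_eq_prime (by decide) (by decide)
  have nM : ∀ g ∈ M, g ∈ NN(zpowers (ι z0)) → ∃ x, ι x = g ∧ x * va = va * x ∧ x * vb = vb * x := by
    intro g hg hn
    obtain ⟨x, rfl⟩ : g ∈ ι.range := h.nz ▸ hn
    exact ⟨x, rfl, (cm _ _).1 ((mM _).1 hg).1, (cm _ _).1 ((mM _).1 hg).2⟩
  have pz : IsPGroup 3 (zpowers (ι z0)) := IsPGroup.of_card (n := 1) (by rw [Nat.card_zpowers, oz]; rfl)
  have hP : IsSylowIn 3 (zpowers (ι z0)) M := by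
    obtain ⟨T, hT, hle⟩ := exists_isSylowIn_ge pz (zpowers_le.2 zM)
    by_contra hh
    refine (lt_inf_NN hT.isPGroup (lt_of_le_of_ne hle fun e => hh (e ▸ hT))).not_ge fun g hg => ?_
    obtain ⟨x, rfl, e1, e2⟩ := nM g (hT.le hg.1) hg.2
    obtain ⟨-, e6, e3, -⟩ := f1 x e1 e2
    obtain ⟨k, hk⟩ := isPGroup_iff_mem.1 hT.isPGroup _ hg.1
    rw [← map_pow, map_eq_one_iff ι h.inj] at hk
    have : x ^ 3 = 1 := orderOf_dvd_iff_pow_eq_one.1 (Nat.Coprime.dvd_of_dvd_mul_right
      (((show Nat.Coprime 3 2 by norm_num).pow_left k).coprime_dvd_left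
        (orderOf_dvd_of_pow_eq_one hk)) (orderOf_dvd_of_pow_eq_one e6))
    rcases e3 this with rfl | rfl | rfl <;> rw [map_pow] <;> exact pow_mem (mem_zpowers _) _
  set N := resOf 3 M with hN
  have cN : (Nat.card N).Coprime 3 := by
    have hb : NN((hP.toSylow : Subgroup M)) ≤ CC((hP.toSylow : Subgroup M)) := by
      rw [hP.coe_toSylow, NN_subgroupOf hP.le, CC_subgroupOf hP.le, CC_zpowers]
      intro g hg
      obtain ⟨x, e, e1, e2⟩ := nM g g.2 hg
      have : (g : G) * ι z0 = ι z0 * g := e ▸ (cm _ _).2 (f1 x e1 e2).1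
      exact mem_centralizer_singleton_iff.2 this
    have h1 : N ≤ (MonoidHom.transferSylow _ hb).ker.map M.subtype := resOf_le_of_pow fun g hg => by
      obtain ⟨k, hk⟩ := hP.toSylow.2 (MonoidHom.transferSylow _ hb ⟨g, hg⟩)
      exact ⟨k, ⟨g, hg⟩ ^ 3 ^ k, by rw [SetLike.mem_coe, MonoidHom.mem_ker, map_pow, hk], rfl⟩
    refine Nat.Coprime.coprime_dvd_left (card_dvd_of_le h1) ?_
    rw [card_subtype]
    exact ((Nat.Prime.coprime_iff_not_dvd Nat.prime_three).2
      (MonoidHom.not_dvd_card_ker_transferSylow _ hb)).symm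
  have oN : ∀ g ∈ N, (orderOf g).Coprime 3 := fun g hg =>
    cN.coprime_dvd_left (Subgroup.orderOf_dvd_natCard _ hg)
  have NM : N ≤ M := resOf_le M
  have cV : ∀ g ∈ M, ∀ x ∈ V0, Commute g (ι x) := fun g hg x hx => by
    obtain ⟨e1, e2⟩ := (mM g).1 hg
    rcases hx with rfl | rfl | rfl | rfl
    · simp
    · exact e1
    · exact e2
    · rw [map_mul]; exact Commute.mul_right e1 e2
  have dN : ι d0 ∈ NN(N) := NN_le_NN_resOf M (mem_NN_of_conj_mem fun g hg => by
    have k : ∀ x : L0, d0⁻¹ * x * d0 ∈ V0 →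
        ι d0 * g * (ι d0)⁻¹ * ι x = ι x * (ι d0 * g * (ι d0)⁻¹) := fun x hx => by
      have := (cV g hg _ hx).eq
      rw [map_mul, map_mul, map_inv] at this
      calc _ = ι d0 * (g * ((ι d0)⁻¹ * ι x * ι d0)) * (ι d0)⁻¹ := by group
        _ = _ := by rw [this]; group
    exact (mM _).2 ⟨k _ (by show _ ∨ _ ∨ _ ∨ _; decide +kernel),
      k _ (by show _ ∨ _ ∨ _ ∨ _; decide +kernel)⟩)
  have zN : ι z0 ∈ NN(N) := le_NN_resOf M zM
  have zd : Commute (ι z0) (ι d0) := (cm _ _).2 (by decide)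
  set U := N ⊓ centralizer {ι d0} with hU
  have key : N ≤ V0.map ι ⊔ U := by
    have mD : ∀ x : L0, x ∈ centralizer ({z0, d0} : Set L0) → x * z0 = z0 * x ∧ x * d0 = d0 * x :=
      fun x hx => ⟨(hx _ (by simp)).symm, (hx _ (by simp)).symm⟩
    have eD : ∀ g ∈ (centralizer ({z0, d0} : Set L0)).map ι, ∃ i j : ℕ, g = ι z0 ^ i * ι d0 ^ j := by
      rintro _ ⟨x, hx, rfl⟩
      obtain ⟨i, j, e⟩ := (f2 x (mD x hx).1 (mD x hx).2).2.1
      exact ⟨i, j, by rw [e, map_mul, map_pow, map_pow]⟩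
    have e3 : ∀ g ∈ (centralizer ({z0, d0} : Set L0)).map ι, g ^ 3 = 1 := by
      rintro _ ⟨x, hx, rfl⟩
      rw [← map_pow, (f2 x (mD x hx).1 (mD x hx).2).1, map_one]
    haveI : IsMulCommutative ((centralizer ({z0, d0} : Set L0)).map ι) :=
      isMulCommutative_iff_le_CC.2 fun a ha b hb => by
        obtain ⟨i, j, rfl⟩ := eD a ha
        obtain ⟨k, l, rfl⟩ := eD b hb
        exact (((Commute.refl _).pow_pow _ _).mul_right (zd.pow_pow _ _)).mul_left
          ((zd.symm.pow_pow _ _).mul_right ((Commute.refl _).pow_pow _ _))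
    refine H1.le_of_forall_centralizer_le (A := (centralizer ({z0, d0} : Set L0)).map ι)
      (fun hc => ?_) (fun g hg => ?_) ?_ ?_
    · obtain ⟨g, hg⟩ := hc.exists_ofOrder_eq_natCard
      have h1 : orderOf g ≤ 3 := orderOf_le_of_pow_eq_one (by norm_num) (Subtype.ext (e3 _ g.2))
      have h2 : zpowers (ι z0) < (centralizer ({z0, d0} : Set L0)).map ι := by
        refine lt_of_le_of_ne (zpowers_le.2 ⟨z0, ?_, rfl⟩) fun e => ?_
        · rintro _ (rfl | rfl) <;> decide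
        · obtain ⟨k, hk⟩ : ι d0 ∈ zpowers (ι z0) := e.ge ⟨d0, by rintro _ (rfl | rfl) <;> decide, rfl⟩
          simp only [← map_zpow, h.inj.eq_iff] at hk
          have h3 : (z0 ^ k).1.2 = d0.1.2 := by rw [hk]
          have h4 : z0.1.2 = 1 := rfl
          rw [coe_zpow, Prod.pow_snd, h4, one_zpow] at h3
          exact absurd h3 (by decide)
      exact h2.ne (eq_of_le_of_card_ge h2.le (by rw [Nat.card_zpowers, oz, ← hg]; exact h1))
    · obtain ⟨i, j, rfl⟩ := eD g hg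
      exact mul_mem (pow_mem zN _) (pow_mem dN _)
    · obtain ⟨k, hk⟩ := (isPGroup_iff_mem.2 fun x hx => ⟨1, e3 x hx⟩ :
        IsPGroup 3 ((centralizer ({z0, d0} : Set L0)).map ι)).exists_card_eq
      rw [hk]
      exact cN.symm.pow_left k
    rintro _ ⟨x, hx, rfl⟩ x1
    have hz : N ⊓ centralizer {ι z0} ≤ V0.map ι ⊔ U := fun g hg => by
      obtain ⟨y, rfl⟩ := cz g (mem_centralizer_singleton_iff.1 hg.2)
      obtain ⟨e1, e2⟩ := (mM _).1 (NM hg.1)
      obtain ⟨-, e6, -, e⟩ := f1 y ((cm _ _).1 e1) ((cm _ _).1 e2)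
      exact mem_sup_left ⟨y, e (pw (n := 2) (orderOf_injective ι h.inj y ▸ oN _ hg.1) e6), rfl⟩
    have iv : ∀ y : L0, centralizer {ι y⁻¹} ≤ centralizer {ι y} := fun y g hg => by
      rw [mem_centralizer_singleton_iff] at hg ⊢
      rw [map_inv] at hg
      exact Commute.inv_right_iff.1 hg
    have hw : ∀ w : L0, x = w * (z0 * d0) * w⁻¹ → N ⊓ centralizer {ι x} ≤ V0.map ι ⊔ U := by
      intro w e g hg
      have c18 : Nat.card (centralizer ({ι x} : Set G)) = 18 := by
        rw [e, map_mul, map_mul, map_inv, ← cj_centralizer_singleton, card_cj, h.cy]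
      have c2 : Nat.card ↥(N ⊓ centralizer {ι x}) ∣ 2 := by
        have h1 : Nat.card ↥(N ⊓ centralizer {ι x}) ∣ 2 * 3 ^ 2 :=
          (card_dvd_of_le inf_le_right).trans c18.dvd
        exact ((cN.coprime_dvd_left (card_dvd_of_le inf_le_left)).pow_right 2).dvd_of_dvd_mul_right h1
      by_cases g1 : g = 1
      · rw [g1]; exact one_mem _
      exfalso
      have fx : ∀ a ∈ NN(N), a * ι x = ι x * a → a * g * a⁻¹ = g := fun a ha ax => by
        have hm : a * g * a⁻¹ ∈ N ⊓ centralizer {ι x} := ⟨conj_mem_of_mem_NN ha hg.1,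
          (centralizer {ι x}).mul_mem ((centralizer {ι x}).mul_mem
            (mem_centralizer_singleton_iff.2 ax) hg.2)
            ((centralizer {ι x}).inv_mem (mem_centralizer_singleton_iff.2 ax))⟩
        rcases (Nat.dvd_prime Nat.prime_two).1 c2 with c | c
        · exact absurd (mem_bot.1 (card_eq_one.1 c ▸ hg)) g1
        · obtain ⟨y, -, hy⟩ := (Nat.card_eq_two_iff' (1 : ↥(N ⊓ centralizer {ι x}))).1 c
          exact congrArg Subtype.val ((hy ⟨_, hm⟩ fun e' => g1 (by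
            simpa using congrArg Subtype.val e')).trans
            (hy ⟨g, hg⟩ fun e' => g1 (congrArg Subtype.val e')).symm)
      have e1 := mul_inv_eq_iff_eq_mul.1 (fx _ zN ((cm _ _).2 (mD x hx).1.symm))
      have e2 := mul_inv_eq_iff_eq_mul.1 (fx _ dN ((cm _ _).2 (mD x hx).2.symm))
      obtain ⟨y, rfl⟩ := cz g e1.symm
      have := pw (n := 1) (oN _ hg.1) (by
        rw [← map_pow, (f2 y ((cm _ _).1 e1).symm ((cm _ _).1 e2).symm).1, map_one])
      exact g1 (by simpa using this)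
    rcases (f2 x (mD x hx).1 (mD x hx).2).2.2 with e | e | e | e | e | e | e | e | e
    · exact absurd (by rw [e, map_one]) x1
    · rwa [e]
    · rw [e]; exact (inf_le_inf_left _ (iv _)).trans hz
    · rw [e]; exact le_sup_right
    · rw [e]; exact (inf_le_inf_left _ (iv _)).trans le_sup_right
    all_goals exact hw _ e
  let f : L0 →* G := (MulAut.conj s).toMonoidHom.comp ι
  have hf : ∀ x, f x = s * ι x * s := fun x => by rw [← h.si]; nth_rewrite 1 [h.si]; rfl
  have fi : Function.Injective f := (MulAut.conj s).injective.comp h.inj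
  have fd : f d0 = ι z0 := by rw [hf, h.sd]
  have fz : f z0 = ι d0 := by rw [hf, h.sz]
  have hUf : U = (U.comap f).map f := by
    refine (map_comap_eq_self fun g hg => ?_).symm
    obtain ⟨x, hx⟩ := cz (s * g * s) (by
      have e := mem_centralizer_singleton_iff.1 hg.2
      rw [← h.sd]
      calc _ = s * g * (s * s) * ι d0 * s := by group
        _ = s * ι d0 * (s * s) * g * s := by
            rw [h.ss, mul_one, mul_one, mul_assoc s g, e, mul_assoc s (ι d0)]
        _ = _ := by group)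
    refine ⟨x, ?_⟩
    rw [hf, hx]
    calc _ = s * s * g * (s * s) := by group
      _ = _ := by rw [h.ss, one_mul, mul_one]
  have uz : ∀ x ∈ U.comap f, x * z0 = z0 * x := fun x hx =>
    fi (by rw [map_mul, map_mul, fz]; exact mem_centralizer_singleton_iff.1 hx.2)
  have u10 : ∀ x ∈ U.comap f, x ^ 10 = 1 := fun x hx =>
    pw (orderOf_injective f fi x ▸ oN _ hx.1) (f3 x (uz x hx))
  have ud : ∀ x ∈ U.comap f, d0 * x * d0⁻¹ ∈ U.comap f := fun x hx => by
    rw [mem_comap, map_mul, map_mul, map_inv, fd]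
    exact ⟨conj_mem_of_mem_NN zN hx.1, (centralizer {ι d0}).mul_mem ((centralizer {ι d0}).mul_mem
      (mem_centralizer_singleton_iff.2 zd) hx.2)
      ((centralizer {ι d0}).inv_mem (mem_centralizer_singleton_iff.2 zd))⟩
  have cl : ∀ x ∈ U.comap f, x ^ 2 = 1 ∧ (x = 1 ∨ (x = v1 ∨ x = d0 * v1 * d0⁻¹ ∨ x = d0⁻¹ * v1 * d0) ∨
      (x = va ∨ x = d0 * va * d0⁻¹ ∨ x = d0⁻¹ * va * d0)) := fun x hx =>
    f4 x (uz x hx) (u10 x hx) (u10 _ (mul_mem hx (ud x hx)))
      (u10 _ (mul_mem (mul_mem hx hx) (ud x hx)))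
      (u10 _ (mul_mem (mul_mem (mul_mem hx (ud x hx)) hx) (ud _ (ud x hx))))
  have bk : ∀ x ∈ U.comap f, ∀ v, (x = v ∨ x = d0 * v * d0⁻¹ ∨ x = d0⁻¹ * v * d0) →
      v ∈ U.comap f := by
    rintro x hx v (rfl | rfl | rfl)
    · exact hx
    · have := ud _ (ud _ hx)
      rwa [show d0 * (d0 * (d0 * v * d0⁻¹) * d0⁻¹) * d0⁻¹ = d0 * d0 * d0 * v * (d0 * d0 * d0)⁻¹ by group,
        f5.2, one_mul, inv_one, mul_one] at this
    · simpa [mul_assoc] using ud _ hx
  have hMe : N ⊔ zpowers (ι z0) = M := hP.resOf_sup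
  refine ⟨?_, ?_⟩
  · by_cases e1 : v1 ∈ U.comap f
    · exact Or.inr (Or.inl (hf v1 ▸ NM e1.1))
    by_cases e2 : va ∈ U.comap f
    · exact Or.inr (Or.inr (hf va ▸ NM e2.1))
    refine Or.inl (hMe.ge.trans (sup_le (key.trans (sup_le (map_le_range _ _) ?_))
      (zpowers_le.2 ⟨z0, rfl⟩)))
    rw [hUf]
    rintro _ ⟨x, hx, rfl⟩
    rcases (cl x hx).2 with rfl | e | e
    · rw [map_one]; exact one_mem _
    · exact absurd (bk x hx _ e) e1
    · exact absurd (bk x hx _ e) e2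
  · have c1 : Nat.card (U.comap f) ∣ 4 := by
      by_cases e1 : v1 ∈ U.comap f
      · refine c4 (fun x hx => (cl x hx).2.imp_right fun e => e.resolve_right fun e' => ?_)
          fun x hx => (cl x hx).1
        exact f5.1 (u10 _ (mul_mem e1 (bk x hx _ e')))
      · exact c4 (fun x hx => (cl x hx).2.imp_right fun e =>
          e.resolve_left fun e' => e1 (bk x hx _ e')) fun x hx => (cl x hx).1
    have c2 : Nat.card V0 ∣ 4 := c4 (fun x hx => hx) (by
      rintro _ (rfl | rfl | rfl | rfl) <;> decide +kernel)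
    have c3 : Nat.card N ∣ 4 * 4 := by
      refine (card_dvd_of_le key).trans ((H1.card_sup_dvd (le_trans ?_ (CC_le_NN _))).trans
        (mul_dvd_mul ?_ ?_))
      · rintro _ ⟨x, hx, rfl⟩ g hg
        exact cV g (NM hg.1) x hx
      · rwa [card_map_of_injective h.inj]
      · rwa [hUf, card_map_of_injective fi]
    rw [← hMe, sup_comm]
    refine (H1.card_sup_dvd (zpowers_le.2 zN)).trans ?_
    rw [Nat.card_zpowers, oz]
    exact mul_dvd_mul_left 3 c3

end H10.Cv8
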