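import Cfsg.Agent.H8.A8h

/-! Finite checks in the even part of `S₃ × S₅`. -/

set_option autoImplicit false

open Subgroup Equiv H8A

namespace H10.Cv8

theorem f1 : ∀ x : L0, x * va = va * x → x * vb = vb * x → x * z0 = z0 * x ∧ x ^ 6 = 1 ∧
    (x ^ 3 = 1 → x = z0 ^ 0 ∨ x = z0 ^ 1 ∨ x = z0 ^ 2) ∧
    (x ^ 2 = 1 → x = 1 ∨ x = va ∨ x = vb ∨ x = va * vb) := by
  refine all_L0 ?_; decide +kernel

theorem f2 : ∀ x : L0, x * z0 = z0 * x → x * d0 = d0 * x → x ^ 3 = 1 ∧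
    (∃ i j : Fin 3, x = z0 ^ (i : ℕ) * d0 ^ (j : ℕ)) ∧
    (x = 1 ∨ x = z0 ∨ x = z0⁻¹ ∨ x = d0 ∨ x = d0⁻¹ ∨ x = 1 * (z0 * d0) * 1⁻¹ ∨
      x = r0 * (z0 * d0) * r0⁻¹ ∨ x = u0 * (z0 * d0) * u0⁻¹ ∨
      x = (u0 * r0) * (z0 * d0) * (u0 * r0)⁻¹) := by
  refine all_L0 ?_; decide +kernel

theorem f3 : ∀ x : L0, x * z0 = z0 * x → x ^ 30 = 1 := by
  refine all_L0 ?_; decide +kernel

set_option synthInstance.maxSize 2000 in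
theorem f4 : ∀ x : L0, x * z0 = z0 * x → x ^ 10 = 1 → (x * (d0 * x * d0⁻¹)) ^ 10 = 1 →
    (x * x * (d0 * x * d0⁻¹)) ^ 10 = 1 →
    (x * (d0 * x * d0⁻¹) * x * (d0 * (d0 * x * d0⁻¹) * d0⁻¹)) ^ 10 = 1 →
    x ^ 2 = 1 ∧ (x = 1 ∨ (x = v1 ∨ x = d0 * v1 * d0⁻¹ ∨ x = d0⁻¹ * v1 * d0) ∨
      (x = va ∨ x = d0 * va * d0⁻¹ ∨ x = d0⁻¹ * va * d0)) := by
  refine all_L0 ?_; decide +kernel

theorem f5 : (v1 * va) ^ 10 ≠ 1 ∧ d0 * d0 * d0 = 1 := by decide +kernel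

def V0 : Subgroup L0 where
  carrier := {x | x = 1 ∨ x = va ∨ x = vb ∨ x = va * vb}
  mul_mem' := by
    rintro _ _ (rfl | rfl | rfl | rfl) (rfl | rfl | rfl | rfl) <;>
      (show _ ∨ _ ∨ _ ∨ _; decide +kernel)
  one_mem' := Or.inl rfl
  inv_mem' := by rintro _ (rfl | rfl | rfl | rfl) <;> (show _ ∨ _ ∨ _ ∨ _; decide +kernel)

end H10.Cv8
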