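import Cfsg.Agent.S2986
import Cfsg.Agent.H14.BbE
import Cfsg.Agent.H4.Replace
import Cfsg.Agent.H17.Mw1

/-! The Thompson subgroup normalizes subnormal blocks. -/

set_option autoImplicit false
set_option linter.unusedSectionVars false

open Cfsg Subgroup H10 H12 H16.BB
open scoped commutatorElement

namespace H10.Jn

variable {G : Type*} [Group G] [Finite G] {p : ℕ} [hp : Fact p.Prime] {E : Subgroup G}

theorem moved (hE : Bk p E) {x w : G} (hx : x ∉ NN(E)) (hw : w ∈ WW p E) : x * w * x⁻¹ ∈ CC(E) := by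
  rcases H16.BB.main _ E (cj x E) rfl hE (hE.cj' x) with h | h
  · exact (hx (mem_NN.2 h.symm)).elim
  · exact comm_eq_bot'.1 h (mem_cj'.2 ⟨w, hE.W_E hw, rfl⟩)

theorem cen (hE : Bk p E) {b : G} (hb : b ∈ NN(E)) (h : ∀ w ∈ WW p E, b * w * b⁻¹ * w⁻¹ ∈ CC(E)) :
    b ∈ CC(WW p E) := by
  have hB : zpowers b ≤ NN(E) := zpowers_le.2 hb
  have nW : E ≤ NN(WW p E) := right_le_NN_comm _ _
  have h1 : ⁅zpowers b, WW p E⁆ ≤ CC(E) := by
    rw [zpowers_eq_closure]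
    refine comm_closure_le (by rw [← zpowers_eq_closure]; exact le_NN_CC hB) ?_
    rintro _ rfl w hw
    exact h w hw
  have h2 : ⁅⁅zpowers b, WW p E⁆, E⁆ = ⊥ := comm_eq_bot.2 h1
  have h3 : ⁅⁅E, zpowers b⁆, WW p E⁆ ≤ CC(E) :=
    three_subgroups (le_NN_CC (le_NN_self E)) (le_NN_CC hB) (hE.W_E.trans (le_NN_CC (le_NN_self E)))
      (h2.le.trans bot_le) ((commutator_mono (comm_le_left nW) le_rfl).trans
        (by rw [commutator_comm]; exact h1))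
  have h4 := hE.faith (comm_le_left hB) (by rw [commutator_comm]; exact h3)
  have h5 : ⁅⁅E, zpowers b⁆, WW p E⁆ = ⊥ := comm_eq_bot'.2 (WW_CC E (h4.trans hE.cQ))
  have h6 : ⁅⁅WW p E, E⁆, zpowers b⁆ ≤ ⊥ :=
    three_subgroups (le_NN_of_normal _ _) (le_NN_of_normal _ _) (le_NN_of_normal _ _) h5.le h2.le
  have h7 := cc hE.res (isPGroup_ZO (p := p) (pCore p G)) (elab_le_CC (elab_ZO _)) (vN E)
  exact comm_eq_bot'.1 (le_bot_iff.1 ((commutator_mono h7 le_rfl).trans h6)) (mem_zpowers b)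

theorem jn (hE : Bk p E) (T : Sylow p G) : thompsonSubgroupOf p (T : Subgroup G) ≤ NN(E) := by
  refine H4.thompsonOf_le_iff.2 fun A hA a ha => ?_
  by_contra hna
  have hAA : ∀ x ∈ A, ∀ y ∈ A, x * y = y * x := fun x hx y hy =>
    le_CC_iff.1 (isMulCommutative_iff_le_CC.1 hA.2.1.1) y hy x hx
  let V := ZO p (pCore p G)
  let U := ncl (WW p E) A
  have hUV : U ≤ V := ncl_le (WW_le E) (vN A)
  have hVV : ∀ x ∈ V, ∀ y ∈ V, x * y = y * x := fun x hx y hy =>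
    le_CC_iff.1 (elab_le_CC (elab_ZO (p := p) (pCore p G))) y hy x hx
  have hU : IsElementaryAbelian p U := ⟨isMulCommutative_iff_le_CC.2
    (le_CC_iff.2 fun x hx y hy => hVV _ (hUV hy) _ (hUV hx)), fun x hx => (elab_ZO _).2 x (hUV hx)⟩
  have hUT : U ≤ T := (hUV.trans (ZO_le _)).trans (H10.isPGroup_pCore'.le_sylow_of_normal T)
  have hWU : WW p E ≤ U := le_ncl _ _
  obtain ⟨h1, -, h2⟩ := H4.timmesfeld hU (le_NN_ncl _ _) (H4.bestOffender_of_mem_maxAb hU hUT hA) le_rfl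
  set B := A ⊓ CC(⁅U, A⁆)
  obtain ⟨w, hw, hw'⟩ := SetLike.not_le_iff_exists.1 hE.W_nc
  have fx : ∀ b, b ∉ NN(E) → ∀ v ∈ WW p E, v * b = b * v → v ∈ CC(E) := fun b hb v hv e => by
    have := moved hE hb hv
    rwa [← e, mul_inv_cancel_right] at this
  have key : ∀ b ∈ B, ∀ x ∈ A, ∀ v ∈ WW p E,
      (b * x) * v * (b * x)⁻¹ * (b * v * b⁻¹)⁻¹ = x * v * x⁻¹ * v⁻¹ := fun b hb x hx v hv => by
    have h3 : ⁅x, v⁆ ∈ ⁅U, A⁆ := by
      rw [commutator_comm]; exact commutator_mem_commutator hx (hWU hv)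
    have := mem_CC.1 hb.2 _ h3
    rw [commutatorElement_def] at this
    calc _ = b * (x * v * x⁻¹ * v⁻¹) * b⁻¹ := by group
      _ = _ := by rw [← this, mul_inv_cancel_right]
  have cV : ∀ x, ∀ v ∈ WW p E, x * v * x⁻¹ ∈ V := fun x v hv =>
    conj_mem_of_mem_NN (vN ⊤ (mem_top x)) (WW_le E hv)
  have c1 : ∀ b ∈ B, b ∈ NN(E) → b ∈ CC(U) := fun b hb hn => by
    have h3 := cen hE hn fun v hv => by
      have h4 := key b hb a ha v hv
      have h5 : b * v * b⁻¹ * v⁻¹ ∈ WW p E :=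
        mul_mem (conj_mem_of_mem_NN (WW_NN (zpowers_le.2 hn) (mem_zpowers b)) hv) (inv_mem hv)
      have h6 : a * (b * v * b⁻¹ * v⁻¹) * a⁻¹ = b * v * b⁻¹ * v⁻¹ := by
        have e1 := hVV _ (inv_mem (WW_le E hv)) _ (cV b v hv)
        have e2 := hVV _ (cV a v hv) _ (mul_mem (inv_mem (WW_le E hv)) (cV b v hv))
        rw [hAA b hb.1 a ha, mul_inv_eq_iff_eq_mul] at h4
        calc _ = a * b * v * (a * b)⁻¹ * (a * v * a⁻¹)⁻¹ := by group
          _ = a * v * a⁻¹ * (v⁻¹ * (b * v * b⁻¹)) * (a * v * a⁻¹)⁻¹ := by rw [h4]; group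
          _ = _ := by rw [e2, mul_inv_cancel_right, e1]
      rw [← h6]
      exact moved hE hna h5
    refine le_CC_symm (H := U) (K := zpowers b) (ncl_le_CC (le_CC_symm (zpowers_le.2 h3)) ?_)
      (mem_zpowers b)
    exact (le_CC_iff.2 fun x hx y hy => hAA _ (zpowers_le.2 hb.1 hy) _ hx).trans (CC_le_NN _)
  have c2 : ∀ b ∈ B, b ∉ NN(E) → ∀ x ∈ A, x ∉ NN(E) → b * x ∈ NN(E) := fun b hb hn x hx hn' => by
    by_contra h3
    have h4 := mul_mem (inv_mem (mul_mem (moved hE h3 hw) (inv_mem (moved hE hn hw)))) (moved hE hn' hw)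
    rw [key b hb x hx w hw, mul_inv_rev, inv_inv, inv_mul_cancel_right] at h4
    exact hw' h4
  obtain ⟨b, hb, hb'⟩ := SetLike.not_le_iff_exists.1 (mt comm_eq_bot'.2 (h2 fun h =>
    hw' (fx a hna w hw (mem_CC.1 (comm_eq_bot'.1 h ha) w (hWU hw)))))
  have hbn : b ∉ NN(E) := fun h => hb' (c1 b hb h)
  have i1 : (B ⊓ CC(U)).relIndex B ≤ 2 := H17.Mw.le_two hb fun y hy => by
    by_cases h : y ∈ NN(E)
    · exact .inl ⟨hy, c1 y hy h⟩
    · have h3 := mul_mem (inv_mem hb) hy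
      exact .inr ⟨h3, c1 _ h3 (c2 _ (inv_mem hb) (mt inv_mem_iff.1 hbn) y hy.1 h)⟩
  have i2 := h1.1 (B ⊓ CC(U)) inf_le_left
  rw [inf_eq_left.2 (le_CC_symm inf_le_right), ← card_mul_relIndex (inf_le_left : B ⊓ CC(U) ≤ B),
    mul_assoc] at i2
  have i3 := (Nat.le_of_mul_le_mul_left i2 Nat.card_pos).trans (Nat.mul_le_mul_right _ i1)
  have c3 : ∀ v ∈ WW p E, v ∈ U ⊓ CC(B) → v ∈ CC(E) := fun v hv h =>
    fx b hbn v hv (mem_CC.1 h.2 b hb).symm
  have c4 : ⁅WW p E, E⁆ ≤ CC(E) := by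
    rw [commutator_comm, commutator_le]
    intro e he v hv
    have h3 : e * v * e⁻¹ ∈ WW p E := conj_mem_of_mem_NN (right_le_NN_comm _ _ he) hv
    rw [commutatorElement_def]
    by_cases h : v ∈ CC(E)
    · exact mul_mem (conj_mem_of_mem_NN (le_NN_CC (le_NN_self E) he) h) (inv_mem h)
    · refine c3 _ (mul_mem h3 (inv_mem hv)) (H17.Mw.two_mul inf_le_left i3 (hWU h3) (hWU (inv_mem hv))
        (fun h4 => h ?_) fun h4 => h (inv_mem_iff.1 (c3 _ (inv_mem hv) h4)))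
      simpa [mul_assoc] using conj_mem_of_mem_NN' (le_NN_CC (le_NN_self E) he) (c3 _ h3 h4)
  exact hE.W_nc ((cc hE.res (isPGroup_ZO (p := p) (pCore p G)) (elab_le_CC (elab_ZO _)) (vN E)).trans c4)

end H10.Jn
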