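import Cfsg.Agent.H9.Krek2

/-!
Nilpotent actions of additive subgroups of Lie rings and a relative form of Kreknin's theorem.
-/

set_option autoImplicit false

namespace H10
namespace KR

open H9.Krek TensorProduct

variable {M : Type*} [LieRing M]

/-- bracket of additive subgroups -/
def sb (X T : AddSubgroup M) : AddSubgroup M :=
  AddSubgroup.closure {z | ∃ x ∈ X, ∃ t ∈ T, ⁅x, t⁆ = z}

theorem lie_mem_sb {X T : AddSubgroup M} {x t : M} (hx : x ∈ X) (ht : t ∈ T) : ⁅x, t⁆ ∈ sb X T :=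
  AddSubgroup.subset_closure ⟨x, hx, t, ht, rfl⟩

theorem sb_le {X T Y : AddSubgroup M} (h : ∀ x ∈ X, ∀ t ∈ T, ⁅x, t⁆ ∈ Y) : sb X T ≤ Y := by
  refine (AddSubgroup.closure_le _).2 ?_
  rintro _ ⟨x, hx, t, ht, rfl⟩
  exact h x hx t ht

theorem sb_mono {X T X' T' : AddSubgroup M} (h : X ≤ X') (h' : T ≤ T') : sb X T ≤ sb X' T' :=
  sb_le fun _ hx _ ht => lie_mem_sb (h hx) (h' ht)

theorem sb_le_left {X T Y : AddSubgroup M} : sb X T ≤ Y ↔ ∀ t ∈ T, X ≤ Y.comap (rb t) :=
  ⟨fun h _ ht _ hx => h (lie_mem_sb hx ht), fun h => sb_le fun _ hx t ht => h t ht hx⟩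

theorem sb_le_right {X T Y : AddSubgroup M} : sb X T ≤ Y ↔ ∀ x ∈ X, T ≤ Y.comap (lb x) :=
  ⟨fun h _ hx _ ht => h (lie_mem_sb hx ht), fun h => sb_le fun x hx _ ht => h x hx ht⟩

theorem sb_iSup_left {ι : Sort*} {X : ι → AddSubgroup M} {T Y : AddSubgroup M}
    (h : ∀ i, sb (X i) T ≤ Y) : sb (⨆ i, X i) T ≤ Y :=
  sb_le_left.2 fun t ht => iSup_le fun i => sb_le_left.1 (h i) t ht

theorem sb_iSup_right {ι : Sort*} {T : ι → AddSubgroup M} {X Y : AddSubgroup M}
    (h : ∀ i, sb X (T i) ≤ Y) : sb X (⨆ i, T i) ≤ Y :=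
  sb_le_right.2 fun t ht => iSup_le fun i => sb_le_right.1 (h i) t ht

theorem sb_sup_left {X X' T Y : AddSubgroup M} (h : sb X T ≤ Y) (h' : sb X' T ≤ Y) :
    sb (X ⊔ X') T ≤ Y :=
  sb_le_left.2 fun t ht => sup_le (sb_le_left.1 h t ht) (sb_le_left.1 h' t ht)

theorem sb_sup_right {X T T' Y : AddSubgroup M} (h : sb X T ≤ Y) (h' : sb X T' ≤ Y) :
    sb X (T ⊔ T') ≤ Y :=
  sb_le_right.2 fun t ht => sup_le (sb_le_right.1 h t ht) (sb_le_right.1 h' t ht)

theorem sb_closure {s t : Set M} {Y : AddSubgroup M} (h : ∀ x ∈ s, ∀ y ∈ t, ⁅x, y⁆ ∈ Y) :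
    sb (AddSubgroup.closure s) (AddSubgroup.closure t) ≤ Y :=
  sb_le_left.2 fun y hy => (AddSubgroup.closure_le _).2 fun x hx =>
    ((AddSubgroup.closure_le (Y.comap (lb x))).2 fun y hy => h x hx y hy) hy

theorem sb_bot_left (T : AddSubgroup M) : sb ⊥ T = ⊥ :=
  le_bot_iff.1 (sb_le_left.2 fun _ _ => bot_le)

theorem sb_bot_right (X : AddSubgroup M) : sb X ⊥ = ⊥ :=
  le_bot_iff.1 (sb_le_right.2 fun _ _ => bot_le)

theorem lie_lie' (x t u : M) : ⁅⁅x, t⁆, u⁆ = ⁅⁅x, u⁆, t⁆ + ⁅x, ⁅t, u⁆⁆ := by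
  rw [leibniz_lie x t u, ← lie_skew t ⁅x, u⁆]; abel

theorem sb_sb_le {X T U Y : AddSubgroup M} (h1 : sb (sb X U) T ≤ Y) (h2 : sb X (sb T U) ≤ Y) :
    sb (sb X T) U ≤ Y := by
  refine sb_le_left.2 fun u hu => sb_le fun x hx t ht => ?_
  change ⁅⁅x, t⁆, u⁆ ∈ Y
  rw [lie_lie']
  exact add_mem (h1 (lie_mem_sb (lie_mem_sb hx hu) ht)) (h2 (lie_mem_sb hx (lie_mem_sb ht hu)))

/-- iterated bracket -/
def si (X T : AddSubgroup M) : ℕ → AddSubgroup M
  | 0 => X
  | n + 1 => sb (si X T n) T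

theorem si_add (X T : AddSubgroup M) (a b : ℕ) : si X T (a + b) = si (si X T a) T b := by
  induction b with
  | zero => rfl
  | succ b ih => change sb (si X T (a + b)) T = _; rw [ih]; rfl

theorem si_mono {X T X' T' : AddSubgroup M} (h : X ≤ X') (h' : T ≤ T') (n : ℕ) :
    si X T n ≤ si X' T' n := by
  induction n with
  | zero => exact h
  | succ n ih => exact sb_mono ih h'

theorem si_le {W T : AddSubgroup M} (h : sb W T ≤ W) (n : ℕ) : si W T n ≤ W := by
  induction n with
  | zero => exact le_rfl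
  | succ n ih => exact (sb_mono ih le_rfl).trans h

theorem si_le_of_le {X W T : AddSubgroup M} (h : sb W T ≤ W) {n n' : ℕ} (h1 : si X T n ≤ W)
    (hn : n ≤ n') : si X T n' ≤ W := by
  obtain ⟨d, rfl⟩ := Nat.exists_eq_add_of_le hn
  rw [si_add]
  exact (si_mono h1 le_rfl d).trans (si_le h d)

theorem si_sup_le {X W T : AddSubgroup M} (h : sb W T ≤ W) (n : ℕ) :
    si (X ⊔ W) T n ≤ si X T n ⊔ W := by
  induction n with
  | zero => exact le_rfl
  | succ n ih => exact (sb_mono ih le_rfl).trans (sb_sup_left le_sup_left (h.trans le_sup_right))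

theorem si_iSup_le {ι : Sort*} (X : ι → AddSubgroup M) (T : AddSubgroup M) (n : ℕ) :
    si (⨆ i, X i) T n ≤ ⨆ i, si (X i) T n := by
  induction n with
  | zero => exact le_rfl
  | succ n ih =>
    exact (sb_mono ih le_rfl).trans (sb_iSup_left fun i => le_iSup (fun i => si (X i) T (n + 1)) i)

theorem step_two {S W' T₁ T₂ : AddSubgroup M} (h1 : T₁ ≤ S) (h2 : T₂ ≤ S) (hW' : sb W' S ≤ W')
    {b : ℕ} (a : ℕ) : ∀ W : AddSubgroup M, W' ≤ W → sb W S ≤ W → sb W (sb S S) ≤ W' →
      si W T₁ a ≤ W' → si W T₂ b ≤ W' → si W (T₁ ⊔ T₂) (a * b) ≤ W' := by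
  induction a with
  | zero => intro W _ _ _ h _; rw [zero_mul]; exact h
  | succ a ih =>
    intro W hle hW hc ha hb
    have h3 : sb W T₁ ⊔ W' ≤ W := sup_le ((sb_mono le_rfl h1).trans hW) hle
    have h4 : sb (sb W T₁ ⊔ W') S ≤ sb W T₁ ⊔ W' :=
      sb_sup_left (sb_sb_le ((sb_mono hW le_rfl).trans le_sup_left)
        ((sb_mono le_rfl (sb_mono h1 le_rfl)).trans (hc.trans le_sup_right)))
        (hW'.trans le_sup_right)
    have h5 : ∀ n, si W (T₁ ⊔ T₂) n ≤ si W T₂ n ⊔ (sb W T₁ ⊔ W') := by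
      intro n
      induction n with
      | zero => exact le_sup_left
      | succ n ihn =>
        refine (sb_mono ihn le_rfl).trans (sb_sup_left (sb_sup_right ?_ le_sup_left) ?_)
        · exact (sb_mono (si_le ((sb_mono le_rfl h2).trans hW) n) le_rfl).trans
            (le_sup_left.trans le_sup_right)
        · exact ((sb_mono le_rfl (sup_le h1 h2)).trans h4).trans le_sup_right
    rw [add_mul, one_mul, add_comm, si_add]
    refine (si_mono ((h5 b).trans (sup_le (hb.trans le_sup_right) le_rfl)) le_rfl _).trans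
      (ih _ le_sup_right h4 ((sb_mono h3 le_rfl).trans hc) ?_ ((si_mono h3 le_rfl b).trans hb))
    refine (si_sup_le ((sb_mono le_rfl h1).trans hW') a).trans (sup_le ?_ le_rfl)
    rw [add_comm, si_add] at ha
    exact ha

theorem step_fin {ι : Type*} {S W W' : AddSubgroup M} (hW' : sb W' S ≤ W') (hle : W' ≤ W)
    (hW : sb W S ≤ W) (hc : sb W (sb S S) ≤ W') (T : ι → AddSubgroup M) {e : ℕ} (s : Finset ι) :
    (∀ i ∈ s, T i ≤ S) → (∀ i ∈ s, si W (T i) e ≤ W') →
      si W (⨆ i ∈ s, T i) (e ^ s.card) ≤ W' := by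
  classical
  induction s using Finset.induction_on with
  | empty =>
    intro _ _
    simp only [Finset.notMem_empty, iSup_false, iSup_bot, Finset.card_empty, pow_zero]
    change sb W ⊥ ≤ W'
    rw [sb_bot_right]; exact bot_le
  | insert i s hi ih =>
    intro h1 h2
    rw [Finset.iSup_insert, Finset.card_insert_of_notMem hi, pow_succ']
    exact step_two (h1 i (Finset.mem_insert_self i s))
      (iSup₂_le fun j hj => h1 j (Finset.mem_insert_of_mem hj)) hW' e W hle hW hc
      (h2 i (Finset.mem_insert_self i s))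
      (ih (fun j hj => h1 j (Finset.mem_insert_of_mem hj))
        fun j hj => h2 j (Finset.mem_insert_of_mem hj))

/-- derived series of an additive subgroup -/
def sd (S : AddSubgroup M) (j : ℕ) : AddSubgroup M := (fun X => sb X X)^[j] S

theorem sd_succ (S : AddSubgroup M) (j : ℕ) : sd S (j + 1) = sd (sb S S) j := rfl

theorem sd_succ' (S : AddSubgroup M) (j : ℕ) : sd S (j + 1) = sb (sd S j) (sd S j) :=
  Function.iterate_succ_apply' _ _ _

theorem sd_mono {S S' : AddSubgroup M} (h : S ≤ S') (j : ℕ) : sd S j ≤ sd S' j := by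
  induction j with
  | zero => exact h
  | succ j ih => rw [sd_succ', sd_succ']; exact sb_mono ih ih

theorem nil_of_solv {ι : Type*} (T : ι → AddSubgroup M) (s : Finset ι) {e : ℕ}
    (hT : ∀ i ∈ s, si ⊤ (T i) e = ⊥) (n : ℕ) : ∀ S : AddSubgroup M, sb S S ≤ S →
      (∀ j, sd S j ≤ ⨆ i ∈ s, sd S j ⊓ T i) → sd S n = ⊥ → si ⊤ S ((e ^ s.card) ^ n) = ⊥ := by
  induction n with
  | zero =>
    intro S _ _ h
    have h' : S = ⊥ := h
    rw [pow_zero, h']
    exact sb_bot_right _
  | succ n ih =>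
    intro S hS hg h
    have h1 := ih (sb S S) (sb_mono hS hS) (fun j => hg (j + 1)) h
    have h2 : ∀ j, sb (si ⊤ (sb S S) j) S ≤ si ⊤ (sb S S) j := by
      intro j
      induction j with
      | zero => exact le_top
      | succ j ihj => exact sb_sb_le (sb_mono ihj le_rfl) (sb_mono le_rfl (sb_mono hS le_rfl))
    have h3 : ∀ j, si ⊤ S (e ^ s.card * j) ≤ si ⊤ (sb S S) j := by
      intro j
      induction j with
      | zero => exact le_rfl
      | succ j ihj =>
        rw [mul_add, mul_one, si_add]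
        refine (si_mono ihj (hg 0) _).trans (step_fin (h2 (j + 1))
          ((sb_mono le_rfl hS).trans (h2 j)) (h2 j) le_rfl _ s (fun i _ => inf_le_left)
          fun i hi => ?_)
        exact (si_mono le_top inf_le_right e).trans ((hT i hi).le.trans bot_le)
    rw [pow_succ']
    exact le_bot_iff.1 ((h3 _).trans h1.le)

section Krek

variable {n : ℕ}

theorem gen_mono {A B : ZMod n → AddSubgroup M} (h : ∀ a, B a ≤ A a) {k : ℕ} {a : ZMod n} {x : M}
    (hx : Gen B k a x) : Gen A k a x := by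
  induction hx with
  | base a x ha hx => exact Gen.base a x ha (h a hx)
  | zero a => exact Gen.zero a
  | add a x y _ _ h1 h2 => exact Gen.add _ _ _ h1 h2
  | neg a x _ h1 => exact Gen.neg _ _ h1
  | lie b c x y _ _ h1 h2 => exact Gen.lie _ _ _ _ h1 h2

theorem gen_zero {A : ZMod n → AddSubgroup M} (hA : Closed A) {k : ℕ} {a : ZMod n} {x y : M}
    (hx : Gen A k a x) (hy : y ∈ A 0) : Gen A k a ⁅x, y⁆ := by
  induction hx with
  | base a x ha hx => exact Gen.base a _ ha (by simpa using hA _ _ _ _ hx hy)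
  | zero a => rw [zero_lie]; exact Gen.zero a
  | add a x z _ _ h1 h2 => rw [add_lie]; exact Gen.add _ _ _ h1 h2
  | neg a x _ h1 => rw [neg_lie]; exact Gen.neg _ _ h1
  | lie b c x z hx hz h1 h2 =>
    rw [lie_lie']
    exact Gen.add _ _ _ (Gen.lie _ _ _ _ h1 hz) (Gen.lie _ _ _ _ hx h2)

theorem gen_claim' [NeZero n] {A : ZMod n → AddSubgroup M} (hA : Closed A) {k : ℕ}
    (t : ZMod n) (ht : t.val = k + 1) {v : ZMod n} {x : M} (hx : Gen A k v x) :
    ∀ u y, y ∈ A u → u + v = t → ⁅y, x⁆ ∈ genS A (k + 1) t ⊔ sb (A t) (A 0) := by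
  induction hx with
  | base a x ha hx =>
    intro u y hy hu
    by_cases hu0 : u = 0
    · subst hu0
      rw [zero_add] at hu
      subst hu
      rw [← lie_skew]
      exact AddSubgroup.mem_sup_right (neg_mem (lie_mem_sb hx hy))
    have hval := ZMod.val_add u a
    rw [hu, ht] at hval
    have hun := ZMod.val_lt u
    have han := ZMod.val_lt a
    have hupos : 0 < u.val := Nat.pos_of_ne_zero fun h => hu0 ((ZMod.val_eq_zero u).1 h)
    have hge : n ≤ u.val + a.val := by
      by_contra hlt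
      rw [Nat.mod_eq_of_lt (by omega)] at hval
      omega
    rw [Nat.mod_eq_sub_mod hge, Nat.mod_eq_of_lt (by omega)] at hval
    refine AddSubgroup.mem_sup_left ?_
    rw [← hu]
    exact Gen.lie _ _ _ _ (Gen.base _ _ (by omega) hy) (Gen.base _ _ (by omega) hx)
  | zero a => intro u y _ _; rw [lie_zero]; exact zero_mem _
  | add a x z _ _ h1 h2 =>
    intro u y hy hu
    rw [lie_add]
    exact add_mem (h1 u y hy hu) (h2 u y hy hu)
  | neg a x _ h1 =>
    intro u y hy hu
    rw [lie_neg]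
    exact neg_mem (h1 u y hy hu)
  | lie b c x z hx hz h1 h2 =>
    intro u y hy hu
    have e : ⁅y, ⁅x, z⁆⁆ = ⁅⁅y, x⁆, z⁆ + -⁅⁅y, z⁆, x⁆ := by
      rw [leibniz_lie, lie_skew]
    rw [e]
    exact add_mem (h2 (u + b) _ (hA _ _ _ _ hy (hx.mem hA)) (by rw [← hu]; ring))
      (neg_mem (h1 (u + c) _ (hA _ _ _ _ hy (hz.mem hA)) (by rw [← hu]; ring)))

/-- bound in the relative Kreknin theorem -/
def kf (m : ℕ) : ℕ → ℕ
  | 0 => 0
  | k + 1 => kf m k + (kf m k + 1) * m

theorem krek_b [NeZero n] (m k : ℕ) :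
    ∀ {A : ZMod n → AddSubgroup M}, Closed A → (∀ a, si (A a) (A 0) m = ⊥) →
      ∀ a, a ≠ 0 → (der^[kf m k] A) a ≤ genS A k a := by
  induction k with
  | zero =>
    intro A _ _ a ha x hx
    exact Gen.base a x (Nat.pos_of_ne_zero fun h => ha ((ZMod.val_eq_zero a).1 h)) hx
  | succ k ih =>
    intro A hA h0 a ha x hx
    have hsub : ∀ i b, si ((der^[i] A) b) ((der^[i] A) 0) m = ⊥ := fun i b =>
      le_bot_iff.1 ((si_mono ((hA.iter i).2 b) ((hA.iter i).2 0) m).trans (h0 b).le)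
    have one : ∀ t : ZMod n, t.val = k + 1 → ∀ i, (der^[kf m k + 1] (der^[i] A)) t ≤
        genS (der^[i] A) (k + 1) t ⊔ sb ((der^[i] A) t) ((der^[i] A) 0) := by
      intro t ht i
      have hB := (hA.iter i).1
      rw [Function.iterate_succ_apply']
      refine br_le fun b c y z hbc hy hz => ?_
      by_cases hc : c = 0
      · subst hc
        rw [add_zero] at hbc
        subst hbc
        exact AddSubgroup.mem_sup_right (lie_mem_sb ((hB.iter _).2 _ hy) ((hB.iter _).2 _ hz))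
      · exact gen_claim' hB t ht (ih hB (hsub i) c hc hz) b y ((hB.iter _).2 b hy) hbc
    have two : ∀ t : ZMod n, t.val = k + 1 → ∀ i, (der^[(kf m k + 1) * i] A) t ≤
        genS A (k + 1) t ⊔ si (A t) (A 0) i := by
      intro t ht i
      induction i with
      | zero => exact le_sup_right
      | succ i ihi =>
        rw [mul_add, mul_one, add_comm, Function.iterate_add_apply]
        refine (one t ht _).trans (sup_le (le_trans ?_ le_sup_left) ?_)
        · exact fun x hx => gen_mono (hA.iter _).2 hx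
        · refine (sb_mono ihi ((hA.iter _).2 0)).trans (sb_sup_left (le_trans ?_ le_sup_left)
            le_sup_right)
          exact sb_le fun x hx y hy => gen_zero hA hx hy
    change x ∈ (der^[kf m k + (kf m k + 1) * m] A) a at hx
    rw [Function.iterate_add_apply] at hx
    have hg : Gen (der^[(kf m k + 1) * m] A) k a x := ih (hA.iter _).1 (hsub _) a ha hx
    change Gen A (k + 1) a x
    clear hx ha
    induction hg with
    | base a x ha' hx =>
      by_cases h : a.val = k + 1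
      · have := two a h m hx
        rwa [h0, sup_bot_eq] at this
      · exact Gen.base a x (by omega) ((hA.iter _).2 a hx)
    | zero a => exact Gen.zero a
    | add a x y _ _ h1 h2 => exact Gen.add _ _ _ h1 h2
    | neg a x _ h1 => exact Gen.neg _ _ h1
    | lie b c x y _ _ h1 h2 => exact Gen.lie _ _ _ _ h1 h2

theorem krek [NeZero n] {m : ℕ} {A : ZMod n → AddSubgroup M} (hA : Closed A)
    (h0 : ∀ a, si (A a) (A 0) m = ⊥) (a : ZMod n) : (der^[m + kf m n] A) a = ⊥ := by
  have h1 : ∀ a, a ≠ 0 → (der^[kf m n] A) a = ⊥ := by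
    intro a ha
    refine le_bot_iff.1 fun x hx => ?_
    have hg : Gen A n a x := krek_b m n hA h0 a ha hx
    rw [AddSubgroup.mem_bot]
    clear hx ha
    induction hg with
    | base a x ha _ => have := ZMod.val_lt a; omega
    | zero a => rfl
    | add a x y _ _ h1 h2 => rw [h1, h2, add_zero]
    | neg a x _ h1 => rw [h1, neg_zero]
    | lie b c x y _ _ h1 _ => rw [h1, zero_lie]
  have hB := hA.iter (kf m n)
  have h2 : ∀ i, (der^[i] (der^[kf m n] A)) 0 ≤ si (A 0) (A 0) i := by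
    intro i
    induction i with
    | zero => exact hB.2 0
    | succ i ih =>
      rw [Function.iterate_succ_apply']
      refine br_le fun b c x y hbc hx hy => ?_
      by_cases hb : b = 0
      · subst hb
        rw [zero_add] at hbc
        subst hbc
        exact lie_mem_sb (ih hx) (hB.2 0 ((hB.1.iter i).2 0 hy))
      · have := (hB.1.iter i).2 b hx
        rw [h1 b hb, AddSubgroup.mem_bot] at this
        rw [this, zero_lie]; exact zero_mem _
  rw [Function.iterate_add_apply]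
  by_cases ha : a = 0
  · subst ha
    exact le_bot_iff.1 ((h2 m).trans (h0 0).le)
  · exact le_bot_iff.1 (((hB.1.iter m).2 a).trans (h1 a ha).le)

theorem sd_tot (A : ZMod n → AddSubgroup M) (j : ℕ) : sd (tot A) j ≤ tot (der^[j] A) := by
  induction j with
  | zero => exact le_rfl
  | succ j ih =>
    rw [sd_succ', Function.iterate_succ_apply']
    refine (sb_mono ih ih).trans (sb_iSup_left fun a => sb_iSup_right fun b => ?_)
    exact sb_le fun x hx y hy => le_tot _ _ (lie_mem_br hx hy)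

end Krek

theorem mem_of_smul_mem {V : Type*} [AddCommGroup V] {X : AddSubgroup V} {p N : ℕ}
    (h : p.Coprime N) {x : V} (hN : N • x = 0) (hx : p • x ∈ X) : x ∈ X := by
  have h1 : ((p : ℤ) * Nat.gcdA p N + N * Nat.gcdB p N) • x = x := by
    rw [← Nat.gcd_eq_gcd_ab, h]; simp
  rw [← h1, add_smul, mul_comm, mul_comm (N : ℤ), mul_smul, mul_smul, natCast_zsmul, natCast_zsmul,
    hN, smul_zero, add_zero]
  exact zsmul_mem hx _

theorem solv_alg {R : Type} [CommRing R] [IsDomain R] {p m : ℕ} (hp : p.Prime) {ω : R}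
    (hω : IsPrimitiveRoot ω p) [LieAlgebra R M] (Φ : M →ₗ[R] M)
    (hΦ : ∀ x y, Φ ⁅x, y⁆ = ⁅Φ x, Φ y⁆) (hp1 : Φ ^ p = 1) {N : ℕ} (hc : p.Coprime N)
    (hN : ∀ x : M, N • x = 0) {S : AddSubgroup M} (hS : ∀ x, Φ x = x → x ∈ S)
    (hm : si ⊤ S m = ⊥) : sd (⊤ : AddSubgroup M) (m + kf m p) = ⊥ := by
  haveI : NeZero p := ⟨hp.ne_zero⟩
  haveI : Fact p.Prime := ⟨hp⟩
  let E : ZMod p → AddSubgroup M := fun a =>
    { carrier := {m | Φ m = ω ^ a.val • m}
      zero_mem' := by simp
      add_mem' := fun {a b} ha hb => by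
        simp only [Set.mem_ofPred_eq] at ha hb ⊢; rw [map_add, ha, hb, smul_add]
      neg_mem' := fun {a} ha => by
        simp only [Set.mem_ofPred_eq] at ha ⊢; rw [map_neg, ha, smul_neg] }
  have hA : Closed E := by
    intro b d u v hu hv
    have hu' : Φ u = ω ^ b.val • u := hu
    have hv' : Φ v = ω ^ d.val • v := hv
    change Φ ⁅u, v⁆ = ω ^ (b + d).val • ⁅u, v⁆
    rw [hΦ, hu', hv', smul_lie, lie_smul, smul_smul, pow_val_add hω.pow_eq_one]
  have h0 : E 0 ≤ S := by
    intro u hu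
    have hu' : Φ u = ω ^ (0 : ZMod p).val • u := hu
    rw [ZMod.val_zero, pow_zero, one_smul] at hu'
    exact hS u hu'
  have hiter : ∀ (j : ℕ) (y : M), (Φ ^ (j % p)) y = (Φ ^ j) y := fun j y => by
    rw [← pow_eq_pow_mod _ hp1]
  have hE : ∀ (y : M) (a : ZMod p),
      (∑ j : ZMod p, ω ^ (-(a * j)).val • (Φ ^ j.val) y) ∈ E a := by
    intro y a
    change Φ _ = ω ^ a.val • _
    rw [map_sum, Finset.smul_sum, ← Equiv.sum_comp (Equiv.addRight (1 : ZMod p))
      (fun j => ω ^ a.val • ω ^ (-(a * j)).val • (Φ ^ j.val) y)]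
    refine Finset.sum_congr rfl fun j _ => ?_
    simp only [Equiv.coe_addRight]
    rw [map_smul, smul_smul, ← pow_val_add hω.pow_eq_one, ZMod.val_add j 1, hiter, ZMod.val_one,
      pow_succ', Module.End.mul_apply]
    congr 3; ring
  have hsum : ∀ y : M, ∑ a : ZMod p, ∑ j : ZMod p, ω ^ (-(a * j)).val • (Φ ^ j.val) y = p • y := by
    intro y
    rw [Finset.sum_comm, Finset.sum_eq_single (0 : ZMod p)]
    · simp [ZMod.card]
    · intro j _ hj
      rw [← Finset.sum_smul]
      have : ∑ a : ZMod p, ω ^ (-(a * j)).val = 0 := by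
        have e1 : ∑ a : ZMod p, ω ^ (-(a * j)).val = ∑ a : ZMod p, ω ^ a.val :=
          Equiv.sum_comp (Equiv.mulRight₀ (-j) (neg_ne_zero.2 hj)) (fun a => ω ^ a.val) ▸
            Finset.sum_congr rfl fun a _ => by simp
        rw [e1, ← hω.geom_sum_eq_zero hp.one_lt]
        obtain ⟨k, rfl⟩ : ∃ k, p = k + 1 := ⟨p - 1, by have := hp.pos; omega⟩
        exact (Fin.sum_univ_eq_sum_range (fun i => ω ^ i) (k + 1))
      rw [this, zero_smul]
    · intro h; exact absurd (Finset.mem_univ _) h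
  have htot : (⊤ : AddSubgroup M) ≤ tot E := by
    intro y _
    refine mem_of_smul_mem hc (hN y) ?_
    rw [← hsum]
    exact sum_mem fun a _ => le_tot E a (hE y a)
  refine le_bot_iff.1 ((sd_mono htot _).trans ((sd_tot E _).trans (iSup_le fun a => ?_)))
  exact (krek hA (fun a => le_bot_iff.1 ((si_mono le_top h0 m).trans hm.le)) a).le

theorem solv_base {S₀ R : Type} [CommRing S₀] [CommRing R] [IsDomain R] [Algebra S₀ R]
    [Module.FaithfullyFlat S₀ R] {p m : ℕ} (hp : p.Prime) {ω : R}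
    (hω : IsPrimitiveRoot ω p) {L : Type*} [LieRing L] [LieAlgebra S₀ L]
    (f : L →ₗ[S₀] L) (hφ : ∀ x y, f ⁅x, y⁆ = ⁅f x, f y⁆) (hf : f ^ p = 1) {N : ℕ}
    (hc : p.Coprime N) (hN : ∀ x : L, N • x = 0) {S : AddSubgroup L}
    (hS : ∀ x, ∑ j ∈ Finset.range p, (f ^ j) x ∈ S) (hm : si ⊤ S m = ⊥) :
    sd (⊤ : AddSubgroup L) (m + kf m p) = ⊥ := by
  let Φ : R ⊗[S₀] L →ₗ[R] R ⊗[S₀] L := f.baseChange R
  have hΦ : ∀ x y, Φ ⁅x, y⁆ = ⁅Φ x, Φ y⁆ := by
    intro x y
    induction x using TensorProduct.induction_on with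
    | zero => simp
    | add a b ha hb => rw [add_lie, map_add, map_add, add_lie, ha, hb]
    | tmul r a =>
      induction y using TensorProduct.induction_on with
      | zero => simp
      | add a b ha hb => rw [lie_add, map_add, map_add, lie_add, ha, hb]
      | tmul s b =>
        simp only [Φ, LieAlgebra.ExtendScalars.bracket_tmul, LinearMap.baseChange_tmul, hφ]
  have hΦp : Φ ^ p = 1 := by
    rw [← LinearMap.baseChange_pow, hf, LinearMap.baseChange_one]
  have hN' : ∀ x : R ⊗[S₀] L, N • x = 0 := by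
    intro x
    induction x using TensorProduct.induction_on with
    | zero => simp
    | add a b ha hb => rw [smul_add, ha, hb, add_zero]
    | tmul r a => rw [← TensorProduct.mk_apply, ← map_nsmul, hN, map_zero]
  let ex : AddSubgroup L → AddSubgroup (R ⊗[S₀] L) := fun X =>
    AddSubgroup.closure {z | ∃ r : R, ∃ x ∈ X, r ⊗ₜ[S₀] x = z}
  have mem_ex : ∀ (X : AddSubgroup L) (r : R) (x : L), x ∈ X → r ⊗ₜ[S₀] x ∈ ex X :=
    fun X r x hx => AddSubgroup.subset_closure ⟨r, x, hx, rfl⟩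
  have ex_sb : ∀ X T, sb (ex X) (ex T) ≤ ex (sb X T) := by
    intro X T
    refine sb_closure ?_
    rintro _ ⟨r, x, hx, rfl⟩ _ ⟨s, t, ht, rfl⟩
    rw [LieAlgebra.ExtendScalars.bracket_tmul]
    exact mem_ex _ _ _ (lie_mem_sb hx ht)
  have ex_si : ∀ k, si ⊤ (ex S) k ≤ ex (si ⊤ S k) := by
    intro k
    induction k with
    | zero =>
      intro x _
      induction x using TensorProduct.induction_on with
      | zero => exact zero_mem _
      | add a b ha hb => exact add_mem (ha trivial) (hb trivial)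
      | tmul r a => exact mem_ex _ _ _ trivial
    | succ k ih => exact (sb_mono ih le_rfl).trans (ex_sb _ _)
  have ex_bot : ex ⊥ ≤ ⊥ := by
    refine (AddSubgroup.closure_le _).2 ?_
    rintro _ ⟨r, x, hx, rfl⟩
    rw [AddSubgroup.mem_bot] at hx
    subst hx
    simp
  have htr : ∀ x : R ⊗[S₀] L, ∑ j ∈ Finset.range p, (Φ ^ j) x ∈ ex S := by
    intro x
    induction x using TensorProduct.induction_on with
    | zero => simp
    | add a b ha hb => simp only [map_add, Finset.sum_add_distrib]; exact add_mem ha hb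
    | tmul r a =>
      simp only [Φ, ← LinearMap.baseChange_pow, LinearMap.baseChange_tmul]
      rw [← TensorProduct.tmul_sum]
      exact mem_ex _ _ _ (hS a)
  have h1 := solv_alg (m := m) hp hω Φ hΦ hΦp hc hN' (S := ex S) (fun x hx => by
    refine mem_of_smul_mem hc (hN' x) ?_
    have h2 : ∀ j, (Φ ^ j) x = x := fun j => by
      rw [Module.End.pow_apply]; exact Function.iterate_fixed hx j
    have := htr x
    simpa only [h2, Finset.sum_const, Finset.card_range] using this)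
    (le_bot_iff.1 ((ex_si m).trans (by rw [hm]; exact ex_bot)))
  let ι : L →+ R ⊗[S₀] L := (TensorProduct.mk S₀ R L 1).toAddMonoidHom
  have h2 : ∀ j, sd (⊤ : AddSubgroup L) j ≤ (sd (⊤ : AddSubgroup (R ⊗[S₀] L)) j).comap ι := by
    intro j
    induction j with
    | zero => exact fun _ _ => trivial
    | succ j ih =>
      rw [sd_succ', sd_succ']
      refine sb_le fun x hx y hy => ?_
      have := lie_mem_sb (AddSubgroup.mem_comap.1 (ih hx)) (AddSubgroup.mem_comap.1 (ih hy))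
      have e : ι ⁅x, y⁆ = ⁅ι x, ι y⁆ := by
        change (1 : R) ⊗ₜ[S₀] ⁅x, y⁆ = ⁅(1 : R) ⊗ₜ[S₀] x, (1 : R) ⊗ₜ[S₀] y⁆
        rw [LieAlgebra.ExtendScalars.bracket_tmul, mul_one]
      rw [AddSubgroup.mem_comap, e]
      exact this
  refine le_bot_iff.1 fun x hx => ?_
  have h3 := h2 _ hx
  rw [h1] at h3
  exact (Module.FaithfullyFlat.one_tmul_eq_zero_iff S₀ L (A := R) _).1 h3

theorem solv_ring {p m : ℕ} (hp : p.Prime) (φ : M →+ M) (hφ : ∀ x y, φ ⁅x, y⁆ = ⁅φ x, φ y⁆)
    (hp1 : ∀ x, φ^[p] x = x) {N : ℕ} (hc : p.Coprime N) (hN : ∀ x : M, N • x = 0)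
    {S : AddSubgroup M} (hS : ∀ x, ∑ j ∈ Finset.range p, φ^[j] x ∈ S) (hm : si ⊤ S m = ⊥) :
    sd (⊤ : AddSubgroup M) (m + kf m p) = ⊥ := by
  haveI : NeZero p := ⟨hp.ne_zero⟩
  haveI : IsCyclotomicExtension {p} ℚ (CyclotomicField p ℚ) :=
    CyclotomicField.isCyclotomicExtension p ℚ
  have hω := (IsCyclotomicExtension.zeta_spec p ℚ (CyclotomicField p ℚ)).toInteger_isPrimitiveRoot
  refine solv_base (S₀ := ℤ) hp hω φ.toIntLinearMap hφ ?_ hc hN (fun x => ?_) hm
  · ext y
    rw [Module.End.pow_apply]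
    exact hp1 y
  · simp only [Module.End.pow_apply]
    exact hS x

end KR
end H10
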