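import Cfsg.Agent.H10.Kr1
import Cfsg.Agent.H9.Krek4
import Cfsg.Agent.H10.Act

/-!
The graded Lie ring of a finite nilpotent group spanned by a system of invariant subgroups:
a bound for the nilpotency class.
-/

set_option autoImplicit false

namespace H10
namespace KR

open H9.Krek Cfsg
open scoped commutatorElement

universe u

variable {G : Type u} [Group G]

/-- derived series in the ambient group -/
def dS (X : Subgroup G) : ℕ → Subgroup G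
  | 0 => X
  | n + 1 => ⁅dS X n, dS X n⁆

theorem dS_mono {X Y : Subgroup G} (h : X ≤ Y) (n : ℕ) : dS X n ≤ dS Y n := by
  induction n with
  | zero => exact h
  | succ n ih => exact Subgroup.commutator_mono ih ih

theorem dS_add (X : Subgroup G) (a b : ℕ) : dS X (a + b) = dS (dS X a) b := by
  induction b with
  | zero => rfl
  | succ b ih => change ⁅dS X (a + b), dS X (a + b)⁆ = _; rw [ih]; rfl

theorem dS_le (X : Subgroup G) (n : ℕ) : dS X n ≤ X := by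
  induction n with
  | zero => exact le_rfl
  | succ n ih => exact (Subgroup.commutator_mono ih ih).trans (Subgroup.commutator_le_self X)

theorem dS_le_lcs (X : Subgroup G) (n : ℕ) : dS X n ≤ X.lowerCentralSeries n := by
  induction n with
  | zero => exact le_rfl
  | succ n ih => exact Subgroup.commutator_mono ih (dS_le X n)

theorem map_dS {G' : Type*} [Group G'] (f : G →* G') (X : Subgroup G) (n : ℕ) :
    (dS X n).map f = dS (X.map f) n := by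
  induction n with
  | zero => rfl
  | succ n ih => change (⁅dS X n, dS X n⁆).map f = _; rw [Subgroup.map_commutator, ih]; rfl

theorem dS_top (n : ℕ) : dS (⊤ : Subgroup G) n = derivedSeries G n := by
  induction n with
  | zero => rfl
  | succ n ih => rw [derivedSeries_succ, ← ih]; rfl

theorem og_inv {i : ℕ} {x : G} (hx : x ∈ gm G i) : og i x⁻¹ (inv_mem hx) = -og i x hx := by
  rw [eq_neg_iff_add_eq_zero, ← og_mul (inv_mem hx) hx]
  simp only [inv_mul_cancel]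
  exact og_one i

/-- homogeneous span of a subgroup -/
def LS (X : Subgroup G) : AddSubgroup (GL' G) :=
  AddSubgroup.closure {z | ∃ i x hx, x ∈ X ∧ og i x hx = z}

theorem og_mem_LS {X : Subgroup G} {i : ℕ} {x : G} (hx : x ∈ gm G i) (h : x ∈ X) :
    og i x hx ∈ LS X := AddSubgroup.subset_closure ⟨i, x, hx, h, rfl⟩

theorem LS_le {X : Subgroup G} {Y : AddSubgroup (GL' G)}
    (h : ∀ i x hx, x ∈ X → og i x hx ∈ Y) : LS X ≤ Y := by
  refine (AddSubgroup.closure_le _).2 ?_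
  rintro _ ⟨i, x, hx, hX, rfl⟩
  exact h i x hx hX

theorem sb_LS (X Y : Subgroup G) : sb (LS X) (LS Y) ≤ LS ⁅X, Y⁆ := by
  refine sb_closure ?_
  rintro _ ⟨i, x, hx, hX, rfl⟩ _ ⟨j, y, hy, hY, rfl⟩
  rw [lie_og]
  exact og_mem_LS _ (Subgroup.commutator_mem_commutator hX hY)

theorem LS_bot : LS (⊥ : Subgroup G) = ⊥ := by
  refine le_bot_iff.1 (LS_le fun i x hx h => ?_)
  obtain rfl := Subgroup.mem_bot.1 h
  exact AddSubgroup.mem_bot.2 (og_one i)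

theorem si_LS (X Y : Subgroup G) (n : ℕ) : si (LS X) (LS Y) n ≤ LS (iterCommutator X Y n) := by
  induction n with
  | zero => exact le_rfl
  | succ n ih => exact (sb_mono ih le_rfl).trans (sb_LS _ _)

theorem sd_LS (X : Subgroup G) (n : ℕ) : sd (LS X) n ≤ LS (dS X n) := by
  induction n with
  | zero => exact le_rfl
  | succ n ih => rw [sd_succ']; exact (sb_mono ih ih).trans (sb_LS _ _)

/-- pullback of an additive subgroup to the `i`-th layer -/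
def pb (i : ℕ) (Y : AddSubgroup (GL' G)) : Subgroup G where
  carrier := {x | ∃ hx : x ∈ gm G i, og i x hx ∈ Y}
  one_mem' := ⟨one_mem _, by rw [og_one]; exact zero_mem _⟩
  mul_mem' := by
    rintro a b ⟨ha, ha'⟩ ⟨hb, hb'⟩
    exact ⟨mul_mem ha hb, by rw [og_mul ha hb]; exact add_mem ha' hb'⟩
  inv_mem' := by
    rintro a ⟨ha, ha'⟩
    exact ⟨inv_mem ha, by rw [og_inv ha]; exact neg_mem ha'⟩

theorem mem_pb {i : ℕ} {Y : AddSubgroup (GL' G)} {x : G} :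
    x ∈ pb i Y ↔ ∃ hx : x ∈ gm G i, og i x hx ∈ Y := Iff.rfl

/-- invariance of a subgroup -/
def Inv (𝓐 : Set (MulAut G)) (U : Subgroup G) : Prop := ∀ α ∈ 𝓐, ∀ u ∈ U, α u ∈ U

/-- invariance of an additive subgroup of the Lie ring -/
def InvL (𝓐 : Set (MulAut G)) (Y : AddSubgroup (GL' G)) : Prop :=
  ∀ α ∈ 𝓐, ∀ y ∈ Y, glAut α y ∈ Y

variable {𝓐 : Set (MulAut G)} {𝓒 : Set (Subgroup G)} {𝓗 : Finset (Subgroup G)}

theorem Inv.inf {U V : Subgroup G} (h : Inv 𝓐 U) (h' : Inv 𝓐 V) : Inv 𝓐 (U ⊓ V) :=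
  fun α hα u hu => ⟨h α hα u hu.1, h' α hα u hu.2⟩

theorem Inv.comm {U V : Subgroup G} (h : Inv 𝓐 U) (h' : Inv 𝓐 V) : Inv 𝓐 ⁅U, V⁆ := by
  intro α hα u hu
  have : ⁅U, V⁆ ≤ (⁅U, V⁆).comap α.toMonoidHom := by
    refine Subgroup.commutator_le.2 fun x hx y hy => ?_
    rw [Subgroup.mem_comap, map_commutatorElement]
    exact Subgroup.commutator_mem_commutator (h α hα x hx) (h' α hα y hy)
  exact this hu

theorem inv_gm (i : ℕ) : Inv 𝓐 (gm G i) := fun α _ _ hu => aut_mem_gm α hu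

theorem InvL.pb {Y : AddSubgroup (GL' G)} (h : InvL 𝓐 Y) (i : ℕ) : Inv 𝓐 (pb i Y) := by
  rintro α hα u ⟨hu, hu'⟩
  exact ⟨aut_mem_gm α hu, by rw [← glAut_og α hu]; exact h α hα _ hu'⟩

theorem InvL.sb {Y : AddSubgroup (GL' G)} (h : InvL 𝓐 Y) : InvL 𝓐 (sb Y Y) := by
  intro α hα u hu
  have : KR.sb Y Y ≤ (KR.sb Y Y).comap (glAut α) := by
    refine sb_le fun x hx y hy => ?_
    rw [AddSubgroup.mem_comap, glAut_lie]
    exact lie_mem_sb (h α hα x hx) (h α hα y hy)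
  exact this hu

/-- a spanning system -/
structure Sys (𝓐 : Set (MulAut G)) (𝓒 : Set (Subgroup G)) (𝓗 : Finset (Subgroup G)) : Prop where
  gen : ∀ U W : Subgroup G, Inv 𝓐 U → (∀ C ∈ 𝓒, U ⊓ C ≤ W) → U ≤ W
  inv : ∀ H ∈ 𝓗, Inv 𝓐 H
  top : ∀ W : Subgroup G, (∀ H ∈ 𝓗, H ≤ W) → ⊤ ≤ W
  ref : ∀ H₁ ∈ 𝓗, ∀ H₂ ∈ 𝓗, ∀ C ∈ 𝓒, ∃ H ∈ 𝓗, ⁅H₁, H₂⁆ ⊓ C ≤ H

/-- span of the special homogeneous elements in `Y` -/
def Sp (𝓗 : Finset (Subgroup G)) (Y : AddSubgroup (GL' G)) : AddSubgroup (GL' G) :=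
  AddSubgroup.closure {z | z ∈ Y ∧ ∃ i x hx, ∃ H ∈ 𝓗, x ∈ H ∧ og i x hx = z}

/-- span of the special homogeneous elements coming from `F` -/
def SF (𝓗 : Finset (Subgroup G)) (F : Subgroup G) : AddSubgroup (GL' G) :=
  AddSubgroup.closure {z | ∃ i x hx, ∃ H ∈ 𝓗, x ∈ H ∧ x ∈ F ∧ og i x hx = z}

/-- good additive subgroups -/
def GoodL (𝓐 : Set (MulAut G)) (𝓗 : Finset (Subgroup G)) (Y : AddSubgroup (GL' G)) : Prop :=
  InvL 𝓐 Y ∧ Y ≤ Sp 𝓗 Y

theorem Sys.good_sb (h : Sys 𝓐 𝓒 𝓗) {Y : AddSubgroup (GL' G)} (hY : GoodL 𝓐 𝓗 Y) :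
    GoodL 𝓐 𝓗 (sb Y Y) := by
  refine ⟨hY.1.sb, (sb_mono hY.2 hY.2).trans (sb_closure ?_)⟩
  rintro _ ⟨hxY, i, x, hx, H₁, hH₁, hx1, rfl⟩ _ ⟨hyY, j, y, hy, H₂, hH₂, hy2, rfl⟩
  have h0 := lie_mem_sb hxY hyY
  rw [lie_og] at h0 ⊢
  have := h.gen (⁅H₁, H₂⁆ ⊓ pb (i + j + 1) (sb Y Y)) (pb (i + j + 1) (Sp 𝓗 (sb Y Y)))
    (((h.inv _ hH₁).comm (h.inv _ hH₂)).inf (hY.1.sb.pb _)) (fun C hC => by
      obtain ⟨H, hH, hle⟩ := h.ref _ hH₁ _ hH₂ C hC
      rintro u ⟨⟨hu1, hu, hu2⟩, hu3⟩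
      exact ⟨hu, AddSubgroup.subset_closure ⟨hu2, _, u, hu, H, hH, hle ⟨hu1, hu3⟩, rfl⟩⟩)
  obtain ⟨_, h3⟩ := this ⟨Subgroup.commutator_mem_commutator hx1 hy2, _, h0⟩
  exact h3

theorem Sys.good_sd (h : Sys 𝓐 𝓒 𝓗) {Y : AddSubgroup (GL' G)} (hY : GoodL 𝓐 𝓗 Y) (j : ℕ) :
    GoodL 𝓐 𝓗 (sd Y j) := by
  induction j with
  | zero => exact hY
  | succ j ih => rw [sd_succ']; exact h.good_sb ih

theorem GoodL.le {Y : AddSubgroup (GL' G)} (hY : GoodL 𝓐 𝓗 Y) : Y ≤ ⨆ H ∈ 𝓗, Y ⊓ LS H := by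
  refine hY.2.trans ((AddSubgroup.closure_le _).2 ?_)
  rintro _ ⟨hxY, i, x, hx, H, hH, hx1, rfl⟩
  exact (le_iSup₂_of_le (f := fun H (_ : H ∈ 𝓗) => Y ⊓ LS H) H hH le_rfl) ⟨hxY, og_mem_LS hx hx1⟩

theorem Sys.sf_sb (h : Sys 𝓐 𝓒 𝓗) {F : Subgroup G} (hF : Inv 𝓐 F) :
    sb (SF 𝓗 F) (SF 𝓗 F) ≤ SF 𝓗 F := by
  refine sb_closure ?_
  rintro _ ⟨i, x, hx, H₁, hH₁, hx1, hxF, rfl⟩ _ ⟨j, y, hy, H₂, hH₂, hy2, hyF, rfl⟩
  rw [lie_og]
  have := h.gen (⁅H₁, H₂⁆ ⊓ (F ⊓ gm G (i + j + 1))) (pb (i + j + 1) (SF 𝓗 F))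
    (((h.inv _ hH₁).comm (h.inv _ hH₂)).inf (hF.inf (inv_gm _))) (fun C hC => by
      obtain ⟨H, hH, hle⟩ := h.ref _ hH₁ _ hH₂ C hC
      rintro u ⟨⟨hu1, hu2, hu⟩, hu3⟩
      exact ⟨hu, AddSubgroup.subset_closure ⟨_, u, hu, H, hH, hle ⟨hu1, hu3⟩, hu2, rfl⟩⟩)
  obtain ⟨_, h3⟩ := this ⟨Subgroup.commutator_mem_commutator hx1 hy2,
    Subgroup.commutator_le_self F (Subgroup.commutator_mem_commutator hxF hyF), comm_mem_gm hx hy⟩
  exact h3

theorem Sys.sf_good (h : Sys 𝓐 𝓒 𝓗) {F : Subgroup G} (hF : Inv 𝓐 F) : GoodL 𝓐 𝓗 (SF 𝓗 F) := by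
  constructor
  · intro α hα u hu
    have : SF 𝓗 F ≤ (SF 𝓗 F).comap (glAut α) := by
      refine (AddSubgroup.closure_le _).2 ?_
      rintro _ ⟨i, x, hx, H, hH, hx1, hxF, rfl⟩
      rw [SetLike.mem_coe, AddSubgroup.mem_comap, glAut_og]
      exact AddSubgroup.subset_closure ⟨i, _, _, H, hH, h.inv H hH α hα x hx1, hF α hα x hxF, rfl⟩
    exact this hu
  · refine AddSubgroup.closure_mono ?_
    rintro _ ⟨i, x, hx, H, hH, hx1, hxF, rfl⟩
    exact ⟨AddSubgroup.subset_closure ⟨i, x, hx, H, hH, hx1, hxF, rfl⟩, i, x, hx, H, hH, hx1, rfl⟩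

theorem SF_le (F : Subgroup G) : SF 𝓗 F ≤ LS F := by
  refine (AddSubgroup.closure_le _).2 ?_
  rintro _ ⟨i, x, hx, H, -, -, hxF, rfl⟩
  exact og_mem_LS hx hxF

theorem Sys.sf_top (h : Sys 𝓐 𝓒 𝓗) : SF 𝓗 ⊤ = ⊤ := by
  have h0 : gm G 0 ≤ pb 0 (SF 𝓗 ⊤) := h.top _ fun H hH x hx =>
    ⟨Subgroup.mem_top x, AddSubgroup.subset_closure ⟨0, x, _, H, hH, hx, trivial, rfl⟩⟩
  have h1 : ∀ i, gm G i ≤ pb i (SF 𝓗 ⊤) := by
    intro i
    induction i with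
    | zero => exact h0
    | succ i ih =>
      refine Subgroup.commutator_le.2 fun x hx y hy => ?_
      obtain ⟨_, hx'⟩ := ih hx
      obtain ⟨_, hy'⟩ := h0 hy
      have := h.sf_sb (F := ⊤) (fun _ _ _ _ => trivial) (lie_mem_sb hx' hy')
      rw [lie_og] at this
      exact ⟨_, this⟩
  refine top_le_iff.1 fun w _ => ?_
  induction w using gl_induction with
  | h0 => exact zero_mem _
  | h1 i x hx => obtain ⟨_, h2⟩ := h1 i hx; exact h2
  | h2 a b ha hb => exact add_mem (ha trivial) (hb trivial)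

theorem Sys.si_top (h : Sys 𝓐 𝓒 𝓗) {H : Subgroup G} {e : ℕ}
    (he : ∀ C ∈ 𝓒, iterCommutator C H e = ⊥) : si ⊤ (LS H) e = ⊥ := by
  have h1 : (⊤ : AddSubgroup (GL' G)) ≤ ⨆ C : 𝓒, LS C.1 := by
    intro w _
    induction w using gl_induction with
    | h0 => exact zero_mem _
    | h1 i x hx =>
      obtain ⟨_, h2⟩ := h.gen (gm G i) (pb i (⨆ C : 𝓒, LS C.1)) (inv_gm i) (fun C hC u hu =>
        ⟨hu.1, (le_iSup (fun C : 𝓒 => LS C.1) ⟨C, hC⟩) (og_mem_LS hu.1 hu.2)⟩) hx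
      exact h2
    | h2 a b ha hb => exact add_mem (ha trivial) (hb trivial)
  refine le_bot_iff.1 ((si_mono h1 le_rfl e).trans ((si_iSup_le _ _ _).trans (iSup_le fun C => ?_)))
  refine (si_LS _ _ _).trans ?_
  rw [he _ C.2, LS_bot]

/-- trace map -/
def trc {M : Type*} [AddCommGroup M] (φ : M →+ M) (p : ℕ) : M →+ M where
  toFun x := ∑ j ∈ Finset.range p, φ^[j] x
  map_zero' := by simp only [iterate_map_zero, Finset.sum_const_zero]
  map_add' a b := by simp only [iterate_map_add, Finset.sum_add_distrib]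

theorem trc_apply {M : Type*} [AddCommGroup M] (φ : M →+ M) (p : ℕ) (x : M) :
    trc φ p x = ∑ j ∈ Finset.range p, φ^[j] x := rfl

theorem trc_map {M : Type*} [AddCommGroup M] (φ : M →+ M) {p : ℕ} (h : ∀ x, φ^[p] x = x) (x : M) :
    trc φ p (φ x) = trc φ p x := by
  have h1 := Finset.sum_range_succ (fun j => φ^[j] x) p
  have h2 := Finset.sum_range_succ' (fun j => φ^[j] x) p
  rw [h1, h x] at h2
  simp only [Function.iterate_succ_apply, Function.iterate_zero_apply] at h2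
  rw [trc_apply, trc_apply]
  exact (add_right_cancel h2).symm

/-- the bound -/
def bdK (p e s t : ℕ) : ℕ := ((e + 1) ^ t) ^ (((e + 1) ^ t) ^ s + kf (((e + 1) ^ t) ^ s) p)

theorem gm_le_pb (n : ℕ) : gm G n ≤ pb n (si ⊤ ⊤ n) := by
  induction n with
  | zero => exact fun x hx => ⟨hx, trivial⟩
  | succ n ih =>
    refine Subgroup.commutator_le.2 fun x hx y hy => ?_
    obtain ⟨_, hx'⟩ := ih hx
    have := lie_mem_sb hx' (AddSubgroup.mem_top (og 0 y (show y ∈ gm G 0 from hy)))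
    rw [lie_og (j := 0)] at this
    exact ⟨_, this⟩

theorem Sys.nil (h : Sys 𝓐 𝓒 𝓗) {e t n : ℕ} (ht : 𝓗.card ≤ t)
    (he : ∀ C ∈ 𝓒, ∀ H ∈ 𝓗, iterCommutator C H e = ⊥) {F : Subgroup G} (hF : Inv 𝓐 F)
    (hn : sd (SF 𝓗 F) n = ⊥) : si ⊤ (SF 𝓗 F) (((e + 1) ^ t) ^ n) = ⊥ := by
  have h1 := nil_of_solv (fun H : Subgroup G => LS H) 𝓗 (e := e + 1) (fun H hH =>
    le_bot_iff.1 (si_le_of_le (sb_bot_left _).le (h.si_top fun C hC => he C hC H hH).le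
      (Nat.le_succ e))) n _ (h.sf_sb hF) (fun j => (h.good_sd (h.sf_good hF) j).le) hn
  refine le_bot_iff.1 (si_le_of_le (sb_bot_left _).le h1.le ?_)
  exact Nat.pow_le_pow_left (Nat.pow_le_pow_right (Nat.succ_pos e) ht) n

theorem Sys.main [Finite G] [Group.IsNilpotent G] (h : Sys 𝓐 𝓒 𝓗) {p e s t : ℕ} (hp : p.Prime)
    (hc : p.Coprime (Nat.card G)) (ht : 𝓗.card ≤ t)
    (he : ∀ C ∈ 𝓒, ∀ H ∈ 𝓗, iterCommutator C H e = ⊥) {a : MulAut G} (ha : a ^ p = 1)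
    {F : Subgroup G} (hF : Inv 𝓐 F) (hfix : ∀ x ∈ F, a x = x)
    (hcop : ∀ Y W : Subgroup G, Inv 𝓐 Y → Y ⊓ F ≤ W → (∀ y ∈ Y, y⁻¹ * a y ∈ W) → Y ≤ W)
    (hs : dS F s = ⊥) : gm G (bdK p e s t) = ⊥ := by
  have h1 : sd (SF 𝓗 F) s = ⊥ :=
    le_bot_iff.1 ((sd_mono (SF_le F) s).trans ((sd_LS F s).trans (by rw [hs, LS_bot])))
  have h2 := h.nil ht he hF h1
  have hp1 : ∀ x, (glAut a)^[p] x = x := by
    intro w
    induction w using gl_induction with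
    | h0 => exact iterate_map_zero _ _
    | h1 i x hx => rw [glAut_iter]; simp only [ha, MulAut.one_apply]
    | h2 a b ha hb => rw [iterate_map_add, ha, hb]
  have hN : ∀ x : GL' G, Nat.card G • x = 0 := by
    intro w
    induction w using gl_induction with
    | h0 => exact smul_zero _
    | h1 i x hx => rw [← og_pow]; simp only [pow_card_eq_one']; exact og_one i
    | h2 a b ha hb => rw [smul_add, ha, hb, add_zero]
  have htr : SF 𝓗 ⊤ ≤ (SF 𝓗 F).comap (trc (glAut a) p) := by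
    refine (AddSubgroup.closure_le _).2 ?_
    rintro _ ⟨i, x, hx, H, hH, hx1, -, rfl⟩
    have := hcop (H ⊓ gm G i) (pb i ((SF 𝓗 F).comap (trc (glAut a) p)))
      ((h.inv H hH).inf (inv_gm i)) (by
        rintro u ⟨⟨hu1, hu⟩, huF⟩
        refine ⟨hu, ?_⟩
        rw [AddSubgroup.mem_comap, trc_apply]
        refine sum_mem fun j _ => ?_
        rw [Function.iterate_fixed (by rw [glAut_og]; simp only [hfix u huF])]
        exact AddSubgroup.subset_closure ⟨i, u, hu, H, hH, hu1, huF, rfl⟩) (by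
        rintro y ⟨-, hy⟩
        refine ⟨mul_mem (inv_mem hy) (aut_mem_gm a hy), ?_⟩
        rw [AddSubgroup.mem_comap, og_mul (inv_mem hy) (aut_mem_gm a hy), og_inv hy,
          ← glAut_og a hy, map_add, map_neg, trc_map _ hp1, neg_add_cancel]
        exact zero_mem _)
    obtain ⟨_, h3⟩ := this ⟨hx1, hx⟩
    exact h3
  rw [h.sf_top] at htr
  have h3 := solv_ring hp (glAut a) (glAut_lie a) hp1 hc hN (S := SF 𝓗 F)
    (fun x => htr (AddSubgroup.mem_top x)) h2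
  rw [← h.sf_top] at h3
  have h4 := h.nil ht he (F := ⊤) (fun _ _ _ _ => trivial) h3
  rw [h.sf_top] at h4
  refine gm_eq_bot_of_le fun x hx => ?_
  obtain ⟨_, h5⟩ := gm_le_pb _ hx
  rw [show si ⊤ ⊤ (bdK p e s t) = ⊥ from h4] at h5
  exact og_eq_zero_iff.1 h5

end KR
end H10
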