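import Cfsg.Agent.H10.Kr2
import Cfsg.Agent.H10.PRed
import Cfsg.Agent.H1.Coprime2
import Cfsg.Agent.H1.Solvable

/-!
Coprime action of an elementary abelian group: systems of special subgroups.
-/

set_option autoImplicit false

namespace H10
namespace KR

open H9.Krek Cfsg
open scoped commutatorElement

universe u

section
variable {G : Type u} [Group G]

/-- cocyclic subgroups -/
def Hy (A : Subgroup G) : Set (Subgroup G) := {B | B ≤ A ∧ ∃ a ∈ A, B ⊔ Subgroup.zpowers a = A}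

theorem hy_gen [Finite G] {A U W : Subgroup G} (hA : IsMulCommutative A) (hU : A ≤ NN(U))
    (hc : (Nat.card A).Coprime (Nat.card U)) (h : ∀ B ∈ Hy A, U ⊓ CC(B) ≤ W) : U ≤ W :=
  H1.le_of_forall_cocyclic_centralizer_le hU hc fun B h1 h2 => h B ⟨h1, h2⟩

theorem map_iterC {G' : Type*} [Group G'] (f : G →* G') (X Y : Subgroup G) (n : ℕ) :
    (iterCommutator X Y n).map f = iterCommutator (X.map f) (Y.map f) n := by
  induction n with
  | zero => rfl
  | succ n ih => rw [iterCommutator_succ, Subgroup.map_commutator, ih]; rfl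

theorem cop_le [Finite G] {n : ℕ} {U K : Subgroup G} (h : n.Coprime (Nat.card K)) (hle : U ≤ K) :
    n.Coprime (Nat.card U) := h.coprime_dvd_right (Subgroup.card_dvd_of_le hle)

theorem hy_comap {G' : Type*} [Group G'] (f : G →* G') {A : Subgroup G} {B' : Subgroup G'}
    (h : B' ∈ Hy (A.map f)) : A ⊓ B'.comap f ∈ Hy A ∧ (A ⊓ B'.comap f).map f = B' := by
  obtain ⟨h1, _, ⟨a, ha, rfl⟩, h2⟩ := h
  have e : (A ⊓ B'.comap f).map f = B' := by
    refine le_antisymm (Subgroup.map_le_iff_le_comap.2 inf_le_right) fun y hy => ?_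
    obtain ⟨x, hx, rfl⟩ := h1 hy
    exact ⟨x, ⟨hx, hy⟩, rfl⟩
  refine ⟨⟨inf_le_left, a, ha, le_antisymm (sup_le inf_le_left (Subgroup.zpowers_le.2 ha))
    fun x hx => ?_⟩, e⟩
  have h3 : f x ∈ ((A ⊓ B'.comap f) ⊔ Subgroup.zpowers a).map f := by
    rw [Subgroup.map_sup, e, MonoidHom.map_zpowers, h2]
    exact ⟨x, hx, rfl⟩
  obtain ⟨y, hy, hxy⟩ := h3
  have hyA : y ∈ A := sup_le inf_le_left (Subgroup.zpowers_le.2 ha) hy
  have h4 : x * y⁻¹ ∈ A ⊓ B'.comap f := ⟨A.mul_mem hx (A.inv_mem hyA), by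
    change f (x * y⁻¹) ∈ B'
    rw [map_mul, map_inv, hxy, mul_inv_cancel]; exact one_mem _⟩
  have := mul_mem (Subgroup.mem_sup_left h4 : _ ∈ (A ⊓ B'.comap f) ⊔ Subgroup.zpowers a) hy
  simpa using this

theorem resOf_le_CC_iter [Finite G] {q : ℕ} [Fact q.Prime] {V X H : Subgroup G} [V.Normal]
    (hV : IsPGroup q V) (hX : X ≤ V) {e : ℕ} (h : iterCommutator X H e = ⊥) :
    resOf q H ≤ CC(X) := by
  have hle : ∀ i, iterCommutator X H i ≤ V := by
    intro i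
    induction i with
    | zero => exact hX
    | succ i ih =>
      exact (Subgroup.commutator_mono ih le_rfl).trans (Subgroup.commutator_le_left V H)
  have := resOf_le_CC_of_chain (p := q) (L := H) (fun i => iterCommutator X H (e - i))
    (by simp only [Nat.sub_zero, h, CC_bot]; exact le_top) e
    (fun i _ => (hV.to_le (hle _))) (fun i hi => by
      have e1 : e - i = e - (i + 1) + 1 := by omega
      simp only [e1]
      exact Subgroup.commutator_mono le_rfl (resOf_le H))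
  simpa only [Nat.sub_self, iterCommutator_zero] using this

end

theorem nil_amb (n : ℕ) : ∀ (G : Type u) [Group G] [Finite G], Nat.card G ≤ n →
    ∀ (A N : Subgroup G) (𝓗 : Set (Subgroup G)) [N.Normal], IsMulCommutative A →
      (Nat.card A).Coprime (Nat.card N) → Group.IsSolvable N → N = sSup 𝓗 →
      (∀ B ∈ Hy A, ∀ H ∈ 𝓗, ∃ e, iterCommutator (N ⊓ CC(B)) H e = ⊥) → Group.IsNilpotent N := by
  induction n with
  | zero => intro G _ _ h; exact absurd h (by have := Nat.card_pos (α := G); omega)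
  | succ n ih =>
    intro G _ _ hn A N 𝓗 _ hA hc hs hN h
    by_cases h0 : N = ⊥
    · subst h0; infer_instance
    obtain ⟨V, q, hVn, hV0, hVN, hq, hVc, -, hVq, hmin⟩ :=
      H1.exists_minimal_normal_elementary N hs h0
    haveI := Fact.mk hq
    let f := QuotientGroup.mk' V
    haveI : (N.map f).Normal := Subgroup.Normal.map inferInstance f (QuotientGroup.mk'_surjective V)
    have hcard : Nat.card (G ⧸ V) ≤ n := by
      have h1 := Subgroup.card_eq_card_quotient_mul_card_subgroup V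
      have h2 := (Subgroup.one_lt_card_iff_ne_bot V).2 hV0
      have h3 := Nat.card_pos (α := G ⧸ V)
      nlinarith
    have hnil := ih (G ⧸ V) hcard (A.map f) (N.map f) ((Subgroup.map f) '' 𝓗) inferInstance
      ((hc.coprime_dvd_left (Subgroup.card_map_dvd A f)).coprime_dvd_right
        (Subgroup.card_map_dvd N f)) (H1.isSolvable_map hs f)
      (by rw [hN, (Subgroup.gc_map_comap f).l_sSup, sSup_image]) (by
        rintro B' hB' _ ⟨H, hH, rfl⟩
        obtain ⟨hB, e⟩ := hy_comap f hB'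
        obtain ⟨m, hm⟩ := h _ hB H hH
        refine ⟨m, ?_⟩
        rw [← e, ← H1.map_inf_centralizer_of_coprime f (le_NN_of_normal _ N)
          (hc.coprime_dvd_left (Subgroup.card_dvd_of_le inf_le_left)) (Or.inr hs), ← map_iterC, hm,
          Subgroup.map_bot])
    obtain ⟨m, hm⟩ := (Subgroup.isNilpotent_iff_lowerCentralSeries _).1 hnil
    rw [← Subgroup.map_lowerCentralSeries, Subgroup.map_eq_bot_iff, QuotientGroup.ker_mk'] at hm
    have hres : ∀ H ∈ 𝓗, resOf q H ≤ CC(V) := fun H hH => le_CC_symm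
      (hy_gen hA (le_NN_of_normal _ V) (cop_le hc hVN) fun B hB => by
        obtain ⟨e, he⟩ := h B hB H hH
        exact le_CC_symm (resOf_le_CC_iter hVq inf_le_left (le_bot_iff.1
          ((iterCommutator_mono (inf_le_inf_right _ hVN) le_rfl e).trans he.le))))
    let g := QuotientGroup.mk' CC(V)
    have hnil2 : Group.IsNilpotent (N.map g) := by
      refine (Subgroup.isNilpotent_iff_lowerCentralSeries _).2 ⟨m, ?_⟩
      rw [← Subgroup.map_lowerCentralSeries, Subgroup.map_eq_bot_iff, QuotientGroup.ker_mk']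
      exact hm.trans (isMulCommutative_iff_le_CC.1 hVc)
    have hq2 : N.map g ≤ pCoreOf q (N.map g) := by
      conv_lhs => rw [hN, (Subgroup.gc_map_comap g).l_sSup]
      refine iSup₂_le fun H hH => ?_
      have h1 : IsPGroup q (H.map g) := isPGroup_of_resOf_eq_bot (by
        rw [← map_resOf, Subgroup.map_eq_bot_iff, QuotientGroup.ker_mk']; exact hres H hH)
      have h2 : H.map g ≤ N.map g := Subgroup.map_mono (hN ▸ le_sSup hH)
      rw [← map_subgroupOf_of_le h2, ← pCoreOf_def]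
      exact Subgroup.map_mono (H1.le_pCore_of_isNilpotent (isPGroup_subgroupOf h1 _))
    have hres2 : resOf q N ≤ CC(V) := by
      have := (map_resOf_le (p := q) g N).trans
        (resOf_eq_bot ((isPGroup_pCoreOf _).to_le hq2)).le
      rwa [le_bot_iff, Subgroup.map_eq_bot_iff, QuotientGroup.ker_mk'] at this
    have hlt := comm_lt_of_resOf_le hVq (le_NN_of_normal N V) hres2 hV0
    have hb : ⁅V, N⁆ = ⊥ := (hmin _ inferInstance hlt.le).resolve_right hlt.ne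
    refine (Subgroup.isNilpotent_iff_lowerCentralSeries _).2 ⟨m + 1, le_bot_iff.1 ?_⟩
    rw [Subgroup.lowerCentralSeries_succ, ← hb]
    exact Subgroup.commutator_mono hm le_rfl

section
variable {G : Type u} [Group G]

/-- fixed point subgroups of hyperplanes -/
def sp0 (A K : Subgroup G) : Set (Subgroup G) := (fun B : Subgroup G => K ⊓ CC(B)) '' Hy A

/-- special subgroups of the next degree -/
def sp2 (A : Subgroup G) (𝓧 𝓨 : Set (Subgroup G)) : Set (Subgroup G) :=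
  (fun t : Subgroup G × Subgroup G × Subgroup G => ⁅t.2.1, t.2.2⁆ ⊓ CC(t.1)) '' (Hy A ×ˢ 𝓧 ×ˢ 𝓨)

/-- refinement of families -/
def Ref (𝓩 𝓧 : Set (Subgroup G)) : Prop := ∀ Z ∈ 𝓩, ∃ X ∈ 𝓧, Z ≤ X

theorem mem_sp2 {A B X Y : Subgroup G} {𝓧 𝓨 : Set (Subgroup G)} (hB : B ∈ Hy A) (hX : X ∈ 𝓧)
    (hY : Y ∈ 𝓨) : ⁅X, Y⁆ ⊓ CC(B) ∈ sp2 A 𝓧 𝓨 := ⟨(B, X, Y), ⟨hB, hX, hY⟩, rfl⟩

theorem Ref.rfl {𝓧 : Set (Subgroup G)} : Ref 𝓧 𝓧 := fun Z hZ => ⟨Z, hZ, le_rfl⟩

theorem Ref.trans {𝓧 𝓨 𝓩 : Set (Subgroup G)} (h : Ref 𝓧 𝓨) (h' : Ref 𝓨 𝓩) : Ref 𝓧 𝓩 := by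
  intro X hX
  obtain ⟨Y, hY, h1⟩ := h X hX
  obtain ⟨Z, hZ, h2⟩ := h' Y hY
  exact ⟨Z, hZ, h1.trans h2⟩

theorem Ref.sp2 {A : Subgroup G} {𝓧 𝓨 𝓧' 𝓨' : Set (Subgroup G)} (h : Ref 𝓧 𝓧') (h' : Ref 𝓨 𝓨') :
    Ref (sp2 A 𝓧 𝓨) (sp2 A 𝓧' 𝓨') := by
  rintro _ ⟨⟨B, X, Y⟩, ⟨hB, hX, hY⟩, rfl⟩
  obtain ⟨X', hX', h1⟩ := h X hX
  obtain ⟨Y', hY', h2⟩ := h' Y hY
  exact ⟨_, mem_sp2 hB hX' hY', inf_le_inf_right _ (Subgroup.commutator_mono h1 h2)⟩

/-- a family of `A`-invariant subgroups of `K` -/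
def Fam (A K : Subgroup G) (𝓧 : Set (Subgroup G)) : Prop := ∀ X ∈ 𝓧, X ≤ K ∧ A ≤ NN(X)

theorem le_NN_CC_hy {A B : Subgroup G} (hA : IsMulCommutative A) (hB : B ≤ A) : A ≤ NN(CC(B)) :=
  (((isMulCommutative_iff_le_CC.1 hA).trans (CC_anti hB))).trans (le_NN_self _)

theorem fam_sp0 {A K : Subgroup G} (hA : IsMulCommutative A) (hK : A ≤ NN(K)) :
    Fam A K (sp0 A K) := by
  rintro _ ⟨B, hB, rfl⟩
  exact ⟨inf_le_left, le_NN_inf hK (le_NN_CC_hy hA hB.1)⟩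

theorem Fam.sp2 {A K : Subgroup G} (hA : IsMulCommutative A) {𝓧 𝓨 : Set (Subgroup G)}
    (h : Fam A K 𝓧) (h' : Fam A K 𝓨) : Fam A K (sp2 A 𝓧 𝓨) := by
  rintro _ ⟨⟨B, X, Y⟩, ⟨hB, hX, hY⟩, rfl⟩
  exact ⟨inf_le_left.trans (comm_le_of_le (h X hX).1 (h' Y hY).1),
    le_NN_inf (le_NN_commutator (h X hX).2 (h' Y hY).2) (le_NN_CC_hy hA hB.1)⟩

theorem Fam.ref {A K : Subgroup G} {𝓧 𝓨 : Set (Subgroup G)}
    (h : Fam A K 𝓧) (h' : Fam A K 𝓨) : Ref (KR.sp2 A 𝓧 𝓨) (sp0 A K) := by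
  rintro _ ⟨⟨B, X, Y⟩, ⟨hB, hX, hY⟩, rfl⟩
  exact ⟨_, ⟨B, hB, rfl⟩, inf_le_inf_right _ (comm_le_of_le (h X hX).1 (h' Y hY).1)⟩

variable [Finite G]

theorem sSup_sp0 {A K : Subgroup G} (hA : IsMulCommutative A) (hK : A ≤ NN(K))
    (hc : (Nat.card A).Coprime (Nat.card K)) : sSup (sp0 A K) = K :=
  le_antisymm (sSup_le fun X hX => (fam_sp0 hA hK X hX).1)
    (hy_gen hA hK hc fun B hB => le_sSup ⟨B, hB, rfl⟩)

theorem sSup_sp2 {A K : Subgroup G} (hA : IsMulCommutative A)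
    (hc : (Nat.card A).Coprime (Nat.card K)) {𝓧 𝓨 : Set (Subgroup G)}
    (h : Fam A K 𝓧) (h' : Fam A K 𝓨) (r : Ref (sp2 A 𝓧 𝓨) 𝓧) (r' : Ref (sp2 A 𝓧 𝓨) 𝓨) :
    sSup (sp2 A 𝓧 𝓨) = ⁅sSup 𝓧, sSup 𝓨⁆ := by
  refine le_antisymm (sSup_le ?_) ?_
  · rintro _ ⟨⟨B, X, Y⟩, ⟨hB, hX, hY⟩, rfl⟩
    exact inf_le_left.trans (Subgroup.commutator_mono (le_sSup hX) (le_sSup hY))
  have h1 : ∀ X ∈ 𝓧, ∀ Y ∈ 𝓨, ⁅X, Y⁆ ≤ sSup (sp2 A 𝓧 𝓨) := fun X hX Y hY =>
    hy_gen hA (le_NN_commutator (h X hX).2 (h' Y hY).2)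
      (cop_le hc (comm_le_of_le (h X hX).1 (h' Y hY).1)) fun B hB => le_sSup (mem_sp2 hB hX hY)
  have key : ∀ L : Subgroup G, (∀ Z ∈ sp2 A 𝓧 𝓨, ⁅Z, L⁆ ≤ sSup (sp2 A 𝓧 𝓨)) →
      L ≤ NN(sSup (sp2 A 𝓧 𝓨)) := by
    intro L hL
    refine le_NN_of_comm_le_left ?_
    rw [sSup_eq_iSup']
    refine comm_iSup_le (fun Z => (le_iSup _ Z).trans (le_NN_self _)) fun Z => ?_
    rw [← sSup_eq_iSup']
    exact hL Z Z.2
  have hX : ∀ X ∈ 𝓧, X ≤ NN(sSup (sp2 A 𝓧 𝓨)) := fun X hX => key X fun Z hZ => by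
    obtain ⟨Y, hY, hle⟩ := r' Z hZ
    rw [Subgroup.commutator_comm]
    exact (Subgroup.commutator_mono le_rfl hle).trans (h1 X hX Y hY)
  have hY : ∀ Y ∈ 𝓨, Y ≤ NN(sSup (sp2 A 𝓧 𝓨)) := fun Y hY => key Y fun Z hZ => by
    obtain ⟨X, hX, hle⟩ := r Z hZ
    exact (Subgroup.commutator_mono hle le_rfl).trans (h1 X hX Y hY)
  rw [sSup_eq_iSup' 𝓧]
  refine comm_iSup_le (fun X => hX X X.2) fun X => ?_
  rw [Subgroup.commutator_comm, sSup_eq_iSup' 𝓨]
  refine comm_iSup_le (fun Y => hY Y Y.2) fun Y => ?_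
  rw [Subgroup.commutator_comm]
  exact h1 X X.2 Y Y.2

theorem ncard_hy (A : Subgroup G) : (Hy A).ncard ≤ 2 ^ Nat.card A := by
  have h1 := Set.ncard_powerset (A : Set G)
  rw [← Nat.card_coe_set_eq (A : Set G)] at h1
  refine le_of_le_of_eq (Set.ncard_le_ncard_of_injOn (fun B : Subgroup G => (B : Set G))
    (fun B hB => hB.1) (fun _ _ _ _ h => SetLike.coe_injective h)) h1

theorem ncard_sp0 (A K : Subgroup G) : (sp0 A K).ncard ≤ 2 ^ Nat.card A :=
  (Set.ncard_image_le).trans (ncard_hy A)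

theorem ncard_sp2 (A : Subgroup G) {𝓧 𝓨 : Set (Subgroup G)} {x y : ℕ} (hx : 𝓧.ncard ≤ x)
    (hy : 𝓨.ncard ≤ y) : (sp2 A 𝓧 𝓨).ncard ≤ 2 ^ Nat.card A * (x * y) := by
  refine (Set.ncard_image_le).trans ?_
  rw [Set.ncard_prod, Set.ncard_prod]
  exact Nat.mul_le_mul (ncard_hy A) (Nat.mul_le_mul hx hy)

theorem amb_main {p e s t : ℕ} (hp : p.Prime) {A N : Subgroup G} [N.Normal]
    (hA : IsElementaryAbelian p A) (hc : (Nat.card A).Coprime (Nat.card N))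
    (hcp : p.Coprime (Nat.card N)) (hs : Group.IsSolvable N)
    {𝓗 : Set (Subgroup G)} (ht : 𝓗.ncard ≤ t) (hf : Fam A N 𝓗) (hN : N = sSup 𝓗)
    (h2 : ∀ B ∈ Hy A, ∀ H ∈ 𝓗, iterCommutator (N ⊓ CC(B)) H e = ⊥) (h3 : Ref (sp2 A 𝓗 𝓗) 𝓗)
    {a : G} (ha : a ∈ A) (h4 : dS (N ⊓ Subgroup.centralizer {a}) s = ⊥) :
    N.lowerCentralSeries (bdK p e s t) = ⊥ := by
  classical
  haveI := nil_amb _ G le_rfl A N 𝓗 hA.1 hc hs hN fun B hB H hH => ⟨e, h2 B hB H hH⟩
  let 𝓐 : Set (MulAut N) := (fun x => MulAut.conjNormal x) '' (A : Set G)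
  let 𝓒 : Set (Subgroup N) := (fun B : Subgroup G => CC(B).subgroupOf N) '' Hy A
  let 𝓗' : Finset (Subgroup N) := (Set.toFinite 𝓗).toFinset.image fun H => H.subgroupOf N
  have hmem : ∀ H', H' ∈ 𝓗' ↔ ∃ H ∈ 𝓗, H.subgroupOf N = H' := fun H' => by
    simp only [𝓗', Finset.mem_image, Set.Finite.mem_toFinset]
  have hinv : ∀ X : Subgroup G, A ≤ NN(X) → Inv 𝓐 (X.subgroupOf N) := by
    rintro X hX _ ⟨x, hx, rfl⟩ u hu
    rw [Subgroup.mem_subgroupOf, MulAut.conjNormal_apply]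
    exact conj_mem_of_mem_NN (hX hx) hu
  have hinv' : ∀ U : Subgroup N, Inv 𝓐 U → A ≤ NN(U.map N.subtype) := by
    intro U hU
    refine le_NN_iff.2 ?_
    rintro x hx _ ⟨u, hu, rfl⟩
    exact ⟨_, hU _ ⟨x, hx, rfl⟩ u hu, MulAut.conjNormal_apply x u⟩
  have hsys : Sys 𝓐 𝓒 𝓗' := by
    refine ⟨fun U W hU h => ?_, fun H' hH' => ?_, fun W hW => ?_, fun H₁ hH₁ H₂ hH₂ C hC => ?_⟩
    · rw [← Subgroup.map_le_map_iff_of_injective N.subtype_injective]
      refine hy_gen hA.1 (hinv' U hU) (cop_le hc (Subgroup.map_subtype_le U)) fun B hB => ?_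
      rintro _ ⟨⟨u, hu, rfl⟩, hu'⟩
      exact ⟨u, h _ ⟨B, hB, rfl⟩ ⟨hu, hu'⟩, rfl⟩
    · obtain ⟨H, hH, rfl⟩ := (hmem _).1 hH'
      exact hinv H (hf H hH).2
    · rw [← Subgroup.map_le_map_iff_of_injective N.subtype_injective, map_top_subtype]
      refine hN.le.trans (sSup_le fun H hH => ?_)
      exact le_map_subtype_iff.2 ⟨(hf H hH).1, hW _ ((hmem _).2 ⟨H, hH, rfl⟩)⟩
    · obtain ⟨X₁, hX₁, rfl⟩ := (hmem _).1 hH₁
      obtain ⟨X₂, hX₂, rfl⟩ := (hmem _).1 hH₂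
      obtain ⟨B, hB, rfl⟩ := hC
      obtain ⟨H, hH, hle⟩ := h3 _ (mem_sp2 hB hX₁ hX₂)
      refine ⟨_, (hmem _).2 ⟨H, hH, rfl⟩, ?_⟩
      rw [← subgroupOf_commutator (hf _ hX₁).1 (hf _ hX₂).1]
      exact fun u hu => hle hu
  have hz : Subgroup.zpowers a ≤ A := Subgroup.zpowers_le.2 ha
  have := hsys.main (e := e) (s := s) (t := t) hp hcp
    (Finset.card_image_le.trans (by rw [← Set.ncard_eq_toFinset_card]; exact ht)) (by
      rintro _ ⟨B, hB, rfl⟩ H' hH'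
      obtain ⟨H, hH, rfl⟩ := (hmem _).1 hH'
      rw [← Subgroup.map_eq_bot_iff_of_injective _ N.subtype_injective, map_iterC,
        map_subgroupOf_of_le (hf H hH).1, Subgroup.subgroupOf_map_subtype, inf_comm]
      exact h2 B hB H hH) (a := MulAut.conjNormal a)
    (by rw [← map_pow, hA.2 a ha, map_one]) (F := (Subgroup.centralizer {a}).subgroupOf N)
    (hinv _ (by rw [← CC_zpowers]; exact le_NN_CC_hy hA.1 hz)) (fun x hx => by
      apply Subtype.ext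
      rw [MulAut.conjNormal_apply,
        Subgroup.mem_centralizer_iff.1 (Subgroup.mem_subgroupOf.1 hx) a rfl, mul_inv_cancel_right])
    (fun Y W hY h1 h2 => by
      rw [← Subgroup.map_le_map_iff_of_injective N.subtype_injective,
        ← H1.commutator_sup_centralizer (hz.trans (hinv' Y hY))
          (cop_le (hc.coprime_dvd_left (Subgroup.card_dvd_of_le hz)) (Subgroup.map_subtype_le Y))
          (Or.inr (H1.isSolvable_of_le hs (Subgroup.map_subtype_le Y)))]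
      refine sup_le ?_ ?_
      · refine Subgroup.commutator_le.2 ?_
        rintro _ ⟨y, hy, rfl⟩ b hb
        have hb' : b ∈ Submonoid.powers a := mem_powers_iff_mem_zpowers.2 hb
        obtain ⟨n, rfl⟩ := hb'
        have key : ∀ n : ℕ, ∀ y ∈ Y, y⁻¹ * (MulAut.conjNormal a ^ n) y ∈ W := by
          intro n
          induction n with
          | zero => intro y _; simp
          | succ n ih =>
            intro y hy
            have := mul_mem (h2 y hy) (ih _ (hY _ ⟨a, ha, rfl⟩ y hy))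
            rw [pow_succ, MulAut.mul_apply]
            simpa only [mul_assoc, mul_inv_cancel_left] using this
        refine ⟨_, key n y⁻¹ (inv_mem hy), ?_⟩
        rw [← map_pow]
        simp only [inv_inv, map_mul, Subgroup.coe_subtype, MulAut.conjNormal_apply,
          commutatorElement_def, InvMemClass.coe_inv, mul_assoc]
      · rintro _ ⟨⟨y, hy, rfl⟩, hy'⟩
        rw [CC_zpowers] at hy'
        exact ⟨y, h1 ⟨hy, hy'⟩, rfl⟩)
    (by
      rw [← Subgroup.map_eq_bot_iff_of_injective _ N.subtype_injective, map_dS,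
        Subgroup.subgroupOf_map_subtype, inf_comm]
      exact h4)
  rw [← Subgroup.top_subtype_lowerCentralSeries, show (⊤ : Subgroup N).lowerCentralSeries _ = ⊥
    from this, Subgroup.map_bot]

end

end KR
end H10
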