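import Cfsg.Agent.H10.Kr3
import Cfsg.Agent.H5.SigEnd
import Cfsg.Agent.H8.Sdp

/-!
Coprime action of an elementary abelian group of rank at least three: nilpotency of terms of the
derived and of the lower central series.
-/

set_option autoImplicit false

namespace H10
namespace KR

open H9.Krek Cfsg
open scoped commutatorElement

universe u

variable {G : Type u} [Group G]

theorem relIndex_hy [Finite G] {p : ℕ} (hp : p.Prime) {A B : Subgroup G}
    (hA : IsElementaryAbelian p A) (hB : B ∈ Hy A) : B.relIndex A ≤ p := by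
  obtain ⟨h1, a, ha, h2⟩ := hB
  haveI := hA.1
  haveI : (B.subgroupOf A).Normal := ⟨fun n hn g => by
    rw [mul_comm' g n, mul_inv_cancel_right]; exact hn⟩
  have h3 : B.subgroupOf A ⊔ Subgroup.zpowers (⟨a, ha⟩ : A) = ⊤ := by
    apply Subgroup.map_injective A.subtype_injective
    rw [Subgroup.map_sup, map_subgroupOf_of_le h1, MonoidHom.map_zpowers, map_top_subtype]
    exact h2
  have h4 : B.relIndex A = (B.subgroupOf A).relIndex (Subgroup.zpowers (⟨a, ha⟩ : A)) := by
    rw [← Subgroup.relIndex_sup_left (K := B.subgroupOf A), h3, Subgroup.relIndex_top_right]; rfl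
  have h5 : orderOf (⟨a, ha⟩ : A) ∣ p :=
    orderOf_dvd_of_pow_eq_one (Subtype.ext (hA.2 a ha))
  rw [h4]
  refine Nat.le_of_dvd hp.pos ((Subgroup.relIndex_dvd_card _ _).trans ?_)
  rwa [Nat.card_zpowers]

theorem solv_of_dS {X : Subgroup G} {n : ℕ} (h : dS X n = ⊥) : Group.IsSolvable X := by
  refine ⟨⟨n, ?_⟩⟩
  rw [← Subgroup.map_eq_bot_iff_of_injective _ X.subtype_injective, ← dS_top, map_dS,
    map_top_subtype, h]

theorem iter_le_lcs {C W : Subgroup G} (h : C ≤ NN(W)) (n : ℕ) :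
    iterCommutator C W (n + 1) ≤ W.lowerCentralSeries n := by
  induction n with
  | zero => exact comm_le_right h
  | succ n ih => exact Subgroup.commutator_mono ih le_rfl

theorem fin_amb [Finite G] {p k c r s t : ℕ} (hp : p.Prime) {A K : Subgroup G} [K.Normal]
    (hA : IsElementaryAbelian p A) (hk : Nat.card A = p ^ k) (hk3 : 3 ≤ k) (hr : r + 1 < k)
    (hcp : (Nat.card K).Coprime p) (w : Subgroup G → Subgroup G) (wmono : Monotone w)
    (wle : ∀ X, w X ≤ X) (wn : ∀ X L : Subgroup G, L ≤ NN(X) → L ≤ NN(w X))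
    (wd : ∀ X, dS X s ≤ w X)
    {𝓗 : Set (Subgroup G)} (ht : 𝓗.ncard ≤ t) (hf : Fam A K 𝓗) (hN : sSup 𝓗 = w K)
    (h3 : Ref (sp2 A 𝓗 𝓗) 𝓗)
    (hD : ∀ H ∈ 𝓗, ∃ D ≤ A, D.relIndex A ≤ p ^ r ∧ H ≤ w (K ⊓ CC(D)))
    (hyp : ∀ a ∈ A, a ≠ 1 → (w (K ⊓ Subgroup.centralizer {a})).lowerCentralSeries c = ⊥) :
    (w K).lowerCentralSeries (bdK p (c + 1) (s + c) t) = ⊥ := by
  haveI := Fact.mk hp
  haveI : (w K).Normal := normal_of_top_le_NN (wn K ⊤ (le_NN_of_normal _ K))
  have h4 : ∀ a ∈ A, a ≠ 1 → dS (K ⊓ Subgroup.centralizer {a}) (s + c) = ⊥ := fun a ha h1 => by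
    rw [dS_add]
    exact le_bot_iff.1 ((dS_mono (wd _) c).trans ((dS_le_lcs _ c).trans (hyp a ha h1).le))
  have hs : Group.IsSolvable K := H5.isSolvable_of_rank_three hA
    (hk ▸ Nat.pow_le_pow_right hp.pos hk3) hcp (le_NN_of_normal _ K)
    fun a ha h1 => solv_of_dS (h4 a ha h1)
  have hcp' : p.Coprime (Nat.card (w K)) := cop_le hcp.symm (wle K)
  have hA0 : A ≠ ⊥ := by
    rintro rfl
    rw [Subgroup.card_bot] at hk
    have := Nat.one_lt_pow (show k ≠ 0 by omega) hp.one_lt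
    omega
  obtain ⟨⟨a, ha⟩, ha1⟩ := (Subgroup.ne_bot_iff_exists_ne_one).1 hA0
  have ha1' : a ≠ 1 := fun h => ha1 (Subtype.ext h)
  refine amb_main hp hA (hk ▸ hcp'.pow_left k) hcp' (H1.isSolvable_of_le hs (wle K)) ht
    (fun H hH => ⟨hN ▸ le_sSup hH, (hf H hH).2⟩) hN.symm (fun B hB H hH => ?_) h3 ha
    (le_bot_iff.1 ((dS_mono (inf_le_inf_right _ (wle K)) _).trans (h4 a ha ha1').le))
  obtain ⟨D, hDA, hD1, hD2⟩ := hD H hH
  have h0 : D ⊓ B ≠ ⊥ := by
    intro h
    have h5 := Subgroup.relIndex_inf_le (H := D) (K := B) (L := A)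
    rw [h, Subgroup.relIndex_bot_left, hk] at h5
    have h6 := h5.trans (Nat.mul_le_mul hD1 (relIndex_hy hp hA hB))
    rw [← pow_succ] at h6
    have := (Nat.pow_le_pow_iff_right hp.one_lt).1 h6
    omega
  obtain ⟨⟨b, hb⟩, hb1⟩ := (Subgroup.ne_bot_iff_exists_ne_one).1 h0
  have hb1' : b ≠ 1 := fun h => hb1 (Subtype.ext h)
  have hc1 : ∀ X : Subgroup G, b ∈ X → CC(X) ≤ Subgroup.centralizer {b} := fun X hX => by
    rw [← CC_zpowers]; exact CC_anti (Subgroup.zpowers_le.2 hX)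
  refine le_bot_iff.1 ((iterCommutator_mono (inf_le_inf (wle K) (hc1 B hb.2))
    (hD2.trans (wmono (inf_le_inf_left K (hc1 D hb.1)))) _).trans
    ((iter_le_lcs (wn _ _ (le_NN_self _)) c).trans (hyp b (hDA hb.1) hb1').le))

/-- special subgroups for the derived series -/
def spD (A K : Subgroup G) : ℕ → Set (Subgroup G)
  | 0 => sp0 A K
  | l + 1 => sp2 A (spD A K l) (spD A K l)

/-- special subgroups for the lower central series -/
def spG (A K : Subgroup G) : ℕ → Set (Subgroup G)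
  | 0 => sp0 A K
  | l + 1 => sp2 A (spG A K l) (sp0 A K)

/-- bound for the number of special subgroups -/
def cD (h : ℕ) : ℕ → ℕ
  | 0 => h
  | l + 1 => h * (cD h l * cD h l)

/-- bound for the number of special subgroups -/
def cG (h : ℕ) : ℕ → ℕ
  | 0 => h
  | l + 1 => h * (cG h l * h)

theorem le_NN_dS {X L : Subgroup G} (h : L ≤ NN(X)) (n : ℕ) : L ≤ NN(dS X n) := by
  induction n with
  | zero => exact h
  | succ n ih => exact le_NN_commutator ih ih

theorem le_NN_lcs {X L : Subgroup G} (h : L ≤ NN(X)) (n : ℕ) :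
    L ≤ NN(X.lowerCentralSeries n) := by
  induction n with
  | zero => exact h
  | succ n ih => exact le_NN_commutator ih h

theorem amb_D [Finite G] {p k c d : ℕ} (hp : p.Prime) {A K : Subgroup G} [K.Normal]
    (hA : IsElementaryAbelian p A) (hk : Nat.card A = p ^ k) (hk3 : 3 ≤ k) (hd : 2 ^ d + 2 ≤ k)
    (hcp : (Nat.card K).Coprime p)
    (hyp : ∀ a ∈ A, a ≠ 1 → (dS (K ⊓ Subgroup.centralizer {a}) d).lowerCentralSeries c = ⊥) :
    (dS K d).lowerCentralSeries (bdK p (c + 1) (d + c) (cD (2 ^ p ^ k) d)) = ⊥ := by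
  have hc : (Nat.card A).Coprime (Nat.card K) := hk ▸ hcp.symm.pow_left k
  have hf : ∀ l, Fam A K (spD A K l) := fun l => by
    induction l with
    | zero => exact fam_sp0 hA.1 (le_NN_of_normal _ K)
    | succ l ih => exact ih.sp2 hA.1 ih
  have hr : ∀ l, Ref (spD A K (l + 1)) (spD A K l) := fun l => by
    induction l with
    | zero => exact (hf 0).ref (hf 0)
    | succ l ih => exact ih.sp2 ih
  refine fin_amb (r := 2 ^ d) hp hA hk hk3 (by omega) hcp (fun X => dS X d)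
    (fun _ _ h => dS_mono h d) (fun X => dS_le X d) (fun X L h => le_NN_dS h d) (fun _ => le_rfl)
    ?_ (hf d) ?_ (hr d) ?_ hyp
  · clear hyp hd
    induction d with
    | zero => exact hk ▸ ncard_sp0 A K
    | succ l ih => exact hk ▸ ncard_sp2 A (hk ▸ ih) (hk ▸ ih)
  · clear hyp hd
    induction d with
    | zero => exact sSup_sp0 hA.1 (le_NN_of_normal _ K) hc
    | succ l ih =>
      refine (sSup_sp2 hA.1 hc (hf l) (hf l) (hr l) (hr l)).trans ?_
      rw [ih]; rfl
  · clear hyp hd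
    induction d with
    | zero =>
      rintro _ ⟨B, hB, rfl⟩
      exact ⟨B, hB.1, by simpa using relIndex_hy hp hA hB, le_rfl⟩
    | succ l ih =>
      rintro _ ⟨⟨B, X, Y⟩, ⟨hB, hX, hY⟩, rfl⟩
      obtain ⟨D₁, h1, h2, h3⟩ := ih X hX
      obtain ⟨D₂, h4, h5, h6⟩ := ih Y hY
      refine ⟨D₁ ⊓ D₂, inf_le_left.trans h1, Subgroup.relIndex_inf_le.trans ?_,
        inf_le_left.trans (Subgroup.commutator_mono
          (h3.trans (dS_mono (inf_le_inf_left K (CC_anti inf_le_left)) l))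
          (h6.trans (dS_mono (inf_le_inf_left K (CC_anti inf_le_right)) l)))⟩
      rw [pow_succ 2 l, mul_two, pow_add]
      exact Nat.mul_le_mul h2 h5

theorem amb_G [Finite G] {p k c d : ℕ} (hp : p.Prime) {A K : Subgroup G} [K.Normal]
    (hA : IsElementaryAbelian p A) (hk : Nat.card A = p ^ k) (hd : d + 3 ≤ k)
    (hcp : (Nat.card K).Coprime p)
    (hyp : ∀ a ∈ A, a ≠ 1 →
      ((K ⊓ Subgroup.centralizer {a}).lowerCentralSeries d).lowerCentralSeries c = ⊥) :
    (K.lowerCentralSeries d).lowerCentralSeries (bdK p (c + 1) (d + c) (cG (2 ^ p ^ k) d)) = ⊥ := by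
  have hc : (Nat.card A).Coprime (Nat.card K) := hk ▸ hcp.symm.pow_left k
  have hf0 : Fam A K (sp0 A K) := fam_sp0 hA.1 (le_NN_of_normal _ K)
  have hf : ∀ l, Fam A K (spG A K l) := fun l => by
    induction l with
    | zero => exact hf0
    | succ l ih => exact ih.sp2 hA.1 hf0
  have hr : ∀ l, Ref (spG A K (l + 1)) (spG A K l) := fun l => by
    induction l with
    | zero => exact hf0.ref hf0
    | succ l ih => exact ih.sp2 Ref.rfl
  have hr0 : ∀ l, Ref (spG A K l) (sp0 A K) := fun l => by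
    cases l with
    | zero => exact Ref.rfl
    | succ l => exact (hf l).ref hf0
  refine fin_amb (r := d + 1) hp hA hk (by omega) (by omega) hcp
    (fun X => X.lowerCentralSeries d)
    (fun _ _ h => Subgroup.lowerCentralSeries_mono d h)
    (fun X => Subgroup.lowerCentralSeries_le_self X d) (fun X L h => le_NN_lcs h d)
    (fun X => dS_le_lcs X d) ?_ (hf d) ?_ ((Ref.rfl.sp2 (hr0 d)).trans (hr d)) ?_ hyp
  · clear hyp hd
    induction d with
    | zero => exact hk ▸ ncard_sp0 A K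
    | succ l ih => exact hk ▸ ncard_sp2 A (hk ▸ ih) (ncard_sp0 A K)
  · clear hyp hd
    induction d with
    | zero => exact sSup_sp0 hA.1 (le_NN_of_normal _ K) hc
    | succ l ih =>
      refine (sSup_sp2 hA.1 hc (hf l) hf0 (hr l) (hr0 (l + 1))).trans ?_
      rw [ih, sSup_sp0 hA.1 (le_NN_of_normal _ K) hc]; rfl
  · clear hyp hd
    induction d with
    | zero =>
      rintro _ ⟨B, hB, rfl⟩
      exact ⟨B, hB.1, by simpa using relIndex_hy hp hA hB, le_rfl⟩
    | succ l ih =>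
      rintro _ ⟨⟨B, X, Y⟩, ⟨hB, hX, D₂, h4, rfl⟩, rfl⟩
      obtain ⟨D₁, h1, h2, h3⟩ := ih X hX
      refine ⟨D₁ ⊓ D₂, inf_le_left.trans h1, Subgroup.relIndex_inf_le.trans ?_,
        inf_le_left.trans (Subgroup.commutator_mono
          (h3.trans (Subgroup.lowerCentralSeries_mono l (inf_le_inf_left K (CC_anti inf_le_left))))
          (inf_le_inf_left K (CC_anti inf_le_right)))⟩
      rw [pow_succ p (l + 1)]
      exact Nat.mul_le_mul h2 (relIndex_hy hp hA h4)

open SemidirectProduct in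
/-- transfer of an action by automorphisms to the semidirect product -/
theorem sdp_setup [Finite G] {p k : ℕ} (hc : (Nat.card G).Coprime p) {A : Subgroup (MulAut G)}
    (hA : IsElementaryAbelian p A) (hk : Nat.card A = p ^ k) :
    IsElementaryAbelian p (H8.sdR A.subtype ⊤) ∧ Nat.card (H8.sdR A.subtype ⊤) = p ^ k ∧
      (Nat.card (H8.sdL A.subtype ⊤)).Coprime p ∧
      ∀ a' ∈ H8.sdR A.subtype ⊤, a' ≠ 1 → ∃ a ∈ A, a ≠ 1 ∧
        H8.sdL A.subtype ⊤ ⊓ Subgroup.centralizer {a'} =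
          (⊤ : Subgroup (a.toMonoidHom.eqLocus (MonoidHom.id G))).map
            ((inl : G →* G ⋊[A.subtype] A).comp (Subgroup.subtype _)) := by
  refine ⟨elab_map _ ?_, by rw [H8.card_sdR, Subgroup.card_top, hk],
    by rw [H8.card_sdL, Subgroup.card_top]; exact hc, ?_⟩
  · have := elab_subgroupOf hA A
    rwa [Subgroup.subgroupOf_self] at this
  · rintro _ ⟨a, -, rfl⟩ h1
    refine ⟨a, a.2, fun h => h1 (by rw [show a = 1 from Subtype.ext h, map_one]), ?_⟩
    have key : ∀ g : G, (inl g : G ⋊[A.subtype] A) ∈ Subgroup.centralizer {inr a} ↔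
        (a : MulAut G) g = g := fun g => by
      rw [Subgroup.mem_centralizer_singleton_iff, eq_comm, ← mul_inv_eq_iff_eq_mul,
        H8.inr_conj_inl, inl_injective.eq_iff]
      rfl
    ext x
    constructor
    · rintro ⟨⟨g, -, rfl⟩, h2⟩
      exact ⟨⟨g, (key g).1 h2⟩, trivial, rfl⟩
    · rintro ⟨⟨g, hg⟩, -, rfl⟩
      exact ⟨⟨g, trivial, rfl⟩, (key g).2 hg⟩

end KR
end H10
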