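/-
Groups whose Sylow `p`-subgroups are generated by two elements.
-/
import Cfsg.Agent.H5.Fstar
import Cfsg.Agent.H10.Misc
import Cfsg.Agent.H3.PComp
import Cfsg.Agent.H1.Coprime
import Cfsg.Agent.H2.FrobCompl
import Cfsg.Agent.S0081
import Cfsg.Agent.S0088

set_option autoImplicit false
set_option linter.unusedSectionVars false

namespace H10

open Cfsg
open H5 (oppOf CompOf SN layerOf)

variable {G : Type*} [Group G] [Finite G] {p : ℕ} [Fact p.Prime]

/-- Tate's theorem, ambient form. -/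
theorem tate_in {P A : Subgroup G} (hP : IsSylowIn p P ⊤) (hn : P ≤ NN(A))
    (h : A ⊓ P ≤ frOf P) : (Nat.card (resOf p A)).Coprime p := by
  have hPM : P ≤ A ⊔ P := le_sup_right
  have hAM : A ≤ A ⊔ P := le_sup_left
  have hS : IsSylowIn p P (A ⊔ P) := hP.of_le hPM le_top
  haveI : (A.subgroupOf (A ⊔ P)).Normal :=
    normal_subgroupOf (sup_le (le_NN_self A) hn)
  have h1 : HasNormalPComplement p (A.subgroupOf (A ⊔ P)) := by
    refine Cfsg.Agent.S0081.result hS.toSylow _ ?_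
    rw [frOf_def, hS.coe_toSylow]
    intro x hx
    have h2 : (x : G) ∈ frOf P := h ⟨hx.1, hx.2⟩
    have h3 := map_frOf_of_injective (A ⊔ P).subtype_injective (P.subgroupOf (A ⊔ P))
    rw [map_subgroupOf_of_le hPM] at h3
    rw [← h3] at h2
    obtain ⟨y, hy, e⟩ := h2
    have : y = x := Subtype.ext e
    exact this ▸ hy
  rw [H3.hasNormalPComplement_subgroupOf hAM, H3.hasNormalPComplement_iff_coprime] at h1
  rw [← resOf_def, card_map_subtype]
  exact h1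

/-- abelian Sylow subgroups meet `L' ∩ Z(L)` trivially. -/
theorem abel_sylow_inf {T L : Subgroup G} (hT : IsSylowIn p T L) (hc : T ≤ CC(T)) :
    T ⊓ ⁅L, L⁆ ⊓ CC(L) = ⊥ := by
  have h1 : IsMulCommutative (T.subgroupOf L) := by
    rw [isMulCommutative_iff_le_CC, CC_subgroupOf hT.le]
    exact Subgroup.subgroupOf_mono _ hc
  have h2 : (Nat.card (T.subgroupOf L)).Coprime (T.subgroupOf L).index := by
    have := H3.sylow_card_coprime_of_coprime hT.toSylow (H3.sylow_index_coprime hT.toSylow)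
    rw [hT.coe_toSylow] at this
    exact this.symm
  have h3 := Cfsg.Agent.S0088.result (T.subgroupOf L) h1 h2
  rw [eq_bot_iff]
  intro x hx
  have hxL : x ∈ L := hT.le hx.1.1
  have h4 : (⟨x, hxL⟩ : L) ∈ T.subgroupOf L ⊓ commutator L ⊓ Subgroup.center L := by
    refine ⟨⟨hx.1.1, ?_⟩, ?_⟩
    · have h5 := hx.1.2
      rw [← Subgroup.map_subtype_commutator] at h5
      obtain ⟨y, hy, e⟩ := h5
      have : y = ⟨x, hxL⟩ := Subtype.ext e
      exact this ▸ hy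
    · exact Subgroup.mem_center_iff.2 fun g => Subtype.ext (mem_CC.1 hx.2 g g.2)
  rw [h3] at h4
  exact congrArg Subtype.val (Subgroup.mem_bot.1 h4)

/-- a subgroup outside the Frattini subgroup of a two-generator group has a cyclic
supplement. -/
theorem exists_zpowers_sup {P X : Subgroup G} (hi : (frOf P).relIndex P = p ^ 2) (hX : X ≤ P)
    (h : ¬ X ≤ frOf P) : ∃ x ∈ P, P = Subgroup.zpowers x ⊔ X := by
  have hp := (Fact.out : p.Prime)
  set Y := X ⊔ frOf P with hY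
  have hYP : Y ≤ P := sup_le hX (frOf_le P)
  have hm : (frOf P).relIndex Y * Y.relIndex P = p ^ 2 := by
    rw [Subgroup.relIndex_mul_relIndex _ _ _ le_sup_right hYP, hi]
  have h1 : (frOf P).relIndex Y ≠ 1 := fun e =>
    h (le_sup_left.trans (Subgroup.relIndex_eq_one.1 e))
  have key : ∀ x ∈ P, P ≤ Subgroup.zpowers x ⊔ Y → P = Subgroup.zpowers x ⊔ X := by
    intro x hx e
    refine (eq_of_sup_frOf (N := frOf P) (sup_le ((Subgroup.zpowers_le).2 hx) hX) le_rfl ?_).symm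
    rwa [sup_assoc]
  obtain ⟨i, hi2, ei⟩ := (Nat.dvd_prime_pow hp).1 (Dvd.intro _ hm : (frOf P).relIndex Y ∣ p ^ 2)
  have hi0 : i ≠ 0 := fun e => h1 (by rw [ei, e, pow_zero])
  have hd : Y.relIndex P ∣ p := by
    obtain ⟨j, rfl⟩ := Nat.exists_eq_succ_of_ne_zero hi0
    rw [ei, pow_succ, pow_succ, pow_one, mul_comm (p ^ j) p, mul_assoc] at hm
    have := Nat.eq_of_mul_eq_mul_left hp.pos hm
    exact Dvd.intro_left _ this
  rcases (Nat.dvd_prime hp).1 hd with e | e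
  · exact ⟨1, P.one_mem, key 1 P.one_mem (le_sup_of_le_right (Subgroup.relIndex_eq_one.1 e))⟩
  · have hne : ¬ P ≤ Y := fun e' => hp.one_lt.ne' (e.symm.trans (Subgroup.relIndex_eq_one.2 e'))
    obtain ⟨x, hx, hxY⟩ := SetLike.not_le_iff_exists.1 hne
    refine ⟨x, hx, key x hx ?_⟩
    have hZ : Subgroup.zpowers x ⊔ Y ≤ P := sup_le ((Subgroup.zpowers_le).2 hx) hYP
    have hm2 : Y.relIndex (Subgroup.zpowers x ⊔ Y) * (Subgroup.zpowers x ⊔ Y).relIndex P = p := by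
      rw [Subgroup.relIndex_mul_relIndex _ _ _ le_sup_right hZ, e]
    rcases (Nat.dvd_prime hp).1 (Dvd.intro_left _ hm2) with e2 | e2
    · exact Subgroup.relIndex_eq_one.1 e2
    · rw [e2] at hm2
      have h3 : Y.relIndex (Subgroup.zpowers x ⊔ Y) = 1 :=
        Nat.eq_of_mul_eq_mul_right hp.pos (by rw [hm2, one_mul])
      exact absurd (Subgroup.relIndex_eq_one.1 h3 (le_sup_left (a := Subgroup.zpowers x)
        (Subgroup.mem_zpowers x))) hxY

theorem zpowers_le_CC_self (x : G) : Subgroup.zpowers x ≤ CC(Subgroup.zpowers x) :=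
  isMulCommutative_iff_le_CC.1 inferInstance

theorem comm_le_of_zpowers_sup {P X : Subgroup G} {x : G} (e : P = Subgroup.zpowers x ⊔ X)
    (hn : P ≤ NN(X)) : ⁅P, P⁆ ≤ X := by
  have hz : Subgroup.zpowers x ≤ P := e ▸ le_sup_left
  have hXP : X ≤ P := e ▸ le_sup_right
  conv_lhs => rw [e]
  refine comm_sup_le (hz.trans hn) (le_NN_self X) ?_ (comm_le_left (e ▸ hn))
  refine comm_sup_le' (hz.trans hn) (le_NN_self X) ?_ (comm_le_right (hz.trans hn))
  rw [comm_eq_bot.2 (zpowers_le_CC_self x)]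
  exact bot_le

theorem le_CC_of_zpowers_sup {P X T : Subgroup G} {x : G} (e : P = Subgroup.zpowers x ⊔ X)
    (hn : P ≤ NN(X)) (h1 : X ≤ T) (h2 : T ≤ P) (h3 : X ≤ CC(T)) : T ≤ CC(T) := by
  have hz : Subgroup.zpowers x ≤ P := e ▸ le_sup_left
  have h4 : T = X ⊔ (Subgroup.zpowers x ⊓ T) := by
    rw [← dedekind_right h1 (hz.trans hn), sup_comm, ← e, inf_eq_right.2 h2]
  have h5 : Subgroup.zpowers x ⊓ T ≤ CC(T) := by
    conv_rhs => rw [h4, CC_sup]
    exact le_inf (inf_le_right.trans (le_CC_symm h3))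
      (inf_le_left.trans ((zpowers_le_CC_self x).trans (CC_anti inf_le_left)))
  conv_lhs => rw [h4]
  exact sup_le h3 h5

/-- two nontrivial subgroups of a cyclic `p`-group meet nontrivially -/
theorem inf_ne_bot_of_zpowers {x : G} {A B : Subgroup G} (hx : IsPGroup p (Subgroup.zpowers x))
    (hA : A ≤ Subgroup.zpowers x) (hB : B ≤ Subgroup.zpowers x) (h1 : A ≠ ⊥) (h2 : B ≠ ⊥) :
    A ⊓ B ≠ ⊥ := by
  have hp := (Fact.out : p.Prime)
  intro h
  obtain ⟨a, ha, oa⟩ := exists_orderOf_eq_of_ne_bot (hx.to_le hA) h1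
  obtain ⟨b, hb, ob⟩ := exists_orderOf_eq_of_ne_bot (hx.to_le hB) h2
  have h3 : Subgroup.zpowers a = Subgroup.zpowers b :=
    H2.eq_of_card_eq_of_isCyclic (C := Subgroup.zpowers x) inferInstance
      ((Subgroup.zpowers_le).2 (hA ha)) ((Subgroup.zpowers_le).2 (hB hb))
      (by rw [Nat.card_zpowers, Nat.card_zpowers, oa, ob])
  have h5 : a ∈ B := (Subgroup.zpowers_le).2 hb (h3 ▸ Subgroup.mem_zpowers a)
  have h6 : a ∈ A ⊓ B := ⟨ha, h5⟩
  rw [h] at h6
  exact ne_one_of_orderOf_eq oa (Subgroup.mem_bot.1 h6)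

/-- the hypotheses -/
structure TGC (p : ℕ) (P : Subgroup G) : Prop where
  syl : IsSylowIn p P ⊤
  na : ¬ P ≤ CC(P)
  idx : (frOf P).relIndex P = p ^ 2
  core : oppOf p (⊤ : Subgroup G) = ⊥
  fr : ∀ N : Subgroup G, N.Normal → N ≤ frOf P → N = ⊥

namespace TGC

variable {P : Subgroup G} (h : TGC p P)
include h

theorem not_le {N : Subgroup G} [hN : N.Normal] (h0 : N ≠ ⊥) : ¬ N ⊓ P ≤ frOf P := by
  intro hle
  have h1 := tate_in h.syl (le_NN_of_normal P N) hle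
  have h2 : resOf p N ≤ oppOf p (⊤ : Subgroup G) :=
    H5.le_oppOf le_top (le_NN_resOf' (le_NN_of_normal ⊤ N)) h1
  rw [h.core, le_bot_iff] at h2
  have h3 : N ≤ P := h.syl.le_of_NN (isPGroup_of_resOf_eq_bot h2) le_top (le_NN_of_normal P N)
  exact h0 (h.fr N hN ((le_inf le_rfl h3).trans hle))

theorem gen {A : Subgroup G} (h0 : ¬ A ⊓ P ≤ frOf P) :
    ∃ x ∈ P, P = Subgroup.zpowers x ⊔ (A ⊓ P) :=
  exists_zpowers_sup h.idx inf_le_right h0

theorem comm_le {A : Subgroup G} (hn : P ≤ NN(A)) (h0 : ¬ A ⊓ P ≤ frOf P) : ⁅P, P⁆ ≤ A := by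
  obtain ⟨x, -, e⟩ := h.gen h0
  exact (comm_le_of_zpowers_sup e (le_NN_inf hn (le_NN_self P))).trans inf_le_left

theorem comm_ne : ⁅P, P⁆ ≠ ⊥ := fun e => h.na (comm_eq_bot.1 e)

theorem ncl_le' {N : Subgroup G} [N.Normal] (h0 : N ≠ ⊥) : ncl ⁅P, P⁆ ⊤ ≤ N :=
  ncl_le (h.comm_le (le_NN_of_normal P N) (h.not_le h0)) (le_NN_of_normal ⊤ N)

theorem ncl_ne : ncl ⁅P, P⁆ ⊤ ≠ ⊥ := fun e => h.comm_ne (le_bot_iff.1 (e ▸ le_ncl _ _))

omit h in
theorem ncl_normal (P : Subgroup G) : (ncl ⁅P, P⁆ ⊤).Normal := normal_of_top_le_NN (le_NN_ncl _ _)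

theorem fstar_ne : generalizedFittingSubgroup G ≠ ⊥ := by
  intro e
  rw [← H5.fstarOf_top] at e
  have := H5.eq_bot_of_fstarOf_eq_bot e
  exact h.comm_ne (le_bot_iff.1 (this ▸ le_top))

theorem CC_eq_bot (hna : ¬ ncl ⁅P, P⁆ ⊤ ≤ CC(ncl ⁅P, P⁆ ⊤)) : CC(ncl ⁅P, P⁆ ⊤) = ⊥ := by
  by_contra h0
  haveI := ncl_normal P
  haveI : (CC(ncl ⁅P, P⁆ ⊤)).Normal := normal_of_top_le_NN (le_NN_CC (le_NN_of_normal ⊤ _))
  exact hna (h.ncl_le' h0)

theorem fit_eq_bot (hna : ¬ ncl ⁅P, P⁆ ⊤ ≤ CC(ncl ⁅P, P⁆ ⊤)) : H5.fitOf (⊤ : Subgroup G) = ⊥ := by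
  by_contra h0
  haveI := ncl_normal P
  rw [H5.fitOf_eq_opOf h.core] at h0
  have hp : IsPGroup p (pCoreOf p (⊤ : Subgroup G)) := isPGroup_pCoreOf ⊤
  haveI : (pCoreOf p (⊤ : Subgroup G)).Normal := normal_of_top_le_NN (le_NN_pCoreOf ⊤)
  have h1 : ncl ⁅P, P⁆ ⊤ ≤ pCoreOf p (⊤ : Subgroup G) := h.ncl_le' h0
  have h2 := center_ne_bot (hp.to_le h1) h.ncl_ne
  rw [h.CC_eq_bot hna, inf_bot_eq] at h2
  exact h2 rfl

theorem comp_le (hna : ¬ ncl ⁅P, P⁆ ⊤ ≤ CC(ncl ⁅P, P⁆ ⊤)) {K : Subgroup G} (hK : CompOf K ⊤) :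
    K ≤ ncl ⁅P, P⁆ ⊤ := by
  rcases hK.le_or_commutator_eq_bot_of_le_normalizer (H := ncl ⁅P, P⁆ ⊤) le_top
    (le_top.trans (le_NN_ncl _ _)) with e | e
  · exact e
  · rw [comm_eq_bot, h.CC_eq_bot hna, le_bot_iff] at e
    exact absurd e hK.ne_bot

theorem fstar_le_of_na (hna : ¬ ncl ⁅P, P⁆ ⊤ ≤ CC(ncl ⁅P, P⁆ ⊤)) :
    generalizedFittingSubgroup G ≤ ncl ⁅P, P⁆ ⊤ := by
  rw [← H5.fstarOf_top, H5.fstarOf_eq, h.fit_eq_bot hna, sup_bot_eq, H5.layerOf_le_iff]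
  exact fun L hL => h.comp_le hna hL

theorem comm_le_orbit {K : Subgroup G} (hK : CompOf K ⊤) : ⁅P, P⁆ ≤ ncl K P := by
  refine h.comm_le (le_NN_ncl K P) fun hle => ?_
  have h1 := tate_in h.syl (le_NN_ncl K P) hle
  have h2 : K ≤ resOf p (ncl K P) :=
    (resOf_eq_of_perfect (p := p) hK.perfect).symm.le.trans (resOf_mono (le_ncl K P))
  have h3 : (Nat.card K).Coprime p := h1.coprime_dvd_left (Subgroup.card_dvd_of_le h2)
  have h4 := hK.sn.le_oppOf h3
  rw [h.core, le_bot_iff] at h4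
  exact hK.ne_bot h4

theorem transitive (hna : ¬ ncl ⁅P, P⁆ ⊤ ≤ CC(ncl ⁅P, P⁆ ⊤)) {K L : Subgroup G}
    (hK : CompOf K ⊤) (hL : CompOf L ⊤) : ∃ x ∈ P, L = cj x K := by
  by_contra hc
  push Not at hc
  have cj' : ∀ {M : Subgroup G}, CompOf M ⊤ → ∀ g : G, CompOf (cj g M) ⊤ := fun hM g =>
    hM.cj_of_mem (by rw [Subgroup.normalizer_eq_top]; trivial)
  -- a component outside the orbit of `M` centralizes `ncl M P`
  have out : ∀ {M J : Subgroup G}, CompOf M ⊤ → CompOf J ⊤ → (∀ x ∈ P, J ≠ cj x M) →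
      ncl M P ≤ CC(J) := fun hM hJ hne =>
    ncl_le_iff.2 fun g hg => comm_eq_bot.1 ((cj' hM g).commutator_eq_bot hJ (hne g hg).symm)
  have h1 : ⁅P, P⁆ ≤ CC(layerOf (⊤ : Subgroup G)) := by
    refine le_CC_symm (H5.layerOf_le_iff.2 fun J hJ => le_CC_symm ?_)
    by_cases hJK : ∃ x ∈ P, J = cj x K
    · obtain ⟨x, hx, rfl⟩ := hJK
      refine (h.comm_le_orbit hL).trans (out hL hJ fun y hy e => hc (y⁻¹ * x) ?_ ?_)
      · exact P.mul_mem (P.inv_mem hy) hx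
      · rw [cj_mul, e, cj_inv_cj]
    · push Not at hJK
      exact (h.comm_le_orbit hK).trans (out hK hJ hJK)
  have h2 : ncl ⁅P, P⁆ ⊤ ≤ layerOf (⊤ : Subgroup G) := by
    have := h.ncl_le' h.fstar_ne
    rwa [← H5.fstarOf_top, H5.fstarOf_eq, h.fit_eq_bot hna, sup_bot_eq] at this
  have h3 := h1.trans (CC_anti h2)
  rw [h.CC_eq_bot hna, le_bot_iff] at h3
  exact h.comm_ne h3

theorem pgroup_of_abelian {N : Subgroup G} [N.Normal] (hc : N ≤ CC(N)) : IsPGroup p N := by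
  have h1 : N ≤ H5.fitOf (⊤ : Subgroup G) := by
    exact H5.le_fitOf le_top (le_NN_of_normal ⊤ N)
      (H1.isNilpotent_of_comm (isMulCommutative_iff_le_CC.2 hc))
  rw [H5.fitOf_eq_opOf h.core] at h1
  exact (isPGroup_pCoreOf ⊤).to_le h1

theorem fstar_abelian (ha : ncl ⁅P, P⁆ ⊤ ≤ CC(ncl ⁅P, P⁆ ⊤)) :
    generalizedFittingSubgroup G ≤ CC(generalizedFittingSubgroup G) := by
  haveI := ncl_normal P
  set N := ncl ⁅P, P⁆ ⊤ with hN
  set F := generalizedFittingSubgroup G with hF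
  have hNp : IsPGroup p N := h.pgroup_of_abelian ha
  have hNP : N ≤ P := h.syl.le_of_NN hNp le_top (le_NN_of_normal P N)
  have hNF : N ≤ F := h.ncl_le' h.fstar_ne
  have hO : IsPGroup p (pCoreOf p (⊤ : Subgroup G)) := isPGroup_pCoreOf ⊤
  have hNO : N ≤ pCoreOf p (⊤ : Subgroup G) := le_pCoreOf hNp le_top (le_NN_of_normal ⊤ N)
  have hc : N ≤ CC(F) := by
    rw [hF, ← H5.fstarOf_top, H5.fstarOf_eq, H5.fitOf_eq_opOf h.core, CC_sup]
    refine le_inf (hNO.trans (le_CC_symm (H5.layerOf_le_centralizer_opOf p ⊤))) ?_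
    have h1 := inf_CC_ne_bot hO hNO le_rfl (le_NN_of_normal _ N) h.ncl_ne
    haveI : (N ⊓ CC(pCoreOf p (⊤ : Subgroup G))).Normal :=
      normal_of_top_le_NN (le_NN_inf (le_NN_of_normal ⊤ N) (le_NN_CC (le_NN_pCoreOf ⊤)))
    exact (h.ncl_le' h1).trans inf_le_right
  obtain ⟨x, -, e⟩ := h.gen (h.not_le h.ncl_ne)
  rw [← hN, inf_eq_left.2 hNP] at e
  have hT : IsSylowIn p (P ⊓ F) F := by
    simpa using h.syl.inf_normal' (le_NN_of_normal ⊤ F)
  have hTa : P ⊓ F ≤ CC(P ⊓ F) :=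
    le_CC_of_zpowers_sup e (le_NN_of_normal P N) (le_inf hNP hNF) inf_le_left
      (hc.trans (CC_anti inf_le_right))
  have h1 := abel_sylow_inf hT hTa
  by_contra hne
  have h2 : N ≤ ⁅F, F⁆ := h.ncl_le' fun e => hne (comm_eq_bot.1 e)
  have h3 : N ≤ P ⊓ F ⊓ ⁅F, F⁆ ⊓ CC(F) := le_inf (le_inf (le_inf hNP hNF) h2) hc
  rw [h1, le_bot_iff] at h3
  exact h.ncl_ne h3

theorem fstar_le_of_ab (ha : ncl ⁅P, P⁆ ⊤ ≤ CC(ncl ⁅P, P⁆ ⊤)) :
    generalizedFittingSubgroup G ≤ ncl ⁅P, P⁆ ⊤ := by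
  haveI := ncl_normal P
  have hRa := h.fstar_abelian ha
  set N := ncl ⁅P, P⁆ ⊤ with hN
  set R := generalizedFittingSubgroup G with hR
  have hRp : IsPGroup p R := h.pgroup_of_abelian hRa
  have hRP : R ≤ P := h.syl.le_of_NN hRp le_top (le_NN_of_normal P R)
  have hNR : N ≤ R := h.ncl_le' h.fstar_ne
  have hNp : IsPGroup p N := hRp.to_le hNR
  have hCR : CC(R) ≤ R := H5.centralizer_fstar_le
  by_contra hne
  obtain ⟨x, hx, e⟩ := h.gen (h.not_le h.ncl_ne)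
  rw [← hN, inf_eq_left.2 (hNR.trans hRP)] at e
  set f := QuotientGroup.mk' N with hf
  have hker : f.ker = N := QuotientGroup.ker_mk' N
  set C : Subgroup G := CC(R.map f).comap f with hC
  haveI : (R.map f).Normal := Subgroup.Normal.map inferInstance f (QuotientGroup.mk'_surjective N)
  haveI : CC(R.map f).Normal := normal_of_top_le_NN (le_NN_CC (le_NN_of_normal ⊤ _))
  haveI hCn : C.Normal := Subgroup.Normal.comap inferInstance f
  have hCf : C.map f = CC(R.map f) :=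
    Subgroup.map_comap_eq_self_of_surjective (QuotientGroup.mk'_surjective N) _
  have hPP : ⁅P, P⁆ ≤ N := le_ncl _ _
  have hPf : P.map f = Subgroup.zpowers (f x) := by
    conv_lhs => rw [e]
    rw [Subgroup.map_sup, MonoidHom.map_zpowers, (Subgroup.map_eq_bot_iff N).2 hker.ge, sup_bot_eq]
  have hPa : P.map f ≤ CC(P.map f) := hPf ▸ zpowers_le_CC_self _
  have hPC : P ≤ C := by
    rw [hC, ← Subgroup.map_le_iff_le_comap]
    exact hPa.trans (CC_anti (Subgroup.map_mono hRP))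
  have hS : IsSylowIn p (P.map f) (C.map f) := (h.syl.of_le hPC le_top).map f
  have h1 := abel_sylow_inf hS hPa
  have hR0 : R.map f ≠ ⊥ := fun e => hne (hker ▸ (Subgroup.map_eq_bot_iff R).1 e)
  have h2 : P.map f ⊓ ⁅C.map f, C.map f⁆ = ⊥ := by
    by_contra h0
    refine inf_ne_bot_of_zpowers (x := f x) (hPf ▸ hS.isPGroup) (hPf ▸ inf_le_left)
      (hPf ▸ Subgroup.map_mono hRP) h0 hR0 ?_
    rw [eq_bot_iff, ← h1]
    exact inf_le_inf_left _ (hCf ▸ le_CC_CC _)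
  set L := ⁅C, C⁆ with hL
  have hPL : P ⊓ L ≤ N := by
    rw [← hker, ← Subgroup.map_eq_bot_iff, eq_bot_iff, ← h2, ← Subgroup.map_commutator]
    exact Subgroup.map_inf_le _ _ _
  have hNL : N ≤ L := h.ncl_le' fun e =>
    h.comm_ne (le_bot_iff.1 (e ▸ Subgroup.commutator_mono hPC hPC))
  have hSL : IsSylowIn p N L := by
    have h3 : IsSylowIn p (P ⊓ L) L := by
      simpa using h.syl.inf_normal' (le_NN_of_normal ⊤ L)
    rwa [le_antisymm hPL (le_inf (hNR.trans hRP) hNL)] at h3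
  -- Schur-Zassenhaus
  haveI : (N.subgroupOf L).Normal := normal_subgroupOf (le_NN_of_normal L N)
  have hco : (Nat.card (N.subgroupOf L)).Coprime (N.subgroupOf L).index := by
    have := H3.sylow_card_coprime_of_coprime hSL.toSylow (H3.sylow_index_coprime hSL.toSylow)
    rw [hSL.coe_toSylow] at this
    exact this.symm
  obtain ⟨H', hH'⟩ := Subgroup.exists_right_complement'_of_coprime hco
  set H := H'.map L.subtype with hH
  have hHL : H ≤ L := Subgroup.map_subtype_le _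
  have hHc : (Nat.card H).Coprime p := by
    rw [hH, card_map_subtype, ← hH'.symm.index_eq_card]
    have := H3.sylow_index_coprime hSL.toSylow
    rwa [hSL.coe_toSylow] at this
  have hLe : L = N ⊔ H := by
    have := congrArg (Subgroup.map L.subtype) hH'.sup_eq_top
    rw [Subgroup.map_sup, map_subgroupOf_of_le hNL, map_top_subtype] at this
    exact this.symm
  have hco2 : (Nat.card H).Coprime (Nat.card R) := (coprime_card_of_isPGroup hRp hHc).symm
  have hLC : L ≤ C := comm_le_of_le le_rfl le_rfl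
  have hRH : ⁅R, H⁆ ≤ N := by
    rw [← hker, ← Subgroup.map_eq_bot_iff, Subgroup.map_commutator, comm_eq_bot', ← hCf]
    exact Subgroup.map_mono (hHL.trans hLC)
  have hsol : Group.IsSolvable R := by
    haveI := isNilpotent_of_isPGroup hRp
    infer_instance
  have h4 := H1.commutator_sup_centralizer (le_NN_of_normal H R) hco2 (Or.inr hsol)
  have h5 : R ⊓ CC(H) = R ⊓ CC(L) := by
    rw [hLe, CC_sup, ← inf_assoc, inf_eq_left.2 (hRa.trans (CC_anti hNR))]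
  have h6 : R ⊓ CC(L) ≠ ⊥ := fun e => hne (by
    rw [h5, e, sup_bot_eq] at h4
    exact h4 ▸ hRH)
  haveI : (R ⊓ CC(L)).Normal :=
    normal_of_top_le_NN (le_NN_inf (le_NN_of_normal ⊤ R) (le_NN_CC (le_NN_of_normal ⊤ L)))
  have h7 : N ≤ CC(H) := ((h.ncl_le' h6).trans inf_le_right).trans (CC_anti hHL)
  have h8 : H ≤ R := (H1.le_centralizer_of_commutator_le hRH h7
    (hco2.coprime_dvd_right (Subgroup.card_dvd_of_le hNR))).trans hCR
  have h9 : L ≤ P := hLe ▸ sup_le (hNR.trans hRP) (h8.trans hRP)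
  have h10 : C ≤ NN(P) := le_NN_of_comm_le_of_le (X := P) (Y := C) h9 hPC
  have h11 : P = pCoreOf p C := ((h.syl.of_le hPC le_top).pCoreOf_eq h10).symm
  haveI : P.Normal := normal_of_top_le_NN (h11 ▸ le_NN_pCoreOf' (le_NN_of_normal ⊤ C))
  haveI : (frOf P).Normal := normal_of_top_le_NN (le_NN_frOf (le_NN_of_normal ⊤ P))
  have h12 := h.fr (frOf P) inferInstance le_rfl
  exact h.comm_ne (le_bot_iff.1 (h12 ▸ comm_le_frOf h.syl.isPGroup))

theorem fstar_le : generalizedFittingSubgroup G ≤ ncl ⁅P, P⁆ ⊤ := by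
  by_cases ha : ncl ⁅P, P⁆ ⊤ ≤ CC(ncl ⁅P, P⁆ ⊤)
  · exact h.fstar_le_of_ab ha
  · exact h.fstar_le_of_na ha

end TGC

end H10
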