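import Cfsg.Agent.H12.SR

/-! A computable model of the wreath product of the dihedral group of order 8 by a group of order 2. -/

set_option autoImplicit false

namespace H10.Wr

structure E where
  a : Bool
  b : Bool
  c : Bool

def E.mul (x y : E) : E := ⟨x.a ^^ y.a, x.b ^^ y.b, x.c ^^ y.c ^^ (x.b && y.a)⟩
def E.inv (x : E) : E := ⟨x.a, x.b, x.c ^^ (x.a && x.b)⟩
def E.eqb (x y : E) : Bool := !(x.a ^^ y.a) && !(x.b ^^ y.b) && !(x.c ^^ y.c)

theorem E.eqb_iff (x y : E) : x.eqb y = true ↔ x = y := by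
  obtain ⟨a, b, c⟩ := x
  obtain ⟨d, e, f⟩ := y
  rw [E.mk.injEq]
  simp only [E.eqb]
  revert a b c d e f
  decide

instance : DecidableEq E := fun x y => decidable_of_iff _ (E.eqb_iff x y)

instance E.decAll (p : E → Prop) [DecidablePred p] : Decidable (∀ x, p x) :=
  decidable_of_iff (∀ a b c : Bool, p ⟨a, b, c⟩) ⟨fun h x => h x.a x.b x.c, fun h _ _ _ => h _⟩

theorem E.assoc : ∀ x y z : E, (x.mul y).mul z = x.mul (y.mul z) := by decide +kernel

def E.eqv : E ≃ Bool × Bool × Bool :=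
  ⟨fun x => (x.a, x.b, x.c), fun x => ⟨x.1, x.2.1, x.2.2⟩, fun _ => rfl, fun _ => rfl⟩

theorem E.card : Nat.card E = 8 := by
  rw [Nat.card_congr E.eqv]; simp

structure M where
  x : E
  y : E
  s : Bool

def M.mul (p q : M) : M :=
  bif p.s then ⟨p.x.mul q.y, p.y.mul q.x, !q.s⟩ else ⟨p.x.mul q.x, p.y.mul q.y, q.s⟩
def M.inv (p : M) : M := bif p.s then ⟨p.y.inv, p.x.inv, true⟩ else ⟨p.x.inv, p.y.inv, false⟩
def M.eqb (p q : M) : Bool := p.x.eqb q.x && p.y.eqb q.y && !(p.s ^^ q.s)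

theorem M.eqb_iff (p q : M) : p.eqb q = true ↔ p = q := by
  obtain ⟨a, b, c⟩ := p
  obtain ⟨d, e, f⟩ := q
  rw [M.mk.injEq]
  simp only [M.eqb, Bool.and_eq_true, E.eqb_iff, and_assoc]
  cases c <;> cases f <;> simp

instance : DecidableEq M := fun x y => decidable_of_iff _ (M.eqb_iff x y)

instance M.decAll (p : M → Prop) [DecidablePred p] : Decidable (∀ x, p x) :=
  decidable_of_iff (∀ (a b : E) (c : Bool), p ⟨a, b, c⟩) ⟨fun h x => h x.x x.y x.s, fun h _ _ _ => h _⟩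

instance : Mul M := ⟨M.mul⟩
instance : Inv M := ⟨M.inv⟩
instance : One M := ⟨⟨⟨false, false, false⟩, ⟨false, false, false⟩, false⟩⟩

theorem M.assoc (p q r : M) : p * q * r = p * (q * r) := by
  obtain ⟨a, b, c⟩ := p
  obtain ⟨d, e, f⟩ := q
  obtain ⟨g, h, i⟩ := r
  change M.mul (M.mul _ _) _ = M.mul _ (M.mul _ _)
  cases c <;> cases f <;> simp [M.mul, E.assoc]

instance : Group M := Group.ofLeftAxioms M.assoc (by decide +kernel) (by decide +kernel)

def M.eqv : M ≃ E × E × Bool :=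
  ⟨fun x => (x.x, x.y, x.s), fun x => ⟨x.1, x.2.1, x.2.2⟩, fun _ => rfl, fun _ => rfl⟩

theorem M.card : Nat.card M = 128 := by
  rw [Nat.card_congr M.eqv, Nat.card_prod, Nat.card_prod, E.card]; simp

instance : Finite M := Nat.finite_of_card_ne_zero (by rw [M.card]; norm_num)

def E.act (x : E) (t i j : Bool) : E := ⟨t, i ^^ x.b, j ^^ x.c ^^ (x.a && !(i ^^ x.b))⟩
def M.act (p : M) (w : E) : E :=
  bif (w.a ^^ p.s) then p.y.act true w.b w.c else p.x.act false w.b w.c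

theorem act_mul : ∀ (p q : M) (w : E), (p * q).act w = p.act (q.act w) := by decide +kernel
theorem act_one : ∀ w : E, (1 : M).act w = w := by decide +kernel
theorem act_inj : ∀ p : M, (∀ w : E, p.act w = w) → p = 1 := by decide +kernel

def o : E := ⟨false, false, false⟩
def A1 : M := ⟨⟨true, false, false⟩, o, false⟩
def B1 : M := ⟨⟨false, true, false⟩, o, false⟩
def Z1 : M := ⟨⟨false, false, true⟩, o, false⟩
def A2 : M := ⟨o, ⟨true, false, false⟩, false⟩
def B2 : M := ⟨o, ⟨false, true, false⟩, false⟩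
def Z2 : M := ⟨o, ⟨false, false, true⟩, false⟩
def ZZ : M := ⟨⟨false, false, true⟩, ⟨false, false, true⟩, false⟩
def SS : M := ⟨o, o, true⟩

def inA (m : M) : Bool := !m.s && !m.x.b && !m.y.b
def inB (m : M) : Bool := !m.s && !m.x.a && !m.y.a
def inZ (m : M) : Bool := inA m && inB m
def inU (m : M) : Bool := inA m || inB m
def cm (p q : M) : M := p * q * p⁻¹ * q⁻¹
def ez (p q : M) : Bool := inZ (p * q⁻¹)

theorem U_iff : ∀ m : M, inU m = true ↔ (m * m = 1 ∧ ∀ g : M, cm m (g * m * g⁻¹) = 1) := by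
  decide +kernel

set_option synthInstance.maxSize 2000 in
set_option synthInstance.maxHeartbeats 200000 in
theorem four : ∀ u₁ : M, inU u₁ = true → ∀ v₁ : M, inU v₁ = true → cm u₁ v₁ ≠ 1 →
    ∀ u₂ : M, inU u₂ = true → inU (u₁ * u₂) = true → cm v₁ u₂ = 1 →
    ∀ v₂ : M, inU v₂ = true → cm u₁ v₂ = 1 → cm u₂ v₂ ≠ 1 → cm u₁ v₁ * cm u₂ v₂ = ZZ →
    (ez u₁ A1 && ez v₁ B1 && ez u₂ A2 && ez v₂ B2) = true ∨
    (ez u₁ A2 && ez v₁ B2 && ez u₂ A1 && ez v₂ B1) = true ∨
    (inB u₁ && inA v₁ && inB u₂ && inA v₂) = true := by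
  decide +kernel

end H10.Wr
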