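import Cfsg.Agent.H10.Wr1

/-! Subgroups and automorphisms of the model. -/

set_option autoImplicit false

open Subgroup

namespace H10.Wr

instance : Fintype E := Fintype.ofEquiv _ E.eqv.symm
instance : Fintype M := Fintype.ofEquiv _ M.eqv.symm

theorem card_sub (p : M → Bool) :
    Nat.card {m // p m = true} = (Finset.univ.filter fun m => p m = true).card := by
  rw [Nat.card_eq_fintype_card, Fintype.card_subtype]

def mkSub (p : M → Bool) (h1 : p 1 = true) (hm : ∀ x, p x = true → ∀ y, p y = true → p (x * y) = true)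
    (hi : ∀ x, p x = true → p x⁻¹ = true) : Subgroup M where
  carrier := {m | p m = true}
  one_mem' := h1
  mul_mem' := fun ha hb => hm _ ha _ hb
  inv_mem' := fun ha => hi _ ha

def inD (m : M) : Bool := !m.s
def inO (m : M) : Bool := m.s && decide (m * m = 1)

def DD : Subgroup M := mkSub inD rfl (by decide +kernel) (by decide +kernel)
def VA : Subgroup M := mkSub inA rfl (by decide +kernel) (by decide +kernel)
def VB : Subgroup M := mkSub inB rfl (by decide +kernel) (by decide +kernel)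
def ZD : Subgroup M := mkSub inZ rfl (by decide +kernel) (by decide +kernel)

theorem card_DD : Nat.card DD = 64 := (card_sub inD).trans (by decide +kernel)
theorem card_VA : Nat.card VA = 16 := (card_sub inA).trans (by decide +kernel)
theorem card_VB : Nat.card VB = 16 := (card_sub inB).trans (by decide +kernel)
theorem card_ZD : Nat.card ZD = 4 := (card_sub inZ).trans (by decide +kernel)
theorem card_O : Nat.card {m // inO m = true} = 8 := (card_sub inO).trans (by decide +kernel)

theorem cen_of : ∀ m : M, A1 * m = m * A1 → B1 * m = m * B1 → SS * m = m * SS → m = 1 ∨ m = ZZ := by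
  decide +kernel
theorem ZZ_cen : ∀ g : M, g * ZZ = ZZ * g := by decide +kernel
theorem ZZ_ne : ZZ ≠ 1 := by decide +kernel
theorem ZZ_sq : ZZ * ZZ = 1 := by decide +kernel
theorem cen_D : ∀ m : M, m * A1 * m⁻¹ = A1 → m * B1 * m⁻¹ = B1 → m * A2 * m⁻¹ = A2 →
    m * B2 * m⁻¹ = B2 → inZ m = true := by decide +kernel
theorem sq_D : ∀ m : M, inD m = true → inZ (m * m) = true := by decide +kernel
theorem Z_norm : ∀ w : M, inZ w = true → ∀ g : M, inZ (g * w * g⁻¹) = true := by decide +kernel
theorem Z_cases : ∀ w : M, inZ w = true → w = 1 ∨ w = Z1 ∨ w = Z2 ∨ w = Z1 * Z2 := by decide +kernel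
theorem Z_sq : ∀ w : M, inZ w = true → w * w = 1 := by decide +kernel
theorem Z_D : ∀ w : M, inZ w = true → inD w = true := by decide +kernel
theorem U_D : ∀ w : M, inU w = true → inD w = true := by decide +kernel
theorem cm1 : ∀ u : M, ez u A1 = true → ∀ v : M, ez v B1 = true → cm u v = Z1 := by decide +kernel
theorem cm2 : ∀ u : M, ez u A2 = true → ∀ v : M, ez v B2 = true → cm u v = Z2 := by decide +kernel
theorem cm3 : ∀ u : M, inB u = true → ∀ v : M, inA v = true → inZ (cm u v) = true := by decide +kernel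
theorem sw : ∀ u : M, (ez u A2 = true → ez (SS * u * SS⁻¹) A1 = true) ∧
    (ez u B2 = true → ez (SS * u * SS⁻¹) B1 = true) ∧ (ez u A1 = true → ez (SS * u * SS⁻¹) A2 = true) ∧
    (ez u B1 = true → ez (SS * u * SS⁻¹) B2 = true) := by decide +kernel
theorem cen_O : ∀ m : M, (∀ w : M, inO w = true → m * w * m⁻¹ = w) → m = 1 ∨ m = ZZ := by decide +kernel
theorem UU : ∀ u : M, inA u = true → ∀ v : M, inB v = true → inU (u * v) = true →
    inB u = true ∨ inA v = true := by decide +kernel
theorem decomp : ∀ d : M, inD d = true → d = (bif d.x.a then A1 else 1) * (bif d.x.b then B1 else 1) *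
    (bif d.x.c then Z1 else 1) * (bif d.y.a then A2 else 1) * (bif d.y.b then B2 else 1) *
    (bif d.y.c then Z2 else 1) := by decide +kernel
theorem A_bits : ∀ d : M, inA d = true → inD d = true ∧ d.x.b = false ∧ d.y.b = false := by decide +kernel
theorem B_bits : ∀ d : M, inB d = true → inD d = true ∧ d.x.a = false ∧ d.y.a = false := by decide +kernel

theorem ind (p : M → Prop) (h1 : p 1) (hm : ∀ x y, p x → p y → p (x * y)) (d : M) (hd : inD d = true)
    (a1 : d.x.a = true → p A1) (b1 : d.x.b = true → p B1) (a2 : d.y.a = true → p A2)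
    (b2 : d.y.b = true → p B2) (z1 : p Z1) (z2 : p Z2) : p d := by
  have k : ∀ (b : Bool) (x : M), (b = true → p x) → p (bif b then x else 1) := fun b x h => by
    cases b
    · exact h1
    · exact h rfl
  rw [decomp d hd]
  exact hm _ _ (hm _ _ (hm _ _ (hm _ _ (hm _ _ (k _ _ a1) (k _ _ b1)) (k _ _ fun _ => z1)) (k _ _ a2))
    (k _ _ b2)) (k _ _ fun _ => z2)

variable (α : MulAut M)

theorem map_cm (p q : M) : α (cm p q) = cm (α p) (α q) := by simp [cm]

theorem map_ZZ : α ZZ = ZZ := by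
  have h : ∀ g, g * α ZZ = α ZZ * g := fun g => by
    obtain ⟨g, rfl⟩ := α.surjective g
    rw [← map_mul, ZZ_cen, map_mul]
  exact (cen_of _ (h _) (h _) (h _)).resolve_left fun e => ZZ_ne ((map_eq_one_iff _ α.injective).1 e)

theorem map_U {m : M} (h : inU m = true) : inU (α m) = true := by
  obtain ⟨h1, h2⟩ := (U_iff m).1 h
  refine (U_iff _).2 ⟨by rw [← map_mul, h1, map_one], fun g => ?_⟩
  obtain ⟨g, rfl⟩ := α.surjective g
  rw [← map_inv, ← map_mul, ← map_mul, ← map_cm, h2, map_one]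

theorem map_D {d : M} (hd : inD d = true) : inD (α d) = true := by
  have k : ∀ m, inU m = true → α m ∈ DD := fun m h => U_D _ (map_U α h)
  exact ind (fun d => α d ∈ DD) (by rw [map_one]; exact one_mem _)
    (fun x y hx hy => by rw [map_mul]; exact mul_mem hx hy) d hd (fun _ => k _ rfl) (fun _ => k _ rfl)
    (fun _ => k _ rfl) (fun _ => k _ rfl) (k _ rfl) (k _ rfl)

theorem map_O {m : M} (h : inO m = true) : inO (α m) = true := by
  simp only [inO, Bool.and_eq_true, decide_eq_true_eq] at h ⊢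
  refine ⟨?_, by rw [← map_mul, h.2, map_one]⟩
  by_contra hn
  have := map_D α⁻¹ (d := α m) (by simpa [inD] using hn)
  rw [MulAut.inv_apply_self] at this
  simp [inD, h.1] at this

/-- trivial action on `D / Z(D)` and on `Z(D)` -/
def P1 : Prop := (∀ w, inZ w = true → α w = w) ∧ ∀ d, inD d = true → α d * d⁻¹ ∈ ZD
/-- swapping the two normal elementary abelian subgroups of order 16 -/
def P3 : Prop := (∀ m ∈ VA, α m ∈ VB) ∧ ∀ m ∈ VB, α m ∈ VA

theorem p1_of (a1 : ez (α A1) A1 = true) (b1 : ez (α B1) B1 = true) (a2 : ez (α A2) A2 = true)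
    (b2 : ez (α B2) B2 = true) : P1 α := by
  have z1 : α Z1 = Z1 := by
    rw [← cm1 A1 (by decide +kernel) B1 (by decide +kernel), map_cm, cm1 _ a1 _ b1,
      cm1 A1 (by decide +kernel) B1 (by decide +kernel)]
  have z2 : α Z2 = Z2 := by
    rw [← cm2 A2 (by decide +kernel) B2 (by decide +kernel), map_cm, cm2 _ a2 _ b2,
      cm2 A2 (by decide +kernel) B2 (by decide +kernel)]
  refine ⟨fun w hw => ?_, fun d hd => ind (fun d => α d * d⁻¹ ∈ ZD) (by simp) (fun x y hx hy => ?_) d hd
    (fun _ => a1) (fun _ => b1) (fun _ => a2) (fun _ => b2) (by simp [z1]) (by simp [z2])⟩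
  · rcases Z_cases w hw with rfl | rfl | rfl | rfl <;> simp [z1, z2]
  · have : α (x * y) * (x * y)⁻¹ = α x * x⁻¹ * (x * (α y * y⁻¹) * x⁻¹) := by rw [map_mul]; group
    rw [this]
    exact mul_mem hx (Z_norm _ hy x)

theorem tri : P1 α ∨ P1 (MulAut.conj SS * α) ∨ P3 α := by
  have e1 : cm A1 B1 ≠ 1 := by decide +kernel
  have e2 : cm A2 B2 ≠ 1 := by decide +kernel
  have e3 : cm B1 A2 = 1 := by decide +kernel
  have e4 : cm A1 B2 = 1 := by decide +kernel
  have e5 : cm A1 B1 * cm A2 B2 = ZZ := by decide +kernel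
  have := four (α A1) (map_U α rfl) (α B1) (map_U α rfl)
    (by rw [← map_cm]; exact fun e => e1 ((map_eq_one_iff _ α.injective).1 e)) (α A2) (map_U α rfl)
    (by rw [← map_mul]; exact map_U α (by decide +kernel)) (by rw [← map_cm, e3, map_one]) (α B2)
    (map_U α rfl) (by rw [← map_cm, e4, map_one])
    (by rw [← map_cm]; exact fun e => e2 ((map_eq_one_iff _ α.injective).1 e))
    (by rw [← map_cm, ← map_cm, ← map_mul, e5, map_ZZ])
  simp only [Bool.and_eq_true] at this
  rcases this with ⟨⟨⟨a1, b1⟩, a2⟩, b2⟩ | ⟨⟨⟨a1, b1⟩, a2⟩, b2⟩ | ⟨⟨⟨a1, b1⟩, a2⟩, b2⟩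
  · exact .inl (p1_of α a1 b1 a2 b2)
  · exact .inr (.inl (p1_of _ ((sw _).1 a1) ((sw _).2.1 b1) ((sw _).2.2.1 a2) ((sw _).2.2.2 b2)))
  · have z1 : inZ (α Z1) = true := by
      rw [← cm1 A1 (by decide +kernel) B1 (by decide +kernel), map_cm]; exact cm3 _ a1 _ b1
    have z2 : inZ (α Z2) = true := by
      rw [← cm2 A2 (by decide +kernel) B2 (by decide +kernel), map_cm]; exact cm3 _ a2 _ b2
    simp only [inZ, Bool.and_eq_true] at z1 z2
    refine .inr (.inr ⟨fun m hm => ?_, fun m hm => ?_⟩)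
    · obtain ⟨h1, h2, h3⟩ := A_bits m hm
      exact ind (fun d => α d ∈ VB) (by simp) (fun x y hx hy => by rw [map_mul]; exact mul_mem hx hy) m h1
        (fun _ => a1) (by simp [h2]) (fun _ => a2) (by simp [h3]) z1.2 z2.2
    · obtain ⟨h1, h2, h3⟩ := B_bits m hm
      exact ind (fun d => α d ∈ VA) (by simp) (fun x y hx hy => by rw [map_mul]; exact mul_mem hx hy) m h1
        (by simp [h2]) (fun _ => b1) (by simp [h3]) (fun _ => b2) z1.1 z2.1

theorem e16 (V : Subgroup M) (hn : ∀ g, ∀ v ∈ V, g * v * g⁻¹ ∈ V) (hc : ∀ u ∈ V, ∀ v ∈ V, u * v = v * u)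
    (hs : ∀ v ∈ V, v * v = 1) (h16 : Nat.card V = 16) : V = VA ∨ V = VB := by
  have hU : ∀ v ∈ V, inU v = true := fun v hv => (U_iff v).2 ⟨hs v hv, fun g => by
    rw [cm, hc v hv _ (hn g v hv)]; group⟩
  by_cases h : V ≤ VA
  · exact .inl (eq_of_le_of_card_ge h (by rw [h16, card_VA]))
  · obtain ⟨v, hv, hv'⟩ := SetLike.not_le_iff_exists.1 h
    refine .inr (eq_of_le_of_card_ge (fun u hu => ?_) (by rw [h16, card_VB]))
    have h1 := hU u hu
    have h2 := hU v hv
    simp only [inU, Bool.or_eq_true] at h1 h2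
    exact h1.elim (fun h1 => (UU u h1 v (h2.resolve_left hv') (hU _ (mul_mem hu hv))).resolve_right hv') id

end H10.Wr
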