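import Cfsg.Agent.H10.Wr2
import Cfsg.Agent.H9.Basic

/-! Overgroups of sectional rank at most four normalizing the model. -/

set_option autoImplicit false
set_option linter.unusedSectionVars false

open Subgroup Cfsg

namespace H10.Wr

theorem step {G : Type*} [Group G] {Q : Subgroup G} : ∀ (k : ℕ) {g : G}, g ^ 2 ^ k = 1 → g ∉ Q →
    ∃ n : ℕ, g ^ n ∉ Q ∧ g ^ n * g ^ n ∈ Q
  | 0, g, h, hg => (hg (by rw [pow_zero, pow_one] at h; rw [h]; exact one_mem _)).elim
  | k + 1, g, h, hg => by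
    by_cases e : g * g ∈ Q
    · exact ⟨1, by rwa [pow_one], by rwa [pow_one]⟩
    · obtain ⟨n, h1, h2⟩ := step k (g := g * g) (by rw [← sq, ← pow_mul, ← pow_succ', h]) e
      exact ⟨2 * n, by rwa [pow_mul, sq], by rwa [pow_mul, sq]⟩

theorem syl {G Ω : Type*} [Group G] (hΩ : Nat.card Ω = 8) (f : G →* Equiv.Perm Ω)
    (hc : Nat.card f.range = 128) :
    ∃ T : Sylow 2 (Equiv.Perm (Fin 8)), Nonempty (f.range ≃* (T : Subgroup (Equiv.Perm (Fin 8)))) := by
  have : Finite Ω := Nat.finite_of_card_ne_zero (by rw [hΩ]; norm_num)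
  let e := (Finite.equivFinOfCardEq hΩ).permCongrHom
  have c1 : Nat.card (Equiv.Perm (Fin 8)) = 2 ^ 7 * 315 := by
    rw [Nat.card_perm, Nat.card_fin]; rfl
  refine ⟨Sylow.ofCard (f.range.map e.toMonoidHom) ?_, ⟨e.subgroupMap f.range⟩⟩
  rw [card_map_of_injective e.injective, hc, c1, Nat.factorization_mul (by norm_num) (by norm_num),
    Nat.prime_two.factorization_pow]
  simp [Nat.factorization_eq_zero_of_not_dvd]

def actHom : M →* Equiv.Perm E where
  toFun p := ⟨p.act, p⁻¹.act, fun w => by rw [← act_mul, inv_mul_cancel, act_one],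
    fun w => by rw [← act_mul, mul_inv_cancel, act_one]⟩
  map_one' := Equiv.ext act_one
  map_mul' p q := Equiv.ext (act_mul p q)

theorem iso_M (T : Sylow 2 (Equiv.Perm (Fin 8))) : Nonempty (M ≃* (T : Subgroup (Equiv.Perm (Fin 8)))) := by
  have hi : Function.Injective actHom := (injective_iff_map_eq_one _).2 fun p h =>
    act_inj p fun w => Equiv.congr_fun h w
  obtain ⟨T', ⟨e⟩⟩ := syl E.card actHom
    ((Nat.card_congr (MonoidHom.ofInjective hi).toEquiv).symm.trans M.card)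
  exact ⟨(MonoidHom.ofInjective hi).trans (e.trans (Sylow.equiv T' T))⟩

variable {N : Type*} [Group N] [Finite N] (h2 : IsPGroup 2 N) (hr : SectionalPRankLE 2 4 N)
  {φ : M →* N} (hφ : Function.Injective φ) {ρ : N →* MulAut M} (hρ : ∀ x m, φ (ρ x m) = x * φ m * x⁻¹)

include hr hφ hρ in
theorem rank {y : N} (hy : y ∉ φ.range) (h1 : y * y ∈ φ.range) (hp : P1 (ρ y)) : False := by
  obtain ⟨m, hm⟩ := h1
  have hD : ∀ d, inD d = true → m * d * m⁻¹ = d := fun d hd => hφ (by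
    have e : ρ y d = ρ y d * d⁻¹ * d := by group
    have e2 : ρ y (ρ y d) = d := by
      have := Z_sq _ (hp.2 d hd)
      calc ρ y (ρ y d) = ρ y (ρ y d * d⁻¹) * ρ y d := by rw [← map_mul, ← e]
        _ = ρ y d * d⁻¹ * (ρ y d * d⁻¹) * d := by rw [hp.1 _ (hp.2 d hd)]; group
        _ = d := by rw [this, one_mul]
    rw [map_mul, map_mul, map_inv, hm]
    conv_rhs => rw [← e2, hρ, hρ]
    group)
  have hz : m ∈ ZD := cen_D m (hD _ rfl) (hD _ rfl) (hD _ rfl) (hD _ rfl)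
  have hn : y ∈ normalizer (DD.map φ : Set N) := by
    refine mem_normalizer_fintype ?_
    rintro _ ⟨d, hd, rfl⟩
    exact ⟨ρ y d, map_D _ hd, hρ y d⟩
  have hyD : y ∉ DD.map φ := fun h => hy (map_le_range _ _ h)
  have hsq : y ^ 2 ∈ DD.map φ := ⟨m, Z_D m hz, by rw [hm, sq]⟩
  have c1 := H9.card_sup_zpowers Nat.prime_two hn hyD hsq
  rw [card_map_of_injective hφ, card_DD] at c1
  have hle : ZD.map φ ≤ DD.map φ ⊔ zpowers y := (map_mono fun w hw => Z_D w hw).trans le_sup_left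
  have c2 := H1.card_mul_relIndex hle
  rw [card_map_of_injective hφ, card_ZD, c1] at c2
  have := H12.SR.sec_le hr (DD.map φ ⊔ zpowers y) (ZD.map φ) fun h hh => by
    obtain ⟨_, ⟨d, hd, rfl⟩, k, rfl⟩ := (H9.mem_sup_zpowers_nat hn).1 hh
    have hk : y ^ k = φ (m ^ (k / 2)) * y ^ (k % 2) := by
      rw [map_pow, hm, ← sq, ← pow_mul, ← pow_add, Nat.div_add_mod]
    have hd' : d * m ^ (k / 2) ∈ DD := mul_mem hd (pow_mem (Z_D m hz) _)
    rw [hk, ← mul_assoc, ← map_mul]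
    generalize d * m ^ (k / 2) = d' at hd'
    rcases Nat.mod_two_eq_zero_or_one k with e | e <;> rw [e]
    · exact ⟨d' * d', sq_D _ hd', by simp [sq]⟩
    · refine ⟨d' * (ρ y d' * d'⁻¹) * d'⁻¹ * (d' * d') * m,
        mul_mem (mul_mem (Z_norm _ (hp.2 _ hd') _) (sq_D _ hd')) hz, ?_⟩
      simp only [map_mul, map_inv, hρ, hm, sq, pow_one]
      group
  omega

include h2 hr hφ hρ in
theorem p1_mem {x : N} (hp : P1 (ρ x)) : x ∈ φ.range := by
  by_contra hx
  obtain ⟨k, hk⟩ := h2 x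
  obtain ⟨n, h1, h3⟩ := step k hk hx
  refine rank hr hφ hρ h1 h3 ?_
  rw [map_pow]
  clear h1 h3
  induction n with
  | zero => exact ⟨fun _ _ => rfl, fun d _ => by simp⟩
  | succ n ih =>
    refine ⟨fun w hw => by rw [pow_succ, MulAut.mul_apply, hp.1 w hw, ih.1 w hw], fun d hd => ?_⟩
    have e : (ρ x ^ (n + 1)) d * d⁻¹ = (ρ x ^ n) (ρ x d) * (ρ x d)⁻¹ * (ρ x d * d⁻¹) := by
      rw [pow_succ, MulAut.mul_apply]; group
    rw [e]
    exact mul_mem (ih.2 _ (map_D _ hd)) (hp.2 d hd)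

include hφ hρ in
theorem rho_phi (m : M) : ρ (φ m) = MulAut.conj m := by
  ext d
  exact hφ (by rw [hρ]; simp)

include h2 hr hφ hρ in
theorem p3 {x : N} (hx : x ∉ φ.range) : P3 (ρ x) := by
  rcases tri (ρ x) with h | h | h
  · exact (hx (p1_mem h2 hr hφ hρ h)).elim
  · rw [← rho_phi hφ hρ, ← map_mul] at h
    exact (hx ((mul_mem_cancel_left (⟨SS, rfl⟩ : φ SS ∈ φ.range)).1 (p1_mem h2 hr hφ hρ h))).elim
  · exact h

theorem not_AB : A1 * A2 ∈ VA ∧ A1 * A2 ∉ VB ∧ B1 * B2 ∈ VB ∧ B1 * B2 ∉ VA :=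
  ⟨(rfl : inA _ = true), (by decide +kernel : ¬ inB _ = true), (rfl : inB _ = true),
    (by decide +kernel : ¬ inA _ = true)⟩

theorem p3_not {α : MulAut M} (h : P3 α) : ¬ (∀ m ∈ VA, α m ∈ VA) ∧ ¬ (∀ m ∈ VB, α m ∈ VB) := by
  have k : ∀ A B : Subgroup M, Nat.card A = 16 → (∀ m ∈ A, α m ∈ ZD) → False := fun A B hA h => by
    have h1 : A.map (α : M →* M) ≤ ZD := by rintro _ ⟨m, hm, rfl⟩; exact h m hm
    have := card_le_of_le h1
    rw [card_map_of_injective α.injective, hA, card_ZD] at this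
    omega
  have z : ∀ m ∈ VA, m ∈ VB → m ∈ ZD := fun m h1 h2 => (Bool.and_eq_true _ _).mpr ⟨h1, h2⟩
  exact ⟨fun h' => k VA VA card_VA fun m hm => z _ (h' m hm) (h.1 m hm),
    fun h' => k VB VB card_VB fun m hm => z _ (h.2 m hm) (h' m hm)⟩

include h2 hr hφ hρ in
theorem idx (hne : φ.range ≠ ⊤) : φ.range.index = 2 := by
  obtain ⟨a, -, ha⟩ := SetLike.exists_of_lt (lt_top_iff_ne_top.2 hne)
  refine index_eq_two_iff.2 ⟨a, fun b => ?_⟩
  by_cases hb : b ∈ φ.range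
  · exact .inr ⟨hb, fun h => ha ((mul_mem_cancel_left hb).1 h)⟩
  · refine .inl ⟨?_, hb⟩
    by_contra h
    refine (p3_not (p3 h2 hr hφ hρ h)).1 fun m hm => ?_
    rw [map_mul]
    exact (p3 h2 hr hφ hρ hb).2 _ ((p3 h2 hr hφ hρ ha).1 m hm)

theorem O_iff (α : MulAut M) (m : M) : inO (α m) = true ↔ inO m = true :=
  ⟨fun h => by simpa using map_O α⁻¹ h, map_O α⟩

def psi (ρ : N →* MulAut M) : N →* Equiv.Perm {m // inO m = true} where
  toFun x := Equiv.Perm.subtypePerm (ρ x).toEquiv (O_iff (ρ x))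
  map_one' := by ext; simp
  map_mul' x y := Equiv.ext fun w => Subtype.ext (by
    change ρ (x * y) w = ρ x (ρ y w)
    rw [map_mul, MulAut.mul_apply])

include h2 hr hφ hρ in
theorem ker_psi (x : N) : x ∈ (psi ρ).ker ↔ x = 1 ∨ x = φ ZZ := by
  have k : x ∈ (psi ρ).ker ↔ ∀ w, inO w = true → ρ x w = w :=
    ⟨fun h w hw => congrArg Subtype.val (Equiv.congr_fun (MonoidHom.mem_ker.1 h) ⟨w, hw⟩),
      fun h => MonoidHom.mem_ker.2 (Equiv.ext fun w => Subtype.ext (h w.1 w.2))⟩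
  rw [k]
  constructor
  · intro h
    by_cases hx : x ∈ φ.range
    · obtain ⟨m, rfl⟩ := hx
      rw [rho_phi hφ hρ] at h
      rcases cen_O m h with rfl | rfl <;> simp
    · have := (p3 h2 hr hφ hρ hx).1 _ not_AB.1
      have e : A1 * A2 = SS * (SS * (A1 * A2)) := by decide +kernel
      rw [e, map_mul, h SS (by decide +kernel), h _ (by decide +kernel), ← e] at this
      exact (not_AB.2.1 this).elim
  · rintro (rfl | rfl) w -
    · simp
    · rw [rho_phi hφ hρ, MulAut.conj_apply, ← ZZ_cen, mul_inv_cancel_right]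

end H10.Wr
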